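import Mathlib
import Cfsg.Prelude

/-!
Brauer–Suzuki–Wall configuration: local facts about the abelian subgroup `K` of index two in the
centraliser of an involution (helper3).
-/

set_option autoImplicit false

namespace Cfsg.Agent.Lib.BSW

open Cfsg

universe u

variable {G : Type u} [Group G] [Finite G]

/-- The configuration of the abstract Brauer–Suzuki–Wall theorem. -/
structure Hyp (t : G) (K : Subgroup G) (s : G) (m : ℕ) : Prop where
  ht : orderOf t = 2
  card : Nat.card K = 2 * m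
  comm : ∀ a ∈ K, ∀ b ∈ K, a * b = b * a
  le : K ≤ Subgroup.centralizer ({t} : Set G)
  tK : t ∈ K
  hs : orderOf s = 2
  sH : s ∈ Subgroup.centralizer ({t} : Set G)
  sK : s ∉ K
  sup : K ⊔ Subgroup.zpowers s = Subgroup.centralizer ({t} : Set G)
  cks : K ⊓ Subgroup.centralizer ({s} : Set G) = Subgroup.zpowers t
  inv : ∀ x ∈ K, s * x * s⁻¹ = x⁻¹
  TI : ∀ g : G, g ∉ Subgroup.centralizer ({t} : Set G) →
    K ⊓ K.map (MulAut.conj g).toMonoidHom = ⊥
  conj : ∀ x y : G, orderOf x = 2 → orderOf y = 2 → IsConj x y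

/-- An element conjugate to a non-identity element of `K`. -/
def Covered (K : Subgroup G) (g : G) : Prop := ∃ k ∈ K, k ≠ 1 ∧ IsConj g k

/-- The remaining non-identity elements. -/
def Rest (K : Subgroup G) (g : G) : Prop := g ≠ 1 ∧ ¬ Covered K g

/-- The involutions `u` with `u * g` an involution. -/
def Invs (g : G) : Set G := {u | orderOf u = 2 ∧ orderOf (u * g) = 2}

omit [Finite G] in
theorem orderOf_eq_two {x : G} (h1 : x ≠ 1) (h2 : x * x = 1) : orderOf x = 2 :=
  orderOf_eq_prime (by rw [pow_two]; exact h2) h1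

omit [Finite G] in
theorem mul_self_of_orderOf {x : G} (h : orderOf x = 2) : x * x = 1 := by
  rw [← pow_two, ← h]; exact pow_orderOf_eq_one x

omit [Finite G] in
theorem inv_eq_self_of_orderOf {x : G} (h : orderOf x = 2) : x⁻¹ = x :=
  inv_eq_of_mul_eq_one_right (mul_self_of_orderOf h)

omit [Finite G] in
theorem ne_one_of_orderOf {x : G} (h : orderOf x = 2) : x ≠ 1 := fun e => by
  rw [e, orderOf_one] at h; omega

omit [Finite G] in
theorem orderOf_conj (y x : G) : orderOf (y * x * y⁻¹) = orderOf x :=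
  (MulAut.conj y).orderOf_eq x

omit [Finite G] in
theorem Rest.conj {K : Subgroup G} {g : G} (hg : Rest K g) (y : G) : Rest K (y * g * y⁻¹) := by
  refine ⟨fun e => hg.1 (conj_eq_one_iff.1 e), fun ⟨k, hk, hk1, hc⟩ => hg.2 ⟨k, hk, hk1, ?_⟩⟩
  exact (isConj_iff.2 ⟨y, rfl⟩).trans hc

variable {t s : G} {K : Subgroup G} {m : ℕ}

theorem Hyp.mpos (h : Hyp t K s m) : 0 < m := by
  have h1 : 0 < Nat.card K := Nat.card_pos
  have h2 := h.card
  omega

theorem Hyp.sq_one (h : Hyp t K s m) {k : G} (hk : k ∈ K) (h2 : k * k = 1) : k = 1 ∨ k = t := by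
  have hks : k ∈ Subgroup.centralizer ({s} : Set G) := by
    refine Subgroup.mem_centralizer_singleton_iff.2 ?_
    have h3 := h.inv k hk
    rw [inv_eq_of_mul_eq_one_right h2, mul_inv_eq_iff_eq_mul] at h3
    exact h3.symm
  have h4 : k ∈ Subgroup.zpowers t := h.cks ▸ (⟨hk, hks⟩ : k ∈ K ⊓ Subgroup.centralizer ({s} : Set G))
  obtain ⟨n, hn⟩ := (Submonoid.mem_powers_iff _ _).1
    ((mem_powers_iff_mem_zpowers).2 h4)
  rw [← pow_mod_orderOf, h.ht] at hn
  rcases Nat.mod_two_eq_zero_or_one n with h5 | h5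
  · rw [h5, pow_zero] at hn; exact Or.inl hn.symm
  · rw [h5, pow_one] at hn; exact Or.inr hn.symm

theorem Hyp.eq_t (h : Hyp t K s m) {k : G} (hk : k ∈ K) (ho : orderOf k = 2) : k = t :=
  (h.sq_one hk (mul_self_of_orderOf ho)).resolve_left (ne_one_of_orderOf ho)

theorem Hyp.mem_H (h : Hyp t K s m) {g : G} (hg : g ∈ Subgroup.centralizer ({t} : Set G)) :
    g ∈ K ∨ s * g ∈ K := by
  have hs2 := mul_self_of_orderOf h.hs
  have hsi := inv_eq_self_of_orderOf h.hs
  have hinv : ∀ x ∈ K, s * x * s = x⁻¹ := fun x hx => by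
    have := h.inv x hx
    rwa [hsi] at this
  let L : Subgroup G :=
    { carrier := {g | g ∈ K ∨ s * g ∈ K}
      one_mem' := Or.inl K.one_mem
      mul_mem' := by
        rintro a b (ha | ha) (hb | hb)
        · exact Or.inl (K.mul_mem ha hb)
        · refine Or.inr ?_
          have : s * (a * b) = (s * a * s) * (s * b) := by
            calc s * (a * b) = s * a * (s * s) * b := by rw [hs2]; group
              _ = _ := by group
          rw [this, hinv a ha]
          exact K.mul_mem (K.inv_mem ha) hb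
        · refine Or.inr ?_
          rw [← mul_assoc]
          exact K.mul_mem ha hb
        · refine Or.inl ?_
          have : a * b = (s * (s * a) * s) * (s * b) := by
            calc a * b = (s * s) * a * (s * s) * b := by rw [hs2]; group
              _ = _ := by group
          rw [this, hinv _ ha]
          exact K.mul_mem (K.inv_mem ha) hb
      inv_mem' := by
        rintro a (ha | ha)
        · exact Or.inl (K.inv_mem ha)
        · refine Or.inr ?_
          have h3 : s * (s * a)⁻¹ * s = s * a⁻¹ := by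
            rw [mul_inv_rev, hsi]
            calc s * (a⁻¹ * s) * s = s * a⁻¹ * (s * s) := by group
              _ = _ := by rw [hs2, mul_one]
          rw [← h3, hinv _ (K.inv_mem ha), inv_inv]
          exact ha }
  have hle : K ⊔ Subgroup.zpowers s ≤ L :=
    sup_le (fun x hx => Or.inl hx) (Subgroup.zpowers_le.2 (Or.inr (by rw [hs2]; exact K.one_mem)))
  exact hle (h.sup ▸ hg)

theorem Hyp.outside (h : Hyp t K s m) {g : G} (hg : g ∈ Subgroup.centralizer ({t} : Set G))
    (hgK : g ∉ K) : orderOf g = 2 ∧ ∀ x ∈ K, g * x * g⁻¹ = x⁻¹ := by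
  have hk : s * g ∈ K := (h.mem_H hg).resolve_left hgK
  have hsi := inv_eq_self_of_orderOf h.hs
  have hg' : g = s * (s * g) := by rw [← mul_assoc, mul_self_of_orderOf h.hs, one_mul]
  refine ⟨orderOf_eq_two (fun e => hgK (by rw [e]; exact K.one_mem)) ?_, fun x hx => ?_⟩
  · have h2 := h.inv (s * g) hk
    rw [hsi] at h2
    calc g * g = (s * (s * g)) * (s * (s * g)) := by rw [← hg']
      _ = (s * (s * g) * s) * (s * g) := by group
      _ = 1 := by rw [h2, inv_mul_cancel]
  · calc g * x * g⁻¹ = s * ((s * g) * x * (s * g)⁻¹) * s⁻¹ := by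
          conv_lhs => rw [hg']
          group
      _ = s * x * s⁻¹ := by rw [h.comm _ hk x hx, mul_inv_cancel_right]
      _ = x⁻¹ := h.inv x hx

theorem Hyp.card_H (h : Hyp t K s m) :
    Nat.card (Subgroup.centralizer ({t} : Set G)) = 4 * m := by
  have hi : (K.subgroupOf (Subgroup.centralizer ({t} : Set G))).index = 2 := by
    refine Subgroup.index_eq_two_iff.2 ⟨⟨s, h.sH⟩, fun b => ?_⟩
    simp only [Subgroup.mem_subgroupOf, Subgroup.coe_mul]
    by_cases hb : (b : G) ∈ K
    · refine Or.inr ⟨hb, fun h' => h.sK ?_⟩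
      have := K.mul_mem (K.inv_mem hb) h'
      rwa [inv_mul_cancel_left] at this
    · refine Or.inl ⟨?_, hb⟩
      rcases h.mem_H b.2 with h' | h'
      · exact absurd h' hb
      · have h2 := h.inv _ h'
        rw [inv_eq_self_of_orderOf h.hs] at h2
        have h3 : (b : G) * s = s * (s * (b : G)) * s := by
          rw [← mul_assoc, mul_self_of_orderOf h.hs, one_mul]
        rw [h3, h2]
        exact K.inv_mem h'
  have h1 := (K.subgroupOf (Subgroup.centralizer ({t} : Set G))).card_mul_index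
  rw [hi, Nat.card_congr (Subgroup.subgroupOfEquivOfLe h.le).toEquiv, h.card] at h1
  omega

theorem Hyp.mem_H_of_conj_mem (h : Hyp t K s m) {g k : G} (hk : k ∈ K) (hk1 : k ≠ 1)
    (hc : g * k * g⁻¹ ∈ K) : g ∈ Subgroup.centralizer ({t} : Set G) := by
  by_contra hg
  have h1 : g * k * g⁻¹ ∈ K ⊓ K.map (MulAut.conj g).toMonoidHom := ⟨hc, ⟨k, hk, rfl⟩⟩
  rw [h.TI g hg, Subgroup.mem_bot] at h1
  exact hk1 (conj_eq_one_iff.1 h1)

theorem Hyp.conj_K (h : Hyp t K s m) {g k : G} (hk : k ∈ K)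
    (hg : g ∈ Subgroup.centralizer ({t} : Set G)) :
    (g ∈ K → g * k * g⁻¹ = k) ∧ (g ∉ K → g * k * g⁻¹ = k⁻¹) :=
  ⟨fun hgK => by rw [h.comm g hgK k hk, mul_inv_cancel_right],
    fun hgK => (h.outside hg hgK).2 k hk⟩

theorem Hyp.cent_le_H (h : Hyp t K s m) {g k : G} (hk : k ∈ K) (hk1 : k ≠ 1) (hc : g * k = k * g) :
    g ∈ Subgroup.centralizer ({t} : Set G) :=
  h.mem_H_of_conj_mem hk hk1 (by rw [hc, mul_inv_cancel_right]; exact hk)

theorem Hyp.cent_le_K (h : Hyp t K s m) {g k : G} (hk : k ∈ K) (hk1 : k ≠ 1) (hkt : k ≠ t)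
    (hc : g * k = k * g) : g ∈ K := by
  by_contra hg
  have h2 := (h.outside (h.cent_le_H hk hk1 hc) hg).2 k hk
  rw [hc, mul_inv_cancel_right] at h2
  rcases h.sq_one hk (by nth_rewrite 2 [h2]; exact mul_inv_cancel k) with h3 | h3
  · exact hk1 h3
  · exact hkt h3

theorem Hyp.covered_of_mem_H (h : Hyp t K s m) {g : G}
    (hg : g ∈ Subgroup.centralizer ({t} : Set G)) (hg1 : g ≠ 1) : Covered K g := by
  by_cases hgK : g ∈ K
  · exact ⟨g, hgK, hg1, IsConj.refl g⟩
  · exact ⟨t, h.tK, ne_one_of_orderOf h.ht, h.conj g t (h.outside hg hgK).1 h.ht⟩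

theorem Hyp.not_rest_t (h : Hyp t K s m) {u : G} (hu : orderOf u = 2) : ¬ Rest K u :=
  fun hr => hr.2 ⟨t, h.tK, ne_one_of_orderOf h.ht, h.conj u t hu h.ht⟩

/-- A remaining element commutes with no covered element. -/
theorem Hyp.rest_of_commute (h : Hyp t K s m) {g c : G} (hg : Rest K g) (hc1 : c ≠ 1)
    (hc : c * g = g * c) : Rest K c := by
  refine ⟨hc1, fun ⟨k, hk, hk1, hconj⟩ => ?_⟩
  obtain ⟨y, hy⟩ := isConj_iff.1 hconj
  have h1 : (y * g * y⁻¹) * k = k * (y * g * y⁻¹) := by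
    rw [← hy]
    calc y * g * y⁻¹ * (y * c * y⁻¹) = y * (g * c) * y⁻¹ := by group
      _ = y * (c * g) * y⁻¹ := by rw [hc]
      _ = _ := by group
  exact (hg.conj y).2 (h.covered_of_mem_H (h.cent_le_H hk hk1 h1) (hg.conj y).1)

theorem Hyp.invs_K (h : Hyp t K s m) {k : G} (hk : k ∈ K) (hk1 : k ≠ 1) :
    Invs k = {u : G | u ∈ Subgroup.centralizer ({t} : Set G) ∧ u ∉ K} := by
  ext u
  refine ⟨fun ⟨hu, huk⟩ => ?_, fun ⟨hu, huK⟩ => ?_⟩
  · have h1 : u * k * u⁻¹ = k⁻¹ := by
      have h2 := mul_self_of_orderOf huk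
      rw [inv_eq_self_of_orderOf hu]
      exact eq_inv_of_mul_eq_one_left (by rw [← h2]; group)
    have hH : u ∈ Subgroup.centralizer ({t} : Set G) :=
      h.mem_H_of_conj_mem hk hk1 (by rw [h1]; exact K.inv_mem hk)
    refine ⟨hH, fun huK => ?_⟩
    have h3 := h.eq_t huK hu
    have h4 := h.eq_t (K.mul_mem huK hk) huk
    rw [h3] at h4
    exact hk1 (mul_eq_left.1 h4)
  · refine ⟨(h.outside hu huK).1, (h.outside (mul_mem hu (h.le hk)) fun h' => huK ?_).1⟩
    have := K.mul_mem h' (K.inv_mem hk)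
    rwa [mul_inv_cancel_right] at this

theorem Hyp.card_invs_K (h : Hyp t K s m) {k : G} (hk : k ∈ K) (hk1 : k ≠ 1) :
    Nat.card (Invs k) = 2 * m := by
  rw [h.invs_K hk hk1]
  have h1 : ({u : G | u ∈ Subgroup.centralizer ({t} : Set G) ∧ u ∉ K} : Set G) =
      ((Subgroup.centralizer ({t} : Set G) : Set G) \ (K : Set G)) := rfl
  rw [h1, Nat.card_coe_set_eq, Set.ncard_sdiff (fun x hx => h.le hx) (Set.toFinite _),
    ← Nat.card_coe_set_eq, ← Nat.card_coe_set_eq]
  show Nat.card (Subgroup.centralizer ({t} : Set G)) - Nat.card K = 2 * m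
  rw [h.card_H, h.card]
  omega

end Cfsg.Agent.Lib.BSW
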