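import Cfsg.Agent.Lib.BSW.Basic
import Cfsg.Agent.Lib.Char.Induced
import Cfsg.Agent.Lib.Char.Coherent
import Cfsg.Agent.Lib.Char.Integral
import Cfsg.Agent.S0840

/-!
Brauer–Suzuki–Wall configuration: the generalised characters induced from `1 - ψ` and their
coefficients (helper3).
-/

set_option autoImplicit false

namespace Cfsg.Agent.Lib.BSW

open Cfsg Cfsg.Agent.Lib.Char
open scoped ComplexConjugate

universe u

variable {G : Type u} [Group G]

/-- The trivial irreducible character. -/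
noncomputable def triv (G : Type u) [Group G] : IrrCharacter G := ⟨fun _ => 1, isIrrCharacter_one⟩

@[simp] theorem triv_apply (g : G) : (triv G : G → ℂ) g = 1 := rfl

/-- The degree as an integer. -/
noncomputable def deg (χ : IrrCharacter G) : ℤ := charDegree (χ : G → ℂ)

theorem apply_one (χ : IrrCharacter G) : (χ : G → ℂ) 1 = (deg χ : ℂ) := by
  rw [deg, apply_one_eq_charDegree (isCharacter_of_isIrr χ.2)]
  norm_cast

theorem deg_pos [Finite G] (χ : IrrCharacter G) : 0 < deg χ := by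
  simpa [deg] using charDegree_pos χ.2

theorem deg_triv : deg (triv G) = 1 := by
  have := apply_one (triv G)
  rw [triv_apply] at this
  exact_mod_cast this.symm

variable {t s : G} {K : Subgroup G} {m : ℕ}

theorem conj_apply [Finite G] (ψ : K →* ℂˣ) (k : K) : conj (ψ k : ℂ) = (ψ k⁻¹ : ℂ) := by
  haveI := Fintype.ofFinite K
  exact (char_inv (isCharacter_of_isIrr (isIrrCharacter_linear ψ)) k).symm

theorem finite_dual [Finite G] : Finite (K →* ℂˣ) := by
  haveI := Fintype.ofFinite K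
  exact Finite.of_injective (fun l : K →* ℂˣ =>
    (⟨fun g => (l g : ℂ), isIrrCharacter_linear l⟩ : IrrCharacter K))
    fun a b h => MonoidHom.ext fun g => Units.ext (congrFun (congrArg Subtype.val h) g)

variable [Fintype G]

/-- The function induced from `1 - ψ`. -/
noncomputable def F (K : Subgroup G) (ψ : K →* ℂˣ) : G → ℂ :=
  indFun K fun k => 1 - (ψ k : ℂ)

theorem F_generalized (ψ : K →* ℂˣ) : IsGeneralizedCharacter G (F K ψ) :=
  ⟨indFun K fun _ => 1, indFun K fun k => (ψ k : ℂ), isCharacter_indFun K isCharacter_one,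
    isCharacter_indFun K (isCharacter_of_isIrr (isIrrCharacter_linear ψ)),
    by rw [← indFun_sub]; rfl⟩

/-- The coefficient of `χ` in `F K ψ`. -/
noncomputable def c (K : Subgroup G) (ψ : K →* ℂˣ) (χ : IrrCharacter G) : ℤ :=
  (generalized_classInner_int (F_generalized (K := K) ψ) χ).choose

theorem c_spec (ψ : K →* ℂˣ) (χ : IrrCharacter G) :
    classInner (F K ψ) (χ : G → ℂ) = (c K ψ χ : ℂ) :=
  (generalized_classInner_int (F_generalized (K := K) ψ) χ).choose_spec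

theorem F_eq_sum (ψ : K →* ℂˣ) (g : G) :
    F K ψ g = ∑ χ : IrrCharacter G, (c K ψ χ : ℂ) * (χ : G → ℂ) g := by
  have hcl : IsClassFunction G (F K ψ) := isClassFunction_indFun K _
  conv_lhs => rw [eq_sum_classInner_smul hcl]
  simp only [Finset.sum_apply, Pi.smul_apply, smul_eq_mul, c_spec]

theorem F_not_covered (ψ : K →* ℂˣ) {g : G} (hg : ¬ Covered K g) : F K ψ g = 0 := by
  show (Nat.card K : ℂ)⁻¹ * ∑ x : G, extendByZero K (fun k => 1 - (ψ k : ℂ)) (x⁻¹ * g * x) = 0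
  rw [Finset.sum_eq_zero, mul_zero]
  intro x _
  by_cases hx : x⁻¹ * g * x ∈ K
  · rw [extendByZero_mem K _ hx]
    have h1 : (⟨x⁻¹ * g * x, hx⟩ : K) = 1 := by
      by_contra hne
      exact hg ⟨_, hx, fun e => hne (Subtype.ext e), isConj_iff.2 ⟨x⁻¹, by rw [inv_inv]⟩⟩
    rw [h1, map_one, Units.val_one, sub_self]
  · rw [extendByZero_not_mem K _ hx]

theorem F_one (ψ : K →* ℂˣ) : F K ψ 1 = 0 := by
  show indFun K _ 1 = 0
  rw [indFun_one, map_one, Units.val_one, sub_self, mul_zero]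

theorem indFun_K (h : Hyp t K s m) (θ : K → ℂ) {k : K} (hk : k ≠ 1) :
    indFun K θ (k : G) = θ k + θ k⁻¹ := by
  classical
  have hkk : (k : G) ≠ 1 := fun e => hk (Subtype.ext e)
  have hterm : ∀ x : G, extendByZero K θ (x⁻¹ * (k : G) * x) =
      (if x ∈ K then θ k else 0) +
        (if x ∈ Subgroup.centralizer ({t} : Set G) ∧ x ∉ K then θ k⁻¹ else 0) := by
    intro x
    by_cases hx : x⁻¹ * (k : G) * x ∈ K
    · have hH : x⁻¹ ∈ Subgroup.centralizer ({t} : Set G) :=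
        h.mem_H_of_conj_mem k.2 hkk (by rwa [inv_inv])
      obtain ⟨h1, h2⟩ := h.conj_K k.2 hH
      rw [inv_inv] at h1 h2
      rw [extendByZero_mem K θ hx]
      by_cases hxK : x ∈ K
      · rw [if_pos hxK, if_neg fun h' => h'.2 hxK, add_zero]
        exact congrArg θ (Subtype.ext (h1 (K.inv_mem hxK)))
      · rw [if_neg hxK, if_pos ⟨inv_mem_iff.1 hH, hxK⟩, zero_add]
        exact congrArg θ (Subtype.ext (h2 fun h' => hxK (inv_mem_iff.1 h')))
    · rw [extendByZero_not_mem K θ hx, if_neg, if_neg, add_zero]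
      · rintro ⟨hxH, hxK⟩
        have h2 := (h.conj_K k.2 (inv_mem hxH)).2 fun h' => hxK (inv_mem_iff.1 h')
        rw [inv_inv] at h2
        exact hx (by rw [h2]; exact K.inv_mem k.2)
      · exact fun hxK => hx (K.mul_mem (K.mul_mem (K.inv_mem hxK) k.2) hxK)
  show (Nat.card K : ℂ)⁻¹ * ∑ x : G, extendByZero K θ (x⁻¹ * (k : G) * x) = _
  rw [Finset.sum_congr rfl fun x _ => hterm x, Finset.sum_add_distrib, ← Finset.sum_filter,
    ← Finset.sum_filter, Finset.sum_const, Finset.sum_const, nsmul_eq_mul, nsmul_eq_mul]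
  have e1 : (Finset.univ.filter fun x : G => x ∈ K).card = 2 * m := by
    rw [← Fintype.card_subtype, ← Nat.card_eq_fintype_card]
    exact h.card
  have e2 : (Finset.univ.filter fun x : G =>
      x ∈ Subgroup.centralizer ({t} : Set G) ∧ x ∉ K).card = 2 * m := by
    have h3 := h.card_invs_K k.2 hkk
    rw [h.invs_K k.2 hkk] at h3
    rw [← Fintype.card_subtype, ← Nat.card_eq_fintype_card]
    exact h3
  rw [e1, e2, h.card]
  have hm := h.mpos
  have : ((2 * m : ℕ) : ℂ) ≠ 0 := Nat.cast_ne_zero.2 (by omega)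
  field_simp

theorem F_K (h : Hyp t K s m) (ψ : K →* ℂˣ) (k : K) :
    F K ψ (k : G) = 2 - (ψ k : ℂ) - (ψ k⁻¹ : ℂ) := by
  rcases eq_or_ne k 1 with rfl | hk
  · rw [inv_one, map_one, Units.val_one, OneMemClass.coe_one, F_one]
    norm_num
  · show indFun K _ (k : G) = _
    rw [indFun_K h _ hk]
    ring

theorem F_inv (h : Hyp t K s m) (ψ : K →* ℂˣ) : F K ψ⁻¹ = F K ψ := by
  funext g
  by_cases hg : Covered K g
  · obtain ⟨k, hk, -, hc⟩ := hg
    obtain ⟨y, hy⟩ := isConj_iff.1 hc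
    have h1 : ∀ φ : K →* ℂˣ, F K φ g = F K φ k := fun φ => by
      rw [← hy]
      exact ((isClassFunction_indFun K _) g y).symm
    rw [h1, h1, F_K h ψ⁻¹ ⟨k, hk⟩, F_K h ψ ⟨k, hk⟩]
    rw [MonoidHom.inv_apply, MonoidHom.inv_apply, ← map_inv, ← map_inv, inv_inv]
    ring
  · rw [F_not_covered _ hg, F_not_covered _ hg]

theorem c_inv (h : Hyp t K s m) (ψ : K →* ℂˣ) (χ : IrrCharacter G) : c K ψ⁻¹ χ = c K ψ χ := by
  have h1 := c_spec ψ⁻¹ χ
  rw [F_inv h, c_spec] at h1
  exact_mod_cast h1.symm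

variable [Fintype K]

theorem sum_apply (h : Hyp t K s m) [DecidableEq (K →* ℂˣ)] (ψ : K →* ℂˣ) :
    ∑ k : K, (ψ k : ℂ) = if ψ = 1 then ((2 * m : ℕ) : ℂ) else 0 := by
  split_ifs with h1
  · simp [h1, ← h.card]
  · obtain ⟨b, hb⟩ : ∃ b, ψ b ≠ 1 := by
      by_contra hc
      push Not at hc
      exact h1 (MonoidHom.ext fun x => by simpa using hc x)
    have e : (ψ b : ℂ) * ∑ k : K, (ψ k : ℂ) = ∑ k : K, (ψ k : ℂ) := by
      rw [Finset.mul_sum]
      exact Fintype.sum_equiv (Equiv.mulLeft b) _ _ fun x => by simp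
    have e2 : ((ψ b : ℂ) - 1) * ∑ k : K, (ψ k : ℂ) = 0 := by rw [sub_mul, e, one_mul, sub_self]
    exact (mul_eq_zero.1 e2).resolve_left fun e3 => hb (Units.ext (sub_eq_zero.1 e3))

variable [Fintype (K →* ℂˣ)]

theorem exists_sep (h : Hyp t K s m) {k : K} (hk : k ≠ 1) : ∃ φ : K →* ℂˣ, φ k ≠ 1 := by
  letI : CommGroup K := { (inferInstance : Group K) with
    mul_comm := fun a b => Subtype.ext (h.comm a a.2 b b.2) }
  haveI : NeZero (Monoid.exponent K) := ⟨Monoid.exponent_ne_zero_of_finite⟩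
  exact CommGroup.exists_apply_ne_one_of_hasEnoughRootsOfUnity K ℂ hk

theorem exists_dual_equiv (h : Hyp t K s m) :
    ∃ e : (K →* ℂˣ) ≃ K, e 1 = 1 ∧ ∀ a b, e (a * b) = e a * e b := by
  letI : CommGroup K := { (inferInstance : Group K) with
    mul_comm := fun a b => Subtype.ext (h.comm a a.2 b b.2) }
  haveI : NeZero (Monoid.exponent K) := ⟨Monoid.exponent_ne_zero_of_finite⟩
  obtain ⟨e⟩ := CommGroup.monoidHom_mulEquiv_of_hasEnoughRootsOfUnity K ℂ
  exact ⟨e.toEquiv, map_one e, map_mul e⟩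

theorem card_dual (h : Hyp t K s m) : Fintype.card (K →* ℂˣ) = 2 * m := by
  obtain ⟨e, -, -⟩ := exists_dual_equiv h
  rw [Fintype.card_congr e, ← Nat.card_eq_fintype_card, h.card]

theorem sum_dual (h : Hyp t K s m) {k : K} (hk : k ≠ 1) : ∑ ψ : K →* ℂˣ, (ψ k : ℂ) = 0 := by
  obtain ⟨φ, hφ⟩ := exists_sep h hk
  have e : (φ k : ℂ) * ∑ ψ : K →* ℂˣ, (ψ k : ℂ) = ∑ ψ : K →* ℂˣ, (ψ k : ℂ) := by
    rw [Finset.mul_sum]
    exact Fintype.sum_equiv (Equiv.mulLeft φ) _ _ fun x => by simp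
  have e2 : ((φ k : ℂ) - 1) * ∑ ψ : K →* ℂˣ, (ψ k : ℂ) = 0 := by rw [sub_mul, e, one_mul, sub_self]
  exact (mul_eq_zero.1 e2).resolve_left fun e3 => hφ (Units.ext (sub_eq_zero.1 e3))

theorem exists_rho (h : Hyp t K s m) :
    ∃ ρ : K →* ℂˣ, ρ ≠ 1 ∧ ρ⁻¹ = ρ ∧ ∀ ψ : K →* ℂˣ, ψ⁻¹ = ψ → ψ = 1 ∨ ψ = ρ := by
  obtain ⟨e, he1, hem⟩ := exists_dual_equiv h
  have ht1 : (⟨t, h.tK⟩ : K) ≠ 1 := fun e' => ne_one_of_orderOf h.ht (congrArg Subtype.val e')
  refine ⟨e.symm ⟨t, h.tK⟩, fun e' => ht1 ?_, ?_, fun ψ hψ => ?_⟩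
  · rw [← e.apply_symm_apply ⟨t, h.tK⟩, e', he1]
  · refine inv_eq_of_mul_eq_one_right (e.injective ?_)
    rw [hem, he1, e.apply_symm_apply]
    exact Subtype.ext (mul_self_of_orderOf h.ht)
  · have h2 : e ψ * e ψ = 1 := by
      rw [← hem, ← he1]
      have : ψ * ψ = 1 := by
        nth_rewrite 2 [← hψ]
        exact mul_inv_cancel ψ
      rw [this]
    rcases h.sq_one (e ψ).2 (congrArg Subtype.val h2) with h3 | h3
    · exact Or.inl (e.injective (by rw [he1]; exact Subtype.ext h3))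
    · exact Or.inr (by rw [Equiv.eq_symm_apply]; exact Subtype.ext h3)

omit [Fintype (K →* ℂˣ)] in
theorem classInner_F (ψ : K →* ℂˣ) {f : G → ℂ} (hf : IsClassFunction G f) :
    classInner (F K ψ) f = (Nat.card K : ℂ)⁻¹ * ∑ k : K, (1 - (ψ k : ℂ)) * conj (f k) :=
  classInner_indFun K _ hf

omit [Fintype (K →* ℂˣ)] in
theorem c_formula (h : Hyp t K s m) (ψ : K →* ℂˣ) (χ : IrrCharacter G) :
    ((2 * m : ℕ) : ℂ) * (c K ψ χ : ℂ) = ∑ k : K, (1 - (ψ k : ℂ)) * conj ((χ : G → ℂ) k) := by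
  rw [← c_spec, classInner_F ψ (isClassFunction_of_isIrr χ.2), h.card, ← mul_assoc,
    mul_inv_cancel₀ (Nat.cast_ne_zero.2 (by have := h.mpos; omega)), one_mul]

omit [Fintype (K →* ℂˣ)] in
theorem c_one (h : Hyp t K s m) (χ : IrrCharacter G) : c K 1 χ = 0 := by
  have h1 := c_formula h 1 χ
  simp only [MonoidHom.one_apply, Units.val_one, sub_self, zero_mul, Finset.sum_const_zero,
    mul_eq_zero, Int.cast_eq_zero, Nat.cast_eq_zero] at h1
  exact h1.resolve_left (by have := h.mpos; omega)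

omit [Fintype (K →* ℂˣ)] in
theorem c_triv (h : Hyp t K s m) {ψ : K →* ℂˣ} (hψ : ψ ≠ 1) : c K ψ (triv G) = 1 := by
  classical
  have h1 := c_formula h ψ (triv G)
  simp only [triv_apply, map_one, mul_one, Finset.sum_sub_distrib, Finset.sum_const,
    Finset.card_univ, sum_apply h, if_neg hψ, sub_zero, nsmul_one, ← Nat.card_eq_fintype_card,
    h.card] at h1
  have : ((2 * m : ℕ) : ℂ) ≠ 0 := Nat.cast_ne_zero.2 (by have := h.mpos; omega)
  have h2 : ((2 * m : ℕ) : ℂ) * ((c K ψ (triv G) : ℂ) - 1) = 0 := by rw [mul_sub, h1, mul_one, sub_self]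
  have h3 := sub_eq_zero.1 ((mul_eq_zero.1 h2).resolve_left this)
  exact_mod_cast h3

omit [Fintype (K →* ℂˣ)] in
theorem inner_F (h : Hyp t K s m) [DecidableEq (K →* ℂˣ)] {ψ φ : K →* ℂˣ} (hψ : ψ ≠ 1)
    (hφ : φ ≠ 1) :
    ∑ χ : IrrCharacter G, c K ψ χ * c K φ χ =
      2 + (if ψ = φ then 1 else 0) + (if ψ = φ⁻¹ then 1 else 0) := by
  have hcl : IsClassFunction G (F K φ) := isClassFunction_indFun K _
  have h1 := classInner_eq_sum (φ := F K ψ) hcl
  simp only [c_spec, map_intCast] at h1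
  rw [classInner_F ψ hcl] at h1
  have hterm : ∀ k : K, (1 - (ψ k : ℂ)) * conj (F K φ k) =
      2 - ((φ k : ℂ) + (φ⁻¹ k : ℂ)) - 2 * (ψ k : ℂ) + (((ψ * φ) k : ℂ) + ((ψ * φ⁻¹) k : ℂ)) := by
    intro k
    rw [F_K h φ k]
    simp only [map_sub, map_ofNat, conj_apply, inv_inv, MonoidHom.mul_apply, MonoidHom.inv_apply,
      Units.val_mul, ← map_inv]
    ring
  rw [Finset.sum_congr rfl fun k _ => hterm k] at h1
  have e0 : ¬ φ⁻¹ = 1 := fun e => hφ (MonoidHom.ext fun k => by simpa using DFunLike.congr_fun e k)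
  have e1 : ψ * φ = 1 ↔ ψ = φ⁻¹ := mul_eq_one_iff_eq_inv (G := K →* ℂˣ) (a := ψ) (b := φ)
  have e2 : ψ * φ⁻¹ = 1 ↔ ψ = φ := mul_inv_eq_one (G := K →* ℂˣ) (a := ψ) (b := φ)
  simp only [Finset.sum_add_distrib, Finset.sum_sub_distrib, ← Finset.mul_sum, sum_apply h,
    Finset.sum_const, Finset.card_univ, ← Nat.card_eq_fintype_card, h.card, if_neg hψ, if_neg hφ,
    if_neg e0, nsmul_eq_mul, e1, e2] at h1
  have hne : ((2 * m : ℕ) : ℂ) ≠ 0 := Nat.cast_ne_zero.2 (by have := h.mpos; omega)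
  have h2 : ((∑ χ : IrrCharacter G, c K ψ χ * c K φ χ : ℤ) : ℂ) =
      ((2 + (if ψ = φ then 1 else 0) + (if ψ = φ⁻¹ then 1 else 0) : ℤ) : ℂ) := by
    push_cast
    rw [← h1]
    have hif : ∀ (p : Prop) [Decidable p], (if p then ((2 * m : ℕ) : ℂ) else 0) =
        ((2 * m : ℕ) : ℂ) * (if p then 1 else 0) := fun p _ => by split_ifs <;> simp
    rw [hif, hif]
    field_simp
    split_ifs <;> push_cast <;> ring
  exact_mod_cast h2

omit [Fintype K] [Fintype (K →* ℂˣ)] in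
theorem sum_c_deg (ψ : K →* ℂˣ) : ∑ χ : IrrCharacter G, c K ψ χ * deg χ = 0 := by
  have h1 := F_eq_sum (K := K) ψ 1
  simp only [F_one, apply_one] at h1
  exact_mod_cast h1.symm

theorem restr (h : Hyp t K s m) {k : K} (hk : k ≠ 1) (χ : IrrCharacter G) :
    (χ : G → ℂ) k = -∑ ψ : K →* ℂˣ, (c K ψ χ : ℂ) * (ψ k : ℂ) := by
  classical
  have hne : ((2 * m : ℕ) : ℂ) ≠ 0 := Nat.cast_ne_zero.2 (by have := h.mpos; omega)
  have h1 : ((2 * m : ℕ) : ℂ) * ∑ ψ : K →* ℂˣ, (c K ψ χ : ℂ) * (ψ k : ℂ) =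
      -(((2 * m : ℕ) : ℂ) * conj ((χ : G → ℂ) (k⁻¹ : K))) := by
    rw [Finset.mul_sum]
    simp only [← mul_assoc, c_formula h, Finset.sum_mul]
    rw [Finset.sum_comm]
    have e : ∀ l : K, ∑ ψ : K →* ℂˣ, (1 - (ψ l : ℂ)) * conj ((χ : G → ℂ) l) * (ψ k : ℂ) =
        -(if l = k⁻¹ then ((2 * m : ℕ) : ℂ) * conj ((χ : G → ℂ) l) else 0) := by
      intro l
      have e1 : ∀ ψ : K →* ℂˣ, (1 - (ψ l : ℂ)) * conj ((χ : G → ℂ) l) * (ψ k : ℂ) =
          conj ((χ : G → ℂ) l) * ((ψ k : ℂ) - (ψ (l * k) : ℂ)) := fun ψ => by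
        rw [map_mul, Units.val_mul]; ring
      rw [Finset.sum_congr rfl fun ψ _ => e1 ψ, ← Finset.mul_sum, Finset.sum_sub_distrib,
        sum_dual h hk]
      split_ifs with hl
      · subst hl
        simp only [inv_mul_cancel, map_one, Units.val_one, Finset.sum_const, Finset.card_univ,
          card_dual h, nsmul_one]
        ring
      · rw [sum_dual h fun e2 => hl (eq_inv_of_mul_eq_one_left e2), sub_zero, mul_zero, neg_zero]
    rw [Finset.sum_congr rfl fun l _ => e l, Finset.sum_neg_distrib,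
      Finset.sum_ite_eq' Finset.univ k⁻¹, if_pos (Finset.mem_univ _)]
  rw [InvMemClass.coe_inv, char_inv (isCharacter_of_isIrr χ.2), Complex.conj_conj, ← mul_neg] at h1
  rw [mul_left_cancel₀ hne h1, neg_neg]

omit [Fintype (K →* ℂˣ)] in
open scoped Classical in
theorem sum_split (h : Hyp t K s m) {f : G → ℂ} (hf : IsClassFunction G f) :
    ((4 * m : ℕ) : ℂ) * (∑ g : G, f g - f 1 - ∑ g ∈ Finset.univ.filter (Rest K), f g) =
      (Nat.card G : ℂ) * ∑ k ∈ Finset.univ.erase (1 : K), f k := by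
  let θ : K → ℂ := fun k => if k = 1 then 0 else 1
  have hθ : ∀ g : G, indFun K θ g = if Covered K g then (2 : ℂ) else 0 := by
    intro g
    split_ifs with hg
    · obtain ⟨k, hk, hk1, hc⟩ := hg
      obtain ⟨y, hy⟩ := isConj_iff.1 hc
      rw [← isClassFunction_indFun K θ g y, hy]
      have hk1' : (⟨k, hk⟩ : K) ≠ 1 := fun e => hk1 (congrArg Subtype.val e)
      rw [show indFun K θ k = _ from indFun_K h θ hk1']
      simp only [θ, if_neg hk1', inv_eq_one]
      norm_num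
    · show (Nat.card K : ℂ)⁻¹ * ∑ x : G, extendByZero K θ (x⁻¹ * g * x) = 0
      rw [Finset.sum_eq_zero, mul_zero]
      intro x _
      by_cases hx : x⁻¹ * g * x ∈ K
      · rw [extendByZero_mem K _ hx]
        simp only [θ]
        rw [if_pos]
        by_contra hne
        exact hg ⟨_, hx, fun e => hne (Subtype.ext e), isConj_iff.2 ⟨x⁻¹, by rw [inv_inv]⟩⟩
      · rw [extendByZero_not_mem K _ hx]
  have hf' : IsClassFunction G fun g => conj (f g) := fun a b => congrArg conj (hf a b)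
  have h1 := classInner_indFun K θ hf'
  simp only [classInner, Complex.conj_conj, hθ] at h1
  rw [h.card] at h1
  have hsum : ∑ g : G, (if Covered K g then (2 : ℂ) else 0) * f g =
      2 * (∑ g : G, f g - f 1 - ∑ g ∈ Finset.univ.filter (Rest K), f g) := by
    have e : ∀ g : G, f g = (if g = 1 then f g else 0) + (if Covered K g then f g else 0) +
        (if Rest K g then f g else 0) := by
      intro g
      by_cases hg1 : g = 1
      · have : ¬ Covered K g := fun ⟨k, _, hk1, hc⟩ => hk1 (by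
          rw [hg1] at hc; exact (isConj_one_right.1 hc))
        rw [if_pos hg1, if_neg this, if_neg (show ¬ Rest K g from fun hr => hr.1 hg1)]
        ring
      · by_cases hc : Covered K g
        · rw [if_neg hg1, if_pos hc, if_neg (show ¬ Rest K g from fun hr => hr.2 hc)]
          ring
        · rw [if_neg hg1, if_neg hc, if_pos (show Rest K g from ⟨hg1, hc⟩)]
          ring
    conv_rhs => rw [Finset.sum_congr rfl fun g (_ : g ∈ Finset.univ) => e g]
    rw [Finset.sum_add_distrib, Finset.sum_add_distrib, Finset.sum_ite_eq',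
      if_pos (Finset.mem_univ _), ← Finset.sum_filter (p := Rest K)]
    have e2 : ∀ A B : ℂ, f 1 + A + B - f 1 - B = A := fun A B => by ring
    rw [e2, Finset.mul_sum]
    simp only [ite_mul, zero_mul, mul_ite, mul_zero]
  rw [hsum] at h1
  have hk : ∑ k : K, θ k * f k = ∑ k ∈ Finset.univ.erase (1 : K), f k := by
    rw [← Finset.add_sum_erase Finset.univ _ (Finset.mem_univ (1 : K))]
    simp only [θ, if_true, zero_mul, zero_add]
    exact Finset.sum_congr rfl fun k hk => by rw [if_neg (Finset.ne_of_mem_erase hk), one_mul]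
  rw [hk] at h1
  have hN : (Nat.card G : ℂ) ≠ 0 := card_ne_zero_complex G
  have hm : (m : ℂ) ≠ 0 := Nat.cast_ne_zero.2 h.mpos.ne'
  push_cast at h1 ⊢
  field_simp at h1
  linear_combination h1

/-- The class sum `Σ χ(t)² conj χ(g) / χ(1)`. -/
noncomputable def E (t g : G) : ℂ :=
  ∑ χ : IrrCharacter G, (χ : G → ℂ) t * (χ : G → ℂ) t * conj ((χ : G → ℂ) g) / (χ : G → ℂ) 1

omit [Fintype K] [Fintype (K →* ℂˣ)] in
theorem count (h : Hyp t K s m) (g : G) :
    ((16 * m * m : ℕ) : ℂ) * (Nat.card (Invs g) : ℂ) = (Nat.card G : ℂ) * E t g := by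
  classical
  have hiff : ∀ x : G, IsConj t x ↔ orderOf x = 2 := fun x =>
    ⟨fun hc => by
      obtain ⟨y, hy⟩ := isConj_iff.1 hc
      rw [← hy, orderOf_conj, h.ht],
    fun hx => h.conj t x h.ht hx⟩
  have h0 := S0840.result t t g
  rw [finsum_eq_sum_of_fintype] at h0
  have e1 : Nat.card {p : G × G // IsConj t p.1 ∧ IsConj t p.2 ∧ p.1 * p.2 = g} =
      Nat.card (Invs g) := by
    refine Nat.card_eq_of_bijective (fun p => ⟨p.1.1, (hiff _).1 p.2.1, ?_⟩) ⟨?_, ?_⟩
    · have e : p.1.1 * g = p.1.2 := by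
        conv_lhs => arg 2; rw [← p.2.2.2]
        rw [← mul_assoc, mul_self_of_orderOf ((hiff _).1 p.2.1), one_mul]
      rw [e]
      exact (hiff _).1 p.2.2.1
    · rintro ⟨⟨a, b⟩, ha, hb, hab⟩ ⟨⟨a', b'⟩, ha', hb', hab'⟩ e
      obtain rfl : a = a' := congrArg Subtype.val e
      exact Subtype.ext (Prod.ext rfl (mul_left_cancel (hab.trans hab'.symm)))
    · rintro ⟨u, hu, hug⟩
      exact ⟨⟨(u, u * g), (hiff _).2 hu, (hiff _).2 hug,
        by rw [← mul_assoc, mul_self_of_orderOf hu, one_mul]⟩, rfl⟩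
  have e2 : Nat.card {x : G // IsConj t x} * (4 * m) = Nat.card G := by
    have h1 : Nat.card {x : G // IsConj t x} = (Subgroup.centralizer ({t} : Set G)).index := by
      rw [← card_conjClass_eq_index, Nat.card_eq_fintype_card, Fintype.card_subtype]
      congr 1
      exact Finset.filter_congr fun x _ => ⟨IsConj.symm, IsConj.symm⟩
    rw [h1, ← h.card_H, Subgroup.index_mul_card]
  have e3 : (Nat.card {x : G // IsConj t x} : ℂ) * (4 * (m : ℂ)) = (Nat.card G : ℂ) := by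
    exact_mod_cast e2
  rw [e1] at h0
  rw [h0, E]
  have hN : (Nat.card G : ℂ) ≠ 0 := card_ne_zero_complex G
  field_simp
  push_cast
  rw [← e3]
  ring

omit [Fintype K] [Fintype (K →* ℂˣ)] in
theorem E_K (h : Hyp t K s m) {k : G} (hk : k ∈ K) (hk1 : k ≠ 1) :
    (Nat.card G : ℂ) * E t k = ((32 * m * m * m : ℕ) : ℂ) := by
  rw [← count h k, h.card_invs_K hk hk1]
  push_cast
  ring

end Cfsg.Agent.Lib.BSW
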