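import Cfsg.Agent.Lib.BSW.Pairs

/-!
Brauer–Suzuki–Wall configuration: the common constituent of all induced generalised
characters (helper3).
-/

set_option autoImplicit false

namespace Cfsg.Agent.Lib.BSW

open Cfsg Cfsg.Agent.Lib.Char
open scoped ComplexConjugate

universe u

variable {G : Type u} [Group G] [Fintype G] {t s : G} {K : Subgroup G} {m : ℕ}
  [Fintype K] [Fintype (K →* ℂˣ)]

/-- The common constituent `X` and the two remaining constituents of `F K ρ`. -/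
structure Config (K : Subgroup G) (ρ : K →* ℂˣ) (X Y Z : IrrCharacter G) : Prop where
  hρ : ρ ≠ 1
  hρi : ρ⁻¹ = ρ
  uniq : ∀ ψ : K →* ℂˣ, ψ⁻¹ = ψ → ψ = 1 ∨ ψ = ρ
  T : Triple K ρ X Y Z
  common : ∀ ψ : K →* ℂˣ, ψ ≠ 1 → c K ψ X = c K ρ X
  eqYZ : c K ρ Y * deg Y = c K ρ Z * deg Z

theorem value_subgroup (h : Hyp t K s m) (χ : IrrCharacter G) (v : ℤ)
    (hv : ∀ g ∈ Subgroup.centralizer ({t} : Set G), g ≠ 1 → (χ : G → ℂ) g = (v : ℂ)) :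
    ∃ j : ℤ, deg χ + (4 * (m : ℤ) - 1) * v = 4 * (m : ℤ) * j := by
  classical
  obtain ⟨j, hj⟩ := CharTools.exists_nat_sum_subgroup (isCharacter_of_isIrr χ.2)
    (Subgroup.centralizer ({t} : Set G))
  have h1 : (1 : G) ∈ Finset.univ.filter (fun x => x ∈ Subgroup.centralizer ({t} : Set G)) := by
    simp [Subgroup.one_mem]
  rw [← Finset.add_sum_erase _ _ h1, Finset.sum_congr rfl fun g hg => by
    rw [hv g (Finset.mem_filter.1 (Finset.mem_of_mem_erase hg)).2 (Finset.ne_of_mem_erase hg)],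
    Finset.sum_const, Finset.card_erase_of_mem h1, apply_one, nsmul_eq_mul, h.card_H] at hj
  have hc : (Finset.univ.filter (fun x => x ∈ Subgroup.centralizer ({t} : Set G))).card = 4 * m := by
    rw [← Fintype.card_subtype, ← Nat.card_eq_fintype_card]
    exact h.card_H
  rw [hc, Nat.cast_sub (by have := h.mpos; omega)] at hj
  refine ⟨(j : ℤ), ?_⟩
  push_cast at hj
  exact_mod_cast hj

omit [Fintype K] [Fintype (K →* ℂˣ)] in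
theorem value_invol (h : Hyp t K s m) (χ : IrrCharacter G) {g : G} (hg : orderOf g = 2) :
    (χ : G → ℂ) g = (χ : G → ℂ) t := by
  obtain ⟨y, hy⟩ := isConj_iff.1 (h.conj g t hg h.ht)
  rw [← hy, isClassFunction_of_isIrr χ.2]

theorem sum_supp (h : Hyp t K s m) {ψ : K →* ℂˣ} {χ : IrrCharacter G} (hi : ψ⁻¹ ≠ ψ)
    (hz : ∀ φ : K →* ℂˣ, φ ≠ 1 → φ ≠ ψ → φ ≠ ψ⁻¹ → c K φ χ = 0) {R : Type*} [CommRing R]
    (f : (K →* ℂˣ) → R) :
    ∑ φ : K →* ℂˣ, (c K φ χ : R) * f φ = (c K ψ χ : R) * (f ψ + f ψ⁻¹) := by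
  classical
  rw [← Finset.sum_subset (Finset.subset_univ ({ψ, ψ⁻¹} : Finset (K →* ℂˣ))) fun φ _ hφ => ?_]
  · rw [Finset.sum_pair hi.symm, c_inv h]
    ring
  · simp only [Finset.mem_insert, Finset.mem_singleton, not_or] at hφ
    by_cases h1 : φ = 1
    · rw [h1, c_one h]; simp
    · rw [hz φ h1 hφ.1 hφ.2]; simp

theorem sum_supp_one (h : Hyp t K s m) {ρ : K →* ℂˣ} {χ : IrrCharacter G}
    (hz : ∀ φ : K →* ℂˣ, φ ≠ 1 → φ ≠ ρ → c K φ χ = 0) {R : Type*} [CommRing R]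
    (f : (K →* ℂˣ) → R) :
    ∑ φ : K →* ℂˣ, (c K φ χ : R) * f φ = (c K ρ χ : R) * f ρ := by
  refine Finset.sum_eq_single ρ (fun φ _ hφ => ?_) (by simp)
  by_cases h1 : φ = 1
  · rw [h1, c_one h]; simp
  · rw [hz φ h1 hφ]; simp

private theorem small_equal {u v : ℤ} (hu : u % 4 = 1) (hv : v % 4 = 1) {N : ℤ}
    (hN : 1 + u ^ 2 + v ^ 2 + (-1 - u - v) ^ 2 ≤ N)
    (hE : (u * v * (-1 - u - v) + v * (-1 - u - v) + u * (-1 - u - v) + u * v) * N =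
      32 * (u * v * (-1 - u - v))) :
    u = v ∨ u = -1 - u - v ∨ v = -1 - u - v := by
  have hw : (-1 - u - v) % 4 = 1 := by omega
  obtain ⟨w, hwdef⟩ : ∃ w, w = -1 - u - v := ⟨_, rfl⟩
  rw [← hwdef] at hN hE hw ⊢
  have hN0 : (0 : ℤ) < N := by nlinarith [sq_nonneg u, sq_nonneg v, sq_nonneg w]
  have hR : ((1 : ℝ) + 1 / u + 1 / v + 1 / w) * N = 32 := by
    have hu0 : (u : ℝ) ≠ 0 := Int.cast_ne_zero.2 (by omega)
    have hv0 : (v : ℝ) ≠ 0 := Int.cast_ne_zero.2 (by omega)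
    have hw0 : (w : ℝ) ≠ 0 := Int.cast_ne_zero.2 (by omega)
    have hE' : ((u : ℝ) * v * w + v * w + u * w + u * v) * N = 32 * (u * v * w) := by
      exact_mod_cast hE
    field_simp
    linear_combination hE'
  have hb : ∀ x : ℤ, x % 4 = 1 → (-1 / 3 : ℝ) ≤ 1 / (x : ℝ) ∧ (0 < x → (0 : ℝ) < 1 / (x : ℝ)) := by
    intro x hx
    refine ⟨?_, fun hx0 => div_pos one_pos (Int.cast_pos.2 hx0)⟩
    rcases lt_or_ge 0 x with h0 | h0
    · exact le_trans (by norm_num) (div_pos one_pos (Int.cast_pos.2 h0)).le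
    · have h3 : (x : ℝ) ≤ -3 := by exact_mod_cast (show x ≤ -3 by omega)
      rw [le_div_iff_of_neg (by linarith)]
      linarith
  obtain ⟨bu, bu'⟩ := hb u hu
  obtain ⟨bv, bv'⟩ := hb v hv
  obtain ⟨bw, bw'⟩ := hb w hw
  have hpos : (1 / 3 : ℝ) < 1 + 1 / u + 1 / v + 1 / w := by
    rcases (show 0 < u ∨ 0 < v ∨ 0 < w by omega) with h0 | h0 | h0
    · linarith [bu' h0]
    · linarith [bv' h0]
    · linarith [bw' h0]
  have hN96 : (N : ℝ) < 96 := by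
    have hN0' : (0 : ℝ) < N := Int.cast_pos.2 hN0
    nlinarith
  have hN96' : N < 96 := by exact_mod_cast hN96
  have hu9 : -9 ≤ u ∧ u ≤ 9 := ⟨by nlinarith [sq_nonneg v, sq_nonneg w], by nlinarith [sq_nonneg v, sq_nonneg w]⟩
  have hv9 : -9 ≤ v ∧ v ≤ 9 := ⟨by nlinarith [sq_nonneg u, sq_nonneg w], by nlinarith [sq_nonneg u, sq_nonneg w]⟩
  obtain ⟨hu1, hu2⟩ := hu9
  obtain ⟨hv1, hv2⟩ := hv9
  subst hwdef
  clear hR hb bu bv bw bu' bv' bw' hpos hN96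
  interval_cases u <;> first
    | (exfalso; omega)
    | (interval_cases v <;> first
        | omega
        | (exfalso; norm_num at hN hE; omega))

theorem config_one (h : Hyp t K s 1) : ∃ ρ X Y Z, Config K ρ X Y Z := by
  classical
  obtain ⟨ρ, hρ, hρi, huniq⟩ := exists_rho h
  have hall : ∀ ψ : K →* ℂˣ, ψ = 1 ∨ ψ = ρ := by
    intro ψ
    by_contra hc
    push Not at hc
    have h1 : ({1, ρ, ψ} : Finset (K →* ℂˣ)).card ≤ 2 :=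
      (Finset.card_le_univ _).trans (by rw [card_dual h])
    rw [Finset.card_insert_of_notMem (by simp [hρ.symm, hc.1.symm]),
      Finset.card_pair hc.2.symm] at h1
    omega
  have ht1 : (⟨t, h.tK⟩ : K) ≠ 1 := fun e => ne_one_of_orderOf h.ht (congrArg Subtype.val e)
  have hρt : (ρ ⟨t, h.tK⟩ : ℂ) = -1 := by
    have h1 := sum_dual h ht1
    rw [← Finset.sum_subset (Finset.subset_univ ({1, ρ} : Finset (K →* ℂˣ)))
      fun ψ _ hψ => absurd (hall ψ) (by simpa using hψ), Finset.sum_pair hρ.symm,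
      MonoidHom.one_apply, Units.val_one] at h1
    linear_combination h1
  have hV : ∀ χ : IrrCharacter G, (χ : G → ℂ) t = (c K ρ χ : ℂ) := by
    intro χ
    rw [restr_t h, sum_supp_one h (ρ := ρ) (fun φ h1 h2 => absurd (hall φ) (by simp [h1, h2])), hρt]
    ring
  obtain ⟨a, b, d, T⟩ := exists_triple h hρ hρi
  have hmod : ∀ χ : IrrCharacter G, (c K ρ χ = 1 ∨ c K ρ χ = -1) →
      (c K ρ χ * deg χ) % 4 = 1 := by
    intro χ hχ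
    obtain ⟨j, hj⟩ := value_subgroup h χ (c K ρ χ) fun g hg hg1 => by
      by_cases hgK : g ∈ K
      · have h2 : orderOf g = 2 := by
          refine orderOf_eq_two hg1 ?_
          have h3 : g ^ Nat.card K = 1 := by
            have := pow_card_eq_one' (G := K) (x := ⟨g, hgK⟩)
            exact congrArg Subtype.val this
          rwa [h.card, pow_two] at h3
        rw [value_invol h χ h2, hV]
      · rw [value_invol h χ (h.outside hg hgK).1, hV]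
    rcases hχ with e | e <;> rw [e] at hj ⊢ <;> omega
  have hs : ∀ χ : IrrCharacter G, (c K ρ χ = 1 ∨ c K ρ χ = -1) →
      (χ : G → ℂ) t * (χ : G → ℂ) t * conj ((χ : G → ℂ) t) / (χ : G → ℂ) 1 =
        1 / ((c K ρ χ * deg χ : ℤ) : ℂ) := by
    intro χ hχ
    rcases hχ with e | e <;> rw [hV, apply_one, e] <;> push_cast <;> simp [div_neg, neg_div]
  have hE := E_K h h.tK (ne_one_of_orderOf h.ht)
  have hEs : E t t = 1 + 1 / ((c K ρ a * deg a : ℤ) : ℂ) + 1 / ((c K ρ b * deg b : ℤ) : ℂ) +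
      1 / ((c K ρ d * deg d : ℤ) : ℂ) := by
    rw [E, ← Finset.sum_subset (Finset.subset_univ ({triv G, a, b, d} : Finset (IrrCharacter G)))
      fun χ _ hχ => ?_]
    · rw [Finset.sum_insert (by simp [T.na.symm, T.nb.symm, T.nd.symm]),
        Finset.sum_insert (by simp [T.ab, T.ad]), Finset.sum_pair T.bd, hs a T.sa, hs b T.sb,
        hs d T.sd]
      simp only [triv_apply, map_one, mul_one, div_one]
      ring
    · simp only [Finset.mem_insert, Finset.mem_singleton, not_or] at hχ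
      rw [hV, T.zero χ hχ.1 hχ.2.1 hχ.2.2.1 hχ.2.2.2]
      simp
  have hN : (1 : ℤ) + (c K ρ a * deg a) ^ 2 + (c K ρ b * deg b) ^ 2 + (c K ρ d * deg d) ^ 2 ≤
      (Nat.card G : ℤ) := by
    have h1 : ∑ χ : IrrCharacter G, deg χ ^ 2 = (Nat.card G : ℤ) := by
      rw [← sum_charDegree_sq]
      simp [deg]
    have h2 := Finset.sum_le_sum_of_subset_of_nonneg
      (Finset.subset_univ ({triv G, a, b, d} : Finset (IrrCharacter G)))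
      (f := fun χ : IrrCharacter G => deg χ ^ 2) fun χ _ _ => sq_nonneg _
    rw [h1, Finset.sum_insert (by simp [T.na.symm, T.nb.symm, T.nd.symm]),
      Finset.sum_insert (by simp [T.ab, T.ad]), Finset.sum_pair T.bd, deg_triv] at h2
    rcases T.sa with e1 | e1 <;> rcases T.sb with e2 | e2 <;> rcases T.sd with e3 | e3 <;>
      simp only [e1, e2, e3] <;> linarith
  have hsum := T.deg_eq h hρ
  have hne : ∀ χ : IrrCharacter G, (c K ρ χ = 1 ∨ c K ρ χ = -1) →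
      ((c K ρ χ * deg χ : ℤ) : ℂ) ≠ 0 := fun χ hχ =>
    Int.cast_ne_zero.2 (by have := hmod χ hχ; omega)
  rw [hEs] at hE
  have na' := hne a T.sa
  have nb' := hne b T.sb
  have nd' := hne d T.sd
  have hu := hmod a T.sa
  have hv := hmod b T.sb
  have hfin : c K ρ a * deg a = c K ρ b * deg b ∨ c K ρ a * deg a = c K ρ d * deg d ∨
      c K ρ b * deg b = c K ρ d * deg d := by
    generalize hua : c K ρ a * deg a = u at *
    generalize hvb : c K ρ b * deg b = v at *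
    generalize hwd : c K ρ d * deg d = w at *
    obtain rfl : w = -1 - u - v := by omega
    refine small_equal hu hv hN ?_
    field_simp at hE
    push_cast at hE
    have : (((u * v * (-1 - u - v) + v * (-1 - u - v) + u * (-1 - u - v) + u * v) *
        (Nat.card G : ℤ) : ℤ) : ℂ) = ((32 * (u * v * (-1 - u - v)) : ℤ) : ℂ) := by
      push_cast
      linear_combination hE
    exact_mod_cast this
  have hcom : ∀ χ : IrrCharacter G, ∀ ψ : K →* ℂˣ, ψ ≠ 1 → c K ψ χ = c K ρ χ :=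
    fun χ ψ hψ => by rw [(hall ψ).resolve_left hψ]
  rcases hfin with e | e | e
  · exact ⟨ρ, d, a, b, hρ, hρi, huniq, T.rot.rot, hcom d, e⟩
  · exact ⟨ρ, b, d, a, hρ, hρi, huniq, T.rot, hcom b, e.symm⟩
  · exact ⟨ρ, a, b, d, hρ, hρi, huniq, T, hcom a, e⟩

theorem config_two (h : Hyp t K s m) (hm : 2 ≤ m) : ∃ ρ X Y Z, Config K ρ X Y Z := by
  classical
  obtain ⟨ρ, hρ, hρi, huniq⟩ := exists_rho h
  have hni : ∀ ψ : K →* ℂˣ, ψ ≠ 1 → ψ ≠ ρ → ψ⁻¹ ≠ ψ := fun ψ h1 h2 e =>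
    (huniq ψ e).elim h1 h2
  have hir : ∀ ψ : K →* ℂˣ, ψ ≠ ρ → ρ ≠ ψ⁻¹ := fun ψ h2 e =>
    h2 (by rw [← hρi, e]; exact (inv_inv ψ).symm)
  obtain ⟨ψ₀, h01, h0ρ⟩ : ∃ ψ : K →* ℂˣ, ψ ≠ 1 ∧ ψ ≠ ρ := by
    by_contra hc
    push Not at hc
    have h1 : (Finset.univ : Finset (K →* ℂˣ)) ⊆ {1, ρ} := fun ψ _ => by
      by_cases e : ψ = 1
      · simp [e]
      · simp [hc ψ e]
    have h2 := Finset.card_le_card h1
    rw [Finset.card_univ, card_dual h] at h2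
    have := Finset.card_le_two (a := (1 : K →* ℂˣ)) (b := ρ)
    omega
  -- a constituent common to all pairs
  obtain ⟨X, hX1, σ, hσ, hX⟩ : ∃ X : IrrCharacter G, X ≠ triv G ∧ ∃ σ : ℤ, σ ≠ 0 ∧
      (∀ ψ : K →* ℂˣ, ψ ≠ 1 → ψ ≠ ρ → c K ψ X = σ) ∧
      ((∀ ψ : K →* ℂˣ, ψ ≠ 1 → ψ ≠ ρ → ψ = ψ₀ ∨ ψ = ψ₀⁻¹) → c K ρ X ≠ 0) := by
    obtain ⟨a, b, P⟩ := exists_pair h h01 (hni _ h01 h0ρ)
    have hb0 : c K ψ₀ b ≠ 0 := by rcases P.sb with e | e <;> omega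
    have ha0 : c K ψ₀ a ≠ 0 := by rcases P.sa with e | e <;> omega
    by_cases hA : ∀ ψ : K →* ℂˣ, ψ ≠ 1 → ψ ≠ ρ → ψ = ψ₀ ∨ ψ = ψ₀⁻¹
    · rcases P.overlap h h01 hρ h0ρ.symm (hir _ h0ρ) with ⟨e1, -⟩ | ⟨-, e1⟩
      · refine ⟨a, P.na, c K ψ₀ a, ha0, fun ψ h1 h2 => ?_, fun _ => by rw [e1]; exact ha0⟩
        rcases hA ψ h1 h2 with rfl | rfl
        · rfl
        · exact c_inv h _ _
      · refine ⟨b, P.nb, c K ψ₀ b, hb0, fun ψ h1 h2 => ?_, fun _ => by rw [e1]; exact hb0⟩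
        rcases hA ψ h1 h2 with rfl | rfl
        · rfl
        · exact c_inv h _ _
    have hcase : ∀ ψ : K →* ℂˣ, ψ ≠ 1 → ψ ≠ ρ →
        (c K ψ a = c K ψ₀ a ∧ (c K ψ b = c K ψ₀ b ∨ c K ψ b = 0)) ∨
          (c K ψ a = 0 ∧ c K ψ b = c K ψ₀ b) := by
      intro ψ h1 h2
      by_cases e1 : ψ = ψ₀
      · rw [e1]; exact Or.inl ⟨rfl, Or.inl rfl⟩
      by_cases e2 : ψ = ψ₀⁻¹
      · rw [e2, c_inv h, c_inv h]; exact Or.inl ⟨rfl, Or.inl rfl⟩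
      rcases P.overlap h h01 h1 e1 e2 with ⟨e, e'⟩ | ⟨e, e'⟩
      · exact Or.inl ⟨e, Or.inr e'⟩
      · exact Or.inr ⟨e, e'⟩
    by_cases hA1 : ∀ ψ : K →* ℂˣ, ψ ≠ 1 → ψ ≠ ρ → c K ψ a = c K ψ₀ a
    · exact ⟨a, P.na, _, ha0, hA1, fun h' => absurd h' hA⟩
    by_cases hB1 : ∀ ψ : K →* ℂˣ, ψ ≠ 1 → ψ ≠ ρ → c K ψ b = c K ψ₀ b
    · exact ⟨b, P.nb, _, hb0, hB1, fun h' => absurd h' hA⟩
    exfalso
    push Not at hA1 hB1
    obtain ⟨ψ₁, h11, h1ρ, h1a⟩ := hA1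
    obtain ⟨ψ₂, h21, h2ρ, h2b⟩ := hB1
    have e1 : c K ψ₁ a = 0 ∧ c K ψ₁ b = c K ψ₀ b := by
      rcases hcase ψ₁ h11 h1ρ with ⟨e, -⟩ | e
      · exact absurd e h1a
      · exact e
    have e2 : c K ψ₂ a = c K ψ₀ a ∧ c K ψ₂ b = 0 := by
      rcases hcase ψ₂ h21 h2ρ with ⟨e, e' | e'⟩ | ⟨-, e'⟩
      · exact absurd e' h2b
      · exact ⟨e, e'⟩
      · exact absurd e' h2b
    obtain ⟨q1, hq1⟩ := exists_pair h h11 (hni _ h11 h1ρ)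
    obtain ⟨q2, P1'⟩ := hq1
    obtain ⟨C, P1⟩ := P1'.with_mem P.nb (by rw [e1.2]; exact hb0)
    have n1 : ψ₂ ≠ ψ₁ := fun e => h2b (by rw [e, e1.2])
    have n2 : ψ₂ ≠ ψ₁⁻¹ := fun e => h2b (by rw [e, c_inv h, e1.2])
    have e3 : c K ψ₂ C = c K ψ₁ C := by
      rcases P1.overlap h h11 h21 n1 n2 with ⟨e, -⟩ | ⟨-, e⟩
      · rw [e1.2, e2.2] at e; exact absurd e.symm hb0
      · exact e
    obtain ⟨q3, hq3⟩ := exists_pair h h21 (hni _ h21 h2ρ)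
    obtain ⟨q4, P2'⟩ := hq3
    obtain ⟨C2, P2⟩ := P2'.with_mem P.na (by rw [e2.1]; exact ha0)
    have hC0 : c K ψ₁ C ≠ 0 := by rcases P1.sb with e | e <;> omega
    have hCa : C ≠ a := fun e => hC0 (by rw [e]; exact e1.1)
    have hC2 : C2 = C := by
      by_contra hne
      exact hC0 (by rw [← e3]; exact P2.zero C P1.nb hCa (fun e => hne e.symm))
    have d0 := P.deg_eq h h01
    have d1 := P1.deg_eq h h11
    have d2 := P2.deg_eq h h21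
    rw [e1.2] at d1
    rw [e2.1, hC2, e3] at d2
    generalize c K ψ₀ a * deg a = ua at *
    generalize c K ψ₀ b * deg b = ub at *
    generalize c K ψ₁ C * deg C = uc at *
    omega
  obtain ⟨hX2, hX3⟩ := hX
  -- the pair of every other character contains X
  have hP : ∀ ψ : K →* ℂˣ, ψ ≠ 1 → ψ ≠ ρ → ∃ Θ, Pair K ψ X Θ := fun ψ h1 h2 => by
    obtain ⟨a, b, P⟩ := exists_pair h h1 (hni _ h1 h2)
    exact P.with_mem hX1 (by rw [hX2 ψ h1 h2]; exact hσ)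
  have hXρ : c K ρ X = σ := by
    obtain ⟨Θ₀, P₀⟩ := hP ψ₀ h01 h0ρ
    rcases P₀.overlap h h01 hρ h0ρ.symm (hir _ h0ρ) with ⟨e1, -⟩ | ⟨e1, e1'⟩
    · rw [e1, hX2 ψ₀ h01 h0ρ]
    exfalso
    obtain ⟨ψ₁, h11, h1ρ, h10, h10'⟩ : ∃ ψ : K →* ℂˣ, ψ ≠ 1 ∧ ψ ≠ ρ ∧ ψ ≠ ψ₀ ∧ ψ ≠ ψ₀⁻¹ := by
      by_contra hc
      push Not at hc
      refine hX3 (fun ψ h1 h2 => ?_) e1
      by_cases e : ψ = ψ₀
      · exact Or.inl e
      · exact Or.inr (hc ψ h1 h2 e)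
    obtain ⟨Θ₁, P₁⟩ := hP ψ₁ h11 h1ρ
    have hd0 := P₀.deg_eq h h01
    rw [hX2 ψ₀ h01 h0ρ] at hd0
    have hprop : ∀ ψ Θ, ψ ≠ 1 → ψ ≠ ρ → Pair K ψ X Θ →
        c K ρ Θ = c K ψ Θ ∧ c K ρ Θ ≠ 0 ∧ c K ψ Θ * deg Θ = -1 - σ * deg X := by
      intro ψ Θ h1 h2 P
      have hd := P.deg_eq h h1
      rw [hX2 ψ h1 h2] at hd
      rcases P.overlap h h1 hρ h2.symm (hir _ h2) with ⟨e, -⟩ | ⟨-, e⟩
      · rw [e1, hX2 ψ h1 h2] at e
        exact absurd e.symm hσ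
      · exact ⟨e, by rw [e]; rcases P.sb with e' | e' <;> omega, by linarith⟩
    have hdist : ∀ ψ ψ' Θ Θ', ψ ≠ 1 → ψ ≠ ρ → ψ' ≠ 1 → ψ' ≠ ρ → ψ' ≠ ψ → ψ' ≠ ψ⁻¹ →
        Pair K ψ X Θ → Pair K ψ' X Θ' → Θ ≠ Θ' ∧ c K ψ' Θ = 0 := by
      intro ψ ψ' Θ Θ' h1 h2 h1' h2' n1 n2 P P'
      rcases P.overlap h h1 h1' n1 n2 with ⟨-, e⟩ | ⟨e, -⟩
      · exact ⟨fun e' => by rw [e'] at e; rcases P'.sb with e'' | e'' <;> omega, e⟩
      · rw [hX2 ψ' h1' h2'] at e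
        exact absurd e hσ
    obtain ⟨r1, n1, w0⟩ := hprop ψ₀ Θ₀ h01 h0ρ P₀
    obtain ⟨r2, n2, w1⟩ := hprop ψ₁ Θ₁ h11 h1ρ P₁
    obtain ⟨d01, z10⟩ := hdist ψ₀ ψ₁ Θ₀ Θ₁ h01 h0ρ h11 h1ρ h10 h10' P₀ P₁
    have h01' : ψ₀ ≠ ψ₁⁻¹ := fun e => h10' (by rw [e]; exact (inv_inv ψ₁).symm)
    obtain ⟨-, z01⟩ := hdist ψ₁ ψ₀ Θ₁ Θ₀ h11 h1ρ h01 h0ρ h10.symm h01' P₁ P₀
    obtain ⟨qa, qb, qd, T0⟩ := exists_triple h hρ hρi
    obtain ⟨f1, f2, T1⟩ := T0.with_mem P₀.nb n1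
    obtain ⟨Z, T⟩ : ∃ Z, Triple K ρ Θ₀ Θ₁ Z := by
      by_cases e : Θ₁ = f1
      · exact ⟨f2, e ▸ T1⟩
      · have e' : Θ₁ = f2 := by
          by_contra e'
          exact n2 (T1.zero Θ₁ P₁.nb d01.symm e e')
        exact ⟨f1, e' ▸ ⟨T1.na, T1.nd, T1.nb, T1.ad, T1.ab, T1.bd.symm, T1.sa, T1.sd, T1.sb,
          fun χ g1 g2 g3 g4 => T1.zero χ g1 g2 g4 g3⟩⟩
    have hall : ∀ ψ : K →* ℂˣ, ψ = 1 ∨ ψ = ρ ∨ ψ = ψ₀ ∨ ψ = ψ₀⁻¹ ∨ ψ = ψ₁ ∨ ψ = ψ₁⁻¹ := by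
      intro ψ
      by_contra hc
      push Not at hc
      obtain ⟨c1, c2, c3, c4, c5, c6⟩ := hc
      obtain ⟨Θ₂, P₂⟩ := hP ψ c1 c2
      obtain ⟨r3, n3, w2⟩ := hprop ψ Θ₂ c1 c2 P₂
      obtain ⟨d02, -⟩ := hdist ψ₀ ψ Θ₀ Θ₂ h01 h0ρ c1 c2 c3 c4 P₀ P₂
      obtain ⟨d12, -⟩ := hdist ψ₁ ψ Θ₁ Θ₂ h11 h1ρ c1 c2 c5 c6 P₁ P₂
      have hZ : Θ₂ = Z := by
        by_contra e
        exact n3 (T.zero Θ₂ P₂.nb d02.symm d12.symm e)
      have := T.deg_eq h hρ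
      rw [← hZ, r1, r2, r3, w0, w1, w2] at this
      omega
    have i0 := hni _ h01 h0ρ
    have i1 := hni _ h11 h1ρ
    have h1i : ∀ ψ : K →* ℂˣ, ψ ≠ 1 → ψ⁻¹ ≠ 1 := fun ψ h1 e =>
      h1 (MonoidHom.ext fun k => by simpa using DFunLike.congr_fun e k)
    have hsix : ∀ f : (K →* ℂˣ) → ℂ, ∑ ψ : K →* ℂˣ, f ψ =
        f 1 + f ρ + f ψ₀ + f ψ₀⁻¹ + f ψ₁ + f ψ₁⁻¹ := by
      intro f
      have hu : (Finset.univ : Finset (K →* ℂˣ)) = {1, ρ, ψ₀, ψ₀⁻¹, ψ₁, ψ₁⁻¹} := by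
        ext ψ; simpa using hall ψ
      have hi10 : ψ₁⁻¹ ≠ ψ₀⁻¹ := fun e => h10 (inv_injective e)
      rw [hu, Finset.sum_insert (by
          simp [hρ.symm, h01.symm, h11.symm, (h1i _ h01).symm, (h1i _ h11).symm]),
        Finset.sum_insert (by simp [h0ρ.symm, h1ρ.symm, hir _ h0ρ, hir _ h1ρ]),
        Finset.sum_insert (by simp [i0.symm, h10.symm, h01']),
        Finset.sum_insert (by simp [h10'.symm, hi10.symm]), Finset.sum_pair i1.symm]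
      ring
    have ht1 : (⟨t, h.tK⟩ : K) ≠ 1 := fun e => ne_one_of_orderOf h.ht (congrArg Subtype.val e)
    have he := sum_dual h ht1
    rw [hsix, MonoidHom.one_apply, Units.val_one, (sign_t h ψ₀).2, (sign_t h ψ₁).2] at he
    have hV : ∀ χ : IrrCharacter G, (χ : G → ℂ) t =
        -((c K ρ χ : ℂ) * (ρ ⟨t, h.tK⟩ : ℂ) + 2 * (c K ψ₀ χ : ℂ) * (ψ₀ ⟨t, h.tK⟩ : ℂ) +
          2 * (c K ψ₁ χ : ℂ) * (ψ₁ ⟨t, h.tK⟩ : ℂ)) := by
      intro χ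
      rw [restr_t h, hsix, c_one h, c_inv h, c_inv h, (sign_t h ψ₀).2, (sign_t h ψ₁).2]
      push_cast
      ring
    have hsigns : (ρ ⟨t, h.tK⟩ : ℂ) = -1 ∧ (ψ₁ ⟨t, h.tK⟩ : ℂ) = -(ψ₀ ⟨t, h.tK⟩ : ℂ) := by
      rcases (sign_t h ρ).1 with a | a <;> rcases (sign_t h ψ₀).1 with b | b <;>
        rcases (sign_t h ψ₁).1 with c' | c' <;>
        simp only [a, b, c'] at he ⊢ <;> (try norm_num at he) <;> simp
    have hA := A_eq h h01 h11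
    rw [A, A, P₀.sum h h01, P₁.sum h h11] at hA
    have hVX : (X : G → ℂ) t = 0 := by
      rw [hV, e1, hX2 ψ₀ h01 h0ρ, hX2 ψ₁ h11 h1ρ, hsigns.2]
      push_cast
      ring
    rw [hVX] at hA
    simp only [ne_eq, OfNat.ofNat_ne_zero, not_false_eq_true, zero_pow, zero_div, mul_zero,
      add_zero] at hA
    rw [hV Θ₀, hV Θ₁, z10, z01, r1, r2, hsigns.1, hsigns.2, apply_one Θ₀, apply_one Θ₁] at hA
    have hw : c K ψ₀ Θ₀ * deg Θ₀ = c K ψ₁ Θ₁ * deg Θ₁ := by rw [w0, w1]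
    have hw' : (c K ψ₀ Θ₀ : ℂ) * (deg Θ₀ : ℂ) = (c K ψ₁ Θ₁ : ℂ) * (deg Θ₁ : ℂ) := by
      exact_mod_cast hw
    have hd0' : (deg Θ₀ : ℂ) ≠ 0 := Int.cast_ne_zero.2 (deg_pos Θ₀).ne'
    have hd1' : (deg Θ₁ : ℂ) ≠ 0 := Int.cast_ne_zero.2 (deg_pos Θ₁).ne'
    have hq0 : (c K ψ₀ Θ₀ : ℂ) ^ 2 = 1 := by rcases P₀.sb with e | e <;> rw [e] <;> norm_num
    have hq1 : (c K ψ₁ Θ₁ : ℂ) ^ 2 = 1 := by rcases P₁.sb with e | e <;> rw [e] <;> norm_num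
    generalize (c K ψ₀ Θ₀ : ℂ) = q0 at hA hq0 hw'
    generalize (c K ψ₁ Θ₁ : ℂ) = q1 at hA hq1 hw'
    push_cast at hA
    field_simp at hA
    have hq0' : q0 ≠ 0 := fun e => by rw [e] at hq0; norm_num at hq0
    have hsg := (sign_t h ψ₀).1
    generalize (ψ₀ ⟨t, h.tK⟩ : ℂ) = ε at hA hsg
    simp only [triv_apply, one_pow, one_mul, mul_zero, neg_zero, add_zero] at hA
    have h8 : (-8 * ε) * (q0 * (deg Θ₀ : ℂ)) = 0 := by
      have c3 : ∀ q : ℂ, q ^ 2 = 1 → q ^ 3 = q := fun q e => by rw [pow_succ, e, one_mul]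
      have e0 := c3 q0 hq0
      have e1 := c3 q1 hq1
      have key : q0 * (deg Θ₁ : ℂ) * (1 - 2 * ε) ^ 2 = q1 * (deg Θ₀ : ℂ) * (1 + 2 * ε) ^ 2 := by
        linear_combination hA - ((deg Θ₁ : ℂ) * (1 - 2 * ε) ^ 2) * e0 +
          ((deg Θ₀ : ℂ) * (1 + 2 * ε) ^ 2) * e1
      linear_combination (q0 * q1) * key + (deg Θ₀ : ℂ) * q0 * (1 + 2 * ε) ^ 2 * hq1 -
        (deg Θ₁ : ℂ) * q1 * (1 - 2 * ε) ^ 2 * hq0 + (1 - 2 * ε) ^ 2 * hw'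
    rcases mul_eq_zero.1 h8 with e | e
    · rcases hsg with b | b <;> rw [b] at e <;> norm_num at e
    · exact mul_ne_zero hq0' hd0' e
  have hzero : ∀ ψ Θ, ψ ≠ 1 → ψ ≠ ρ → Pair K ψ X Θ →
      ∀ φ : K →* ℂˣ, φ ≠ 1 → φ ≠ ψ → φ ≠ ψ⁻¹ → c K φ Θ = 0 := by
    intro ψ Θ h1 h2 P φ g1 g2 g3
    rcases P.overlap h h1 g1 g2 g3 with ⟨-, e⟩ | ⟨e, -⟩
    · exact e
    · exfalso
      by_cases e' : φ = ρ
      · rw [e', hXρ] at e; exact hσ e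
      · rw [hX2 φ g1 e'] at e; exact hσ e
  obtain ⟨qa, qb, qd, T0⟩ := exists_triple h hρ hρi
  obtain ⟨Y, Z, T⟩ := T0.with_mem hX1 (by rw [hXρ]; exact hσ)
  refine ⟨ρ, X, Y, Z, hρ, hρi, huniq, T, fun ψ hψ => ?_, ?_⟩
  · by_cases e : ψ = ρ
    · rw [e]
    · rw [hX2 ψ hψ e, hXρ]
  obtain ⟨Θ, P⟩ := hP ψ₀ h01 h0ρ
  have hy : ∀ W : IrrCharacter G, W ≠ triv G → W ≠ X → (c K ρ W = 1 ∨ c K ρ W = -1) →
      (W : G → ℂ) t ^ 2 = 1 := by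
    intro W w1 w2 w3
    have hz : ∀ φ : K →* ℂˣ, φ ≠ 1 → φ ≠ ρ → c K φ W = 0 := by
      intro φ g1 g2
      obtain ⟨Θ', P'⟩ := hP φ g1 g2
      refine P'.zero W w1 w2 fun e => ?_
      have := hzero φ Θ' g1 g2 P' ρ hρ g2.symm (hir _ g2)
      rw [← e] at this
      omega
    rw [restr_t h, sum_supp_one h hz]
    rcases w3 with e | e <;> rcases (sign_t h ρ).1 with b | b <;> rw [e, b] <;> norm_num
  have hVΘ : (Θ : G → ℂ) t ^ 2 = 4 := by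
    rw [restr_t h, sum_supp h (hni _ h01 h0ρ) (hzero ψ₀ Θ h01 h0ρ P), (sign_t h ψ₀).2]
    rcases P.sb with e | e <;> rcases (sign_t h ψ₀).1 with b | b <;> rw [e, b] <;> norm_num
  have hA := A_eq h h01 hρ
  rw [A, A, P.sum h h01, T.sum h hρ, hX2 ψ₀ h01 h0ρ, hXρ, hVΘ, hy Y T.nb T.ab.symm T.sb,
    hy Z T.nd T.ad.symm T.sd, apply_one Θ, apply_one Y, apply_one Z] at hA
  have d0 := P.deg_eq h h01
  have d1 := T.deg_eq h hρ
  rw [hX2 ψ₀ h01 h0ρ] at d0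
  rw [hXρ] at d1
  have hinv : ∀ W ψ, (c K ψ W = 1 ∨ c K ψ W = -1) →
      (c K ψ W : ℂ) * (1 / (deg W : ℂ)) = 1 / ((c K ψ W * deg W : ℤ) : ℂ) := by
    intro W ψ e
    rcases e with e | e <;> rw [e] <;> push_cast <;> simp [neg_div, div_neg]
  have hA' : (4 : ℂ) * (1 / ((c K ψ₀ Θ * deg Θ : ℤ) : ℂ)) =
      1 / ((c K ρ Y * deg Y : ℤ) : ℂ) + 1 / ((c K ρ Z * deg Z : ℤ) : ℂ) := by
    rw [← hinv Θ ψ₀ P.sb, ← hinv Y ρ T.sb, ← hinv Z ρ T.sd]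
    linear_combination hA
  have hw : c K ψ₀ Θ * deg Θ = c K ρ Y * deg Y + c K ρ Z * deg Z := by linarith
  have hnz : ∀ (ψ : K →* ℂˣ) W, (c K ψ W = 1 ∨ c K ψ W = -1) → c K ψ W * deg W ≠ 0 := by
    intro ψ W e
    have := deg_pos W
    rcases e with e | e <;> rw [e] <;> omega
  have n1 := hnz ψ₀ Θ P.sb
  have n2 := hnz ρ Y T.sb
  have n3 := hnz ρ Z T.sd
  generalize c K ψ₀ Θ * deg Θ = w at *
  generalize c K ρ Y * deg Y = p at *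
  generalize c K ρ Z * deg Z = q at *
  subst hw
  field_simp at hA'
  have h4 : 4 * (p * q) = (p + q) * (q + p) := by
    have : ((4 * (p * q) : ℤ) : ℂ) = (((p + q) * (q + p) : ℤ) : ℂ) := by
      push_cast at hA' ⊢
      linear_combination hA'
    exact_mod_cast this
  nlinarith [sq_nonneg (p - q)]

theorem exists_config (h : Hyp t K s m) : ∃ ρ X Y Z, Config K ρ X Y Z := by
  rcases eq_or_ne m 1 with rfl | hm
  · exact config_one h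
  · exact config_two h (by have := h.mpos; omega)

end Cfsg.Agent.Lib.BSW
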