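import Cfsg.Agent.Lib.BSW.Degree

/-!
Brauer–Suzuki–Wall configuration: the two kinds of elements outside the conjugates of `K` and
the number of involution factorisations of each (helper3).
-/

set_option autoImplicit false

namespace Cfsg.Agent.Lib.BSW

open Cfsg Cfsg.Agent.Lib.Char
open scoped ComplexConjugate

universe u

variable {G : Type u} [Group G]

/-- The data extracted from the characters: a class invariant splitting of the remaining
elements, with the numbers of involution factorisations on the two parts. -/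
structure Split (K : Subgroup G) (P : G → Prop) (z p n : ℕ) : Prop where
  inv : ∀ g y : G, P (y * g * y⁻¹) ↔ P g
  card : Nat.card {g : G | Rest K g ∧ P g} = z
  pos : ∀ g : G, Rest K g → P g → Nat.card (Invs g) = p
  neg : ∀ g : G, Rest K g → ¬ P g → Nat.card (Invs g) = n

section
variable [Fintype G] {t s : G} {K : Subgroup G} {m : ℕ}
  [Fintype K] [Fintype (K →* ℂˣ)] {ρ : K →* ℂˣ} {X Y Z : IrrCharacter G}

theorem Config.fixed (h : Hyp t K s m) (C : Config K ρ X Y Z) (ha : sdeg K ρ X ≠ 1)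
    (γ : ℂ ≃+* ℂ) : CharGalois.autIrr γ X = X := by
  have hρval : ∀ k : K, (ρ k : ℂ) = 1 ∨ (ρ k : ℂ) = -1 := by
    intro k
    refine mul_self_eq_one_iff.1 ?_
    have h1 : ρ k⁻¹ = ρ k := by
      have := DFunLike.congr_fun C.hρi k
      rwa [MonoidHom.inv_apply, ← map_inv] at this
    calc (ρ k : ℂ) * (ρ k : ℂ) = (ρ k⁻¹ : ℂ) * (ρ k : ℂ) := by rw [h1]
      _ = 1 := by rw [← Units.val_mul, ← map_mul, inv_mul_cancel, map_one, Units.val_one]
  have hc : c K ρ (CharGalois.autIrr γ X) = c K ρ X := by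
    have h1 := congrArg γ (c_formula h ρ X)
    rw [map_mul, map_natCast, map_intCast, map_sum] at h1
    have h2 := c_formula h ρ (CharGalois.autIrr γ X)
    have e : ∀ k : K, γ ((1 - (ρ k : ℂ)) * conj ((X : G → ℂ) k)) =
        (1 - (ρ k : ℂ)) * conj ((CharGalois.autIrr γ X : G → ℂ) k) := by
      intro k
      rw [map_mul, CharGalois.aut_conj_char γ (isCharacter_of_isIrr X.2), CharGalois.autIrr_apply]
      congr 1
      rcases hρval k with e | e <;> rw [e] <;> simp
    rw [Finset.sum_congr rfl fun k _ => e k, ← h2] at h1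
    exact_mod_cast (mul_left_cancel₀ (Nat.cast_ne_zero.2 (by have := h.mpos; omega)) h1).symm
  have hd : deg (CharGalois.autIrr γ X) = deg X := by
    have h1 : ((deg (CharGalois.autIrr γ X) : ℤ) : ℂ) = (deg X : ℂ) := by
      rw [← apply_one, CharGalois.autIrr_apply, apply_one, map_intCast]
    exact_mod_cast h1
  have hnt : CharGalois.autIrr γ X ≠ triv G := fun e => C.T.na <|
    CharGalois.autIrr_injective γ (e.trans (Subtype.ext (funext fun g => by simp)))
  by_contra hne
  have hσ : c K ρ X ≠ 0 := by rcases C.sigma with e | e <;> omega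
  have hs : 2 * (c K ρ X * deg X) = -(sdeg K ρ X + 1) := by
    by_cases hY : CharGalois.autIrr γ X = Y
    · rw [← hc, ← hd, hY]; exact (C.sum_half h).1
    · have hZ : CharGalois.autIrr γ X = Z := by
        by_contra hZ
        exact hσ (hc ▸ C.T.zero _ hnt hne hY hZ)
      rw [← hc, ← hd, hZ]; exact (C.sum_half h).2
  unfold sdeg at hs ha
  omega

theorem Config.rational (h : Hyp t K s m) (C : Config K ρ X Y Z) (ha : sdeg K ρ X ≠ 1) (g : G) :
    ∃ x : ℤ, (X : G → ℂ) g = (x : ℂ) :=
  CharGalois.exists_int_of_fixed (char_isIntegral (isCharacter_of_isIrr X.2) g) fun γ => by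
    rw [← CharGalois.autIrr_apply, C.fixed h ha γ]

theorem Config.sdeg_ne_one (h : Hyp t K s m) (C : Config K ρ X Y Z) : sdeg K ρ X ≠ 1 := by
  have := (C.main h).1
  have := h.mpos
  omega

open scoped Classical in
theorem sum_split_int (h : Hyp t K s m) (f : G → ℤ) (hf : ∀ g y : G, f (y * g * y⁻¹) = f g) (v : ℤ)
    (hv : ∀ k : K, k ≠ 1 → f k = v) :
    (4 * (m : ℤ)) * (∑ g : G, f g - f 1 - ∑ g ∈ Finset.univ.filter (Rest K), f g) =
      (Nat.card G : ℤ) * ((2 * (m : ℤ) - 1) * v) := by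
  have h1 := sum_split h (f := fun g => (f g : ℂ)) fun g y => congrArg _ (hf g y)
  have e : ∀ k ∈ Finset.univ.erase (1 : K), (f k : ℂ) = (v : ℂ) := fun k hk => by
    rw [hv k (Finset.ne_of_mem_erase hk)]
  rw [Finset.sum_congr rfl e, Finset.sum_const,
    Finset.card_erase_of_mem (Finset.mem_univ _), Finset.card_univ, ← Nat.card_eq_fintype_card,
    h.card, nsmul_eq_mul, Nat.cast_sub (by have := h.mpos; omega)] at h1
  push_cast at h1
  exact_mod_cast h1

open scoped Classical in
theorem Config.split (h : Hyp t K s m) (C : Config K ρ X Y Z) :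
    ∃ x : G → ℤ, (∀ g y : G, x (y * g * y⁻¹) = x g) ∧
      (∀ g : G, Rest K g → x g = 0 ∨ x g = -1) ∧
      ((Nat.card {g : G | Rest K g ∧ x g = 0} : ℤ) = sdeg K ρ X ^ 2 - 1) ∧
      (∀ g : G, Rest K g → 8 * (m : ℤ) * (Nat.card (Invs g) : ℤ) =
        sdeg K ρ X * (sdeg K ρ X + 1) + x g * (sdeg K ρ X + 1) +
          2 * sdeg K ρ X * (2 * (m : ℤ) - 1) * (1 + x g)) ∧
      4 * (m : ℤ) * ((Nat.card G : ℤ) - 1 - (Nat.card {g : G | Rest K g} : ℤ)) =
        (Nat.card G : ℤ) * (2 * (m : ℤ) - 1) := by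
  choose y hy using C.rational h (C.sdeg_ne_one h)
  have hmain := (C.main h).2
  have ha0 := C.sdeg_ne
  have he0 := C.succ_ne h
  have hσ : c K ρ X * c K ρ X = 1 := by rcases C.sigma with e | e <;> rw [e] <;> rfl
  have hy1 : y 1 = deg X := by
    have := hy 1
    rw [apply_one] at this
    exact_mod_cast this.symm
  let x : G → ℤ := fun g => c K ρ X * y g
  have hxc : ∀ g z : G, x (z * g * z⁻¹) = x g := by
    intro g z
    have h1 := hy (z * g * z⁻¹)
    rw [isClassFunction_of_isIrr X.2 g z, hy g] at h1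
    show c K ρ X * _ = c K ρ X * _
    rw [show y g = y (z * g * z⁻¹) by exact_mod_cast h1]
  have hx1 : x 1 = sdeg K ρ X := by show c K ρ X * y 1 = _; rw [hy1]; rfl
  have hxK : ∀ k : K, k ≠ 1 → x k = 1 := by
    intro k hk
    have h1 := hy k
    rw [C.X_K h hk] at h1
    show c K ρ X * y k = 1
    rw [← show c K ρ X = y k by exact_mod_cast h1, hσ]
  have hsum : ∑ g : G, x g = 0 := by
    have h1 := classInner_irr_ne X.2 (triv G).2 (fun e => C.T.na (Subtype.ext e))
    simp only [classInner, triv_apply, map_one, mul_one, mul_eq_zero, inv_eq_zero] at h1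
    have h2 := h1.resolve_left (card_ne_zero_complex G)
    simp only [hy] at h2
    show ∑ g : G, c K ρ X * y g = 0
    rw [← Finset.mul_sum, show ∑ g : G, y g = 0 by exact_mod_cast h2, mul_zero]
  have hsq : ∑ g : G, x g ^ 2 = (Nat.card G : ℤ) := by
    have h1 := classInner_irr_self X.2
    simp only [classInner, hy, map_intCast] at h1
    rw [inv_mul_eq_one₀ (card_ne_zero_complex G)] at h1
    have h2 : ∑ g : G, y g * y g = (Nat.card G : ℤ) := by exact_mod_cast h1.symm
    rw [← h2]
    exact Finset.sum_congr rfl fun g _ => by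
      show (c K ρ X * y g) ^ 2 = _
      linear_combination (y g * y g) * hσ
  have s1 := sum_split_int h x hxc 1 hxK
  have s2 := sum_split_int h (fun g => x g ^ 2) (fun g z => by rw [hxc g z]) 1
    (fun k hk => by rw [hxK k hk]; rfl)
  have s3 := sum_split_int h (fun _ => 1) (fun _ _ => rfl) 1 (fun _ _ => rfl)
  rw [hsum, hx1] at s1
  rw [hsq, hx1] at s2
  simp only [Finset.sum_const, Finset.card_univ, nsmul_one, ← Nat.card_eq_fintype_card] at s3
  have hpos : (0 : ℤ) < m := by exact_mod_cast h.mpos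
  set R := Finset.univ.filter (Rest K) with hR
  have hnn : ∀ z : ℤ, 0 ≤ z ^ 2 + z := fun z => by
    rcases le_or_gt 0 z with h1 | h1 <;> nlinarith
  have hzero : ∑ g ∈ R, (x g ^ 2 + x g) = 0 := by
    rw [Finset.sum_add_distrib]
    have : (4 * (m : ℤ)) * (∑ g ∈ R, x g ^ 2 + ∑ g ∈ R, x g) = 0 := by
      rw [hmain] at s1 s2
      linear_combination -s2 - s1
    exact (mul_eq_zero.1 this).resolve_left (by omega)
  have hval : ∀ g ∈ R, x g = 0 ∨ x g = -1 := fun g hg => by
    have h1 := (Finset.sum_eq_zero_iff_of_nonneg fun g _ => hnn (x g)).1 hzero g hg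
    rcases mul_eq_zero.1 (show x g * (x g + 1) = 0 by rw [← h1]; ring) with h2 | h2
    · exact Or.inl h2
    · exact Or.inr (by omega)
  refine ⟨x, hxc, fun g hg => hval g (Finset.mem_filter.2 ⟨Finset.mem_univ g, hg⟩), ?_, ?_, ?_⟩
  · have hcnt : ((R.filter fun g => x g = 0).card : ℤ) = ∑ g ∈ R, (1 + x g) := by
      rw [Finset.card_filter]
      push_cast
      exact Finset.sum_congr rfl fun g hg => by rcases hval g hg with e | e <;> simp [e]
    have hnc : Nat.card {g : G | Rest K g ∧ x g = 0} = (R.filter fun g => x g = 0).card := by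
      rw [Nat.card_eq_fintype_card, hR, Finset.filter_filter]
      exact Fintype.card_subtype _
    rw [hnc, hcnt, Finset.sum_add_distrib, Finset.sum_const, nsmul_one]
    rw [hmain] at s1 s3
    have : (4 * (m : ℤ)) * ((R.card : ℤ) + ∑ g ∈ R, x g - (sdeg K ρ X ^ 2 - 1)) = 0 := by
      linear_combination -s3 - s1
    have := (mul_eq_zero.1 this).resolve_left (by omega)
    linarith
  · intro g hg
    have h1 := count h g
    rw [C.E_formula h g, hy g, Finset.sum_eq_zero fun ψ _ => by rw [F_not_covered ψ hg.2, map_zero],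
      map_intCast] at h1
    have hN : (Nat.card G : ℂ) = ((2 * (m : ℤ) * (sdeg K ρ X * (sdeg K ρ X + 1)) : ℤ) : ℂ) := by
      exact_mod_cast hmain
    rw [hN] at h1
    have hxg : (x g : ℂ) = (c K ρ X : ℂ) * (y g : ℂ) := by
      show ((c K ρ X * y g : ℤ) : ℂ) = _
      push_cast; ring
    rw [← hxg] at h1
    have ha : (sdeg K ρ X : ℂ) ≠ 0 := Int.cast_ne_zero.2 ha0
    have he : ((sdeg K ρ X : ℂ) + 1) ≠ 0 := by exact_mod_cast he0
    have hm' : (m : ℂ) ≠ 0 := Nat.cast_ne_zero.2 h.mpos.ne'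
    generalize sdeg K ρ X = a at *
    generalize x g = z at *
    push_cast at h1
    field_simp at h1
    have : ((8 * (m : ℤ) * (Nat.card (Invs g) : ℤ) : ℤ) : ℂ) =
        ((a * (a + 1) + z * (a + 1) + 2 * a * (2 * (m : ℤ) - 1) * (1 + z) : ℤ) : ℂ) := by
      push_cast
      linear_combination (1 / 2 : ℂ) * h1
    exact_mod_cast this
  · have hnc : Nat.card {g : G | Rest K g} = R.card := by
      rw [Nat.card_eq_fintype_card, hR]
      exact Fintype.card_subtype _
    rw [hnc]
    linarith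

end

/-- The outcome of the character theory. -/
theorem dichotomy [Finite G] {t s : G} {K : Subgroup G} {m : ℕ} (h : Hyp t K s m) :
    (Nat.card G = 2 * m * ((4 * m + 1) * (4 * m + 2)) ∧
      ∃ P : G → Prop, Split K P ((4 * m + 1) ^ 2 - 1) (4 * m + 1) (2 * m + 1)) ∨
    (Nat.card G = 2 * m * ((4 * m - 1) * (4 * m - 2)) ∧
      ∃ P : G → Prop, Split K P ((4 * m - 1) ^ 2 - 1) 0 (2 * m - 1) ∧
        (2 ≤ m → ∃ g : G, Rest K g ∧ ¬ P g)) := by
  classical
  haveI := Fintype.ofFinite G
  haveI : Finite (K →* ℂˣ) := finite_dual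
  haveI := Fintype.ofFinite (K →* ℂˣ)
  obtain ⟨ρ, X, Y, Z, C⟩ := exists_config h
  obtain ⟨x, hx, hval, hcard, hcount, hrest⟩ := C.split h
  obtain ⟨hcase, hG⟩ := C.main h
  have hm : (0 : ℤ) < m := by exact_mod_cast h.mpos
  have hm' := h.mpos
  have hsq : ∀ b : ℕ, 1 ≤ b → ((b ^ 2 - 1 : ℕ) : ℤ) = (b : ℤ) ^ 2 - 1 := fun b hb => by
    rw [Nat.cast_sub (Nat.one_le_pow _ _ hb)]; push_cast; rfl
  rcases hcase with ha | ha <;> rw [ha] at hcard hcount hG
  · left
    refine ⟨by exact_mod_cast (show (Nat.card G : ℤ) =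
        2 * (m : ℤ) * ((4 * (m : ℤ) + 1) * (4 * (m : ℤ) + 2)) by rw [hG]; ring),
      fun g => x g = 0, fun g y => by rw [hx], ?_, fun g hg hz => ?_, fun g hg hz => ?_⟩
    · have : ((Nat.card {g : G | Rest K g ∧ x g = 0} : ℕ) : ℤ) = (((4 * m + 1) ^ 2 - 1 : ℕ) : ℤ) := by
        rw [hcard, hsq _ (by omega)]; push_cast; ring
      exact_mod_cast this
    · have h1 := hcount g hg
      rw [hz] at h1
      have : ((Nat.card (Invs g) : ℤ)) = 4 * (m : ℤ) + 1 :=
        mul_left_cancel₀ (show (8 * (m : ℤ)) ≠ 0 by omega) (by linear_combination h1)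
      omega
    · have h1 := hcount g hg
      rw [(hval g hg).resolve_left hz] at h1
      have : ((Nat.card (Invs g) : ℤ)) = 2 * (m : ℤ) + 1 :=
        mul_left_cancel₀ (show (8 * (m : ℤ)) ≠ 0 by omega) (by linear_combination h1)
      omega
  · right
    refine ⟨?_, fun g => x g = 0, ⟨fun g y => by rw [hx], ?_, fun g hg hz => ?_, fun g hg hz => ?_⟩,
      fun h2 => ?_⟩
    · have : ((Nat.card G : ℕ) : ℤ) = ((2 * m * ((4 * m - 1) * (4 * m - 2)) : ℕ) : ℤ) := by
        rw [hG]
        push_cast [Nat.cast_sub (show 1 ≤ 4 * m by omega), Nat.cast_sub (show 2 ≤ 4 * m by omega)]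
        ring
      exact_mod_cast this
    · have : ((Nat.card {g : G | Rest K g ∧ x g = 0} : ℕ) : ℤ) = (((4 * m - 1) ^ 2 - 1 : ℕ) : ℤ) := by
        rw [hcard, hsq _ (by omega), Nat.cast_sub (show 1 ≤ 4 * m by omega)]; push_cast; ring
      exact_mod_cast this
    · have h1 := hcount g hg
      rw [hz] at h1
      have : ((Nat.card (Invs g) : ℤ)) = 0 :=
        mul_left_cancel₀ (show (8 * (m : ℤ)) ≠ 0 by omega) (by linear_combination h1)
      omega
    · have h1 := hcount g hg
      rw [(hval g hg).resolve_left hz] at h1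
      have : ((Nat.card (Invs g) : ℤ)) = 2 * (m : ℤ) - 1 :=
        mul_left_cancel₀ (show (8 * (m : ℤ)) ≠ 0 by omega) (by linear_combination h1)
      omega
    · by_contra hc
      push Not at hc
      have he : ({g : G | Rest K g ∧ x g = 0} : Set G) = {g : G | Rest K g} :=
        Set.ext fun g => ⟨fun hg => hg.1, fun hg => ⟨hg, hc g hg⟩⟩
      rw [he] at hcard
      rw [hcard, hG] at hrest
      have h2' : (2 : ℤ) ≤ m := by exact_mod_cast h2
      have h5 : (4 * (m : ℤ) - 1) * ((2 * (m : ℤ)) * (m - 1)) = 0 := by nlinarith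
      have h6 : (0 : ℤ) < (4 * (m : ℤ) - 1) * ((2 * (m : ℤ)) * (m - 1)) :=
        mul_pos (by omega) (mul_pos (by omega) (by omega))
      omega

end Cfsg.Agent.Lib.BSW
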