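import Cfsg.Agent.Lib.BSW.Config

/-!
Brauer–Suzuki–Wall configuration: the degree of the common constituent and the order of the
group (helper3).
-/

set_option autoImplicit false

namespace Cfsg.Agent.Lib.BSW

open Cfsg Cfsg.Agent.Lib.Char
open scoped ComplexConjugate

universe u

variable {G : Type u} [Group G] [Fintype G] {t s : G} {K : Subgroup G} {m : ℕ}
  [Fintype K] [Fintype (K →* ℂˣ)] {ρ : K →* ℂˣ} {X Y Z : IrrCharacter G}

/-- The signed degree of the common constituent. -/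
noncomputable def sdeg (K : Subgroup G) (ρ : K →* ℂˣ) (X : IrrCharacter G) : ℤ :=
  c K ρ X * deg X

omit [Fintype K] [Fintype (K →* ℂˣ)] in
theorem Config.sigma (C : Config K ρ X Y Z) : c K ρ X = 1 ∨ c K ρ X = -1 := C.T.sa

theorem Config.sum_half (h : Hyp t K s m) (C : Config K ρ X Y Z) :
    2 * (c K ρ Y * deg Y) = -(sdeg K ρ X + 1) ∧ 2 * (c K ρ Z * deg Z) = -(sdeg K ρ X + 1) := by
  have h1 := C.T.deg_eq h C.hρ
  have h2 := C.eqYZ
  unfold sdeg
  constructor <;> omega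

theorem Config.succ_ne (h : Hyp t K s m) (C : Config K ρ X Y Z) : sdeg K ρ X + 1 ≠ 0 := by
  intro e
  have h1 := (C.sum_half h).1
  have h2 := deg_pos Y
  rw [e] at h1
  rcases C.T.sb with e' | e' <;> rw [e'] at h1 <;> omega

omit [Fintype K] [Fintype (K →* ℂˣ)] in
theorem Config.sdeg_ne (C : Config K ρ X Y Z) : sdeg K ρ X ≠ 0 := by
  have := deg_pos X
  rcases C.sigma with e | e <;> rw [sdeg, e] <;> omega

theorem Config.pair_X (h : Hyp t K s m) (C : Config K ρ X Y Z) {φ : K →* ℂˣ} (h1 : φ ≠ 1)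
    (h2 : φ ≠ ρ) :
    φ⁻¹ ≠ φ ∧ ∃ Θ, Pair K φ X Θ ∧
      ∀ φ' : K →* ℂˣ, φ' ≠ 1 → φ' ≠ φ → φ' ≠ φ⁻¹ → c K φ' Θ = 0 := by
  have hi : φ⁻¹ ≠ φ := fun e => (C.uniq φ e).elim h1 h2
  have hσ : c K ρ X ≠ 0 := by rcases C.sigma with e | e <;> omega
  obtain ⟨a, b, P⟩ := exists_pair h h1 hi
  obtain ⟨Θ, P'⟩ := P.with_mem C.T.na (by rw [C.common φ h1]; exact hσ)
  refine ⟨hi, Θ, P', fun φ' g1 g2 g3 => ?_⟩
  rcases P'.overlap h h1 g1 g2 g3 with ⟨-, e⟩ | ⟨e, -⟩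
  · exact e
  · rw [C.common φ' g1] at e; exact absurd e hσ

theorem Config.zero_YZ (h : Hyp t K s m) (C : Config K ρ X Y Z) {W : IrrCharacter G}
    (hW : W = Y ∨ W = Z) {φ : K →* ℂˣ} (h1 : φ ≠ 1) (h2 : φ ≠ ρ) : c K φ W = 0 := by
  obtain ⟨-, Θ, P, hz⟩ := C.pair_X h h1 h2
  have hWρ : c K ρ W ≠ 0 ∧ W ≠ triv G ∧ W ≠ X := by
    rcases hW with rfl | rfl
    · exact ⟨by rcases C.T.sb with e | e <;> omega, C.T.nb, C.T.ab.symm⟩
    · exact ⟨by rcases C.T.sd with e | e <;> omega, C.T.nd, C.T.ad.symm⟩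
  refine P.zero W hWρ.2.1 hWρ.2.2 fun e => hWρ.1 ?_
  rw [e]
  exact hz ρ C.hρ h2.symm fun e' => h2 (by rw [← C.hρi, e']; exact (inv_inv φ).symm)

/-- Outside `1` and `X` every character is orthogonal to all `F ψ`, or is one of the others. -/
theorem Config.cases (h : Hyp t K s m) (C : Config K ρ X Y Z) {χ : IrrCharacter G}
    (h1 : χ ≠ triv G) (h2 : χ ≠ X) :
    (∀ ψ : K →* ℂˣ, c K ψ χ = 0) ∨ (χ = Y ∨ χ = Z) ∨
      ∃ ψ : K →* ℂˣ, ψ ≠ 1 ∧ ψ ≠ ρ ∧ Pair K ψ X χ ∧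
        ∀ φ' : K →* ℂˣ, φ' ≠ 1 → φ' ≠ ψ → φ' ≠ ψ⁻¹ → c K φ' χ = 0 := by
  by_cases hall : ∀ ψ : K →* ℂˣ, c K ψ χ = 0
  · exact Or.inl hall
  push Not at hall
  obtain ⟨ψ, hψ⟩ := hall
  have hψ1 : ψ ≠ 1 := fun e => hψ (by rw [e]; exact c_one h χ)
  refine Or.inr ?_
  by_cases hρ' : ψ = ρ
  · left
    by_contra hc
    push Not at hc
    exact hψ (hρ' ▸ C.T.zero χ h1 h2 hc.1 hc.2)
  · right
    obtain ⟨-, Θ, P, hz⟩ := C.pair_X h hψ1 hρ'
    have : χ = Θ := by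
      by_contra hne
      exact hψ (P.zero χ h1 h2 hne)
    exact ⟨ψ, hψ1, hρ', this ▸ P, this ▸ hz⟩

theorem Config.sq (h : Hyp t K s m) (C : Config K ρ X Y Z) {χ : IrrCharacter G}
    (h1 : χ ≠ triv G) (h2 : χ ≠ X) :
    (χ : G → ℂ) t ^ 2 * ((sdeg K ρ X + 1 : ℤ) : ℂ) =
      -(2 * (deg χ : ℂ) * ∑ ψ : K →* ℂˣ, (c K ψ χ : ℂ)) := by
  rcases C.cases h h1 h2 with hz | hY | ⟨ψ, hψ1, hψρ, P, hz⟩
  · rw [restr_t h]
    simp [hz]
  · have hz : ∀ φ : K →* ℂˣ, φ ≠ 1 → φ ≠ ρ → c K φ χ = 0 := fun φ a b => C.zero_YZ h hY a b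
    have hh : 2 * (c K ρ χ * deg χ) = -(sdeg K ρ X + 1) ∧ (c K ρ χ = 1 ∨ c K ρ χ = -1) := by
      rcases hY with rfl | rfl
      · exact ⟨(C.sum_half h).1, C.T.sb⟩
      · exact ⟨(C.sum_half h).2, C.T.sd⟩
    have e1 : ∑ ψ : K →* ℂˣ, (c K ψ χ : ℂ) = (c K ρ χ : ℂ) := by
      have := sum_supp_one h hz (fun _ => (1 : ℂ))
      simpa using this
    have e2 : (χ : G → ℂ) t ^ 2 = 1 := by
      rw [restr_t h, sum_supp_one h hz]
      rcases hh.2 with e | e <;> rcases (sign_t h ρ).1 with b | b <;> rw [e, b] <;> norm_num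
    have e3 : (2 : ℂ) * ((c K ρ χ : ℂ) * (deg χ : ℂ)) = -((sdeg K ρ X : ℂ) + 1) := by
      exact_mod_cast hh.1
    rw [e1, e2]
    push_cast
    linear_combination e3
  · have hi : ψ⁻¹ ≠ ψ := fun e => (C.uniq ψ e).elim hψ1 hψρ
    have e1 : ∑ φ : K →* ℂˣ, (c K φ χ : ℂ) = 2 * (c K ψ χ : ℂ) := by
      have := sum_supp h hi hz (fun _ => (1 : ℂ))
      simp only [mul_one] at this
      rw [this]; ring
    have e2 : (χ : G → ℂ) t ^ 2 = 4 := by
      rw [restr_t h, sum_supp h hi hz, (sign_t h ψ).2]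
      rcases P.sb with e | e <;> rcases (sign_t h ψ).1 with b | b <;> rw [e, b] <;> norm_num
    have hd := P.deg_eq h hψ1
    rw [C.common ψ hψ1] at hd
    have e3 : (sdeg K ρ X : ℂ) + (c K ψ χ : ℂ) * (deg χ : ℂ) = -1 := by
      unfold sdeg
      exact_mod_cast hd
    rw [e1, e2]
    push_cast
    linear_combination 4 * e3

theorem sum_ne_one (h : Hyp t K s m) {χ : IrrCharacter G} {v : ℤ}
    (hv : ∀ ψ : K →* ℂˣ, ψ ≠ 1 → c K ψ χ = v) :
    ∑ ψ : K →* ℂˣ, (c K ψ χ : ℂ) = (v : ℂ) * (2 * (m : ℂ) - 1) := by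
  classical
  rw [← Finset.add_sum_erase Finset.univ _ (Finset.mem_univ (1 : K →* ℂˣ)), c_one h,
    Finset.sum_congr rfl fun ψ hψ => by rw [hv ψ (Finset.ne_of_mem_erase hψ)], Finset.sum_const,
    Finset.card_erase_of_mem (Finset.mem_univ _), Finset.card_univ, card_dual h, nsmul_eq_mul,
    Nat.cast_sub (by have := h.mpos; omega)]
  push_cast
  ring

theorem Config.X_K (h : Hyp t K s m) (C : Config K ρ X Y Z) {k : K} (hk : k ≠ 1) :
    (X : G → ℂ) k = (c K ρ X : ℂ) := by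
  classical
  have hs := sum_dual h hk
  rw [← Finset.add_sum_erase Finset.univ _ (Finset.mem_univ (1 : K →* ℂˣ)), MonoidHom.one_apply,
    Units.val_one] at hs
  rw [restr h hk, ← Finset.add_sum_erase Finset.univ _ (Finset.mem_univ (1 : K →* ℂˣ)), c_one h,
    Finset.sum_congr rfl fun ψ hψ => by rw [C.common ψ (Finset.ne_of_mem_erase hψ)],
    ← Finset.mul_sum]
  push_cast
  linear_combination -(c K ρ X : ℂ) * hs

theorem Config.X_t (h : Hyp t K s m) (C : Config K ρ X Y Z) :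
    (X : G → ℂ) t = (c K ρ X : ℂ) :=
  C.X_K h (k := ⟨t, h.tK⟩) fun e => ne_one_of_orderOf h.ht (congrArg Subtype.val e)

/-- The class sum in terms of the values of `X` and of the induced functions. -/
theorem Config.E_formula (h : Hyp t K s m) (C : Config K ρ X Y Z) (g : G) :
    E t g = 1 + (c K ρ X : ℂ) * conj ((X : G → ℂ) g) / (sdeg K ρ X : ℂ) -
      2 / ((sdeg K ρ X + 1 : ℤ) : ℂ) * (∑ ψ : K →* ℂˣ, conj (F K ψ g) -
        (2 * (m : ℂ) - 1) * (1 + (c K ρ X : ℂ) * conj ((X : G → ℂ) g))) := by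
  classical
  have he : ((sdeg K ρ X + 1 : ℤ) : ℂ) ≠ 0 := Int.cast_ne_zero.2 (C.succ_ne h)
  have hXt : X ∈ Finset.univ.erase (triv G) := Finset.mem_erase.2 ⟨C.T.na, Finset.mem_univ X⟩
  have hterm : ∀ χ ∈ (Finset.univ.erase (triv G)).erase X,
      (χ : G → ℂ) t * (χ : G → ℂ) t * conj ((χ : G → ℂ) g) / (χ : G → ℂ) 1 =
        -(2 / ((sdeg K ρ X + 1 : ℤ) : ℂ) *
          ∑ ψ : K →* ℂˣ, (c K ψ χ : ℂ) * conj ((χ : G → ℂ) g)) := by
    intro χ hχ
    have hd : (deg χ : ℂ) ≠ 0 := Int.cast_ne_zero.2 (deg_pos χ).ne'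
    have := C.sq h (Finset.ne_of_mem_erase (Finset.mem_of_mem_erase hχ)) (Finset.ne_of_mem_erase hχ)
    rw [apply_one, ← Finset.sum_mul]
    generalize ∑ ψ : K →* ℂˣ, (c K ψ χ : ℂ) = S at this ⊢
    field_simp
    linear_combination conj ((χ : G → ℂ) g) * this
  have hfin : ∑ χ ∈ (Finset.univ.erase (triv G)).erase X,
      ∑ ψ : K →* ℂˣ, (c K ψ χ : ℂ) * conj ((χ : G → ℂ) g) =
      ∑ ψ : K →* ℂˣ, conj (F K ψ g) -
        (2 * (m : ℂ) - 1) * (1 + (c K ρ X : ℂ) * conj ((X : G → ℂ) g)) := by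
    have e1 : ∑ ψ : K →* ℂˣ, conj (F K ψ g) =
        ∑ χ : IrrCharacter G, ∑ ψ : K →* ℂˣ, (c K ψ χ : ℂ) * conj ((χ : G → ℂ) g) := by
      rw [Finset.sum_comm]
      refine Finset.sum_congr rfl fun ψ _ => ?_
      rw [F_eq_sum, map_sum]
      simp
    rw [e1, ← Finset.add_sum_erase Finset.univ _ (Finset.mem_univ (triv G)),
      ← Finset.add_sum_erase _ _ hXt, ← Finset.sum_mul, ← Finset.sum_mul,
      sum_ne_one h (fun ψ hψ => c_triv h hψ), sum_ne_one h C.common]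
    simp only [triv_apply, map_one, Int.cast_one]
    ring
  rw [E, ← Finset.add_sum_erase Finset.univ _ (Finset.mem_univ (triv G)),
    ← Finset.add_sum_erase _ _ hXt, Finset.sum_congr rfl hterm, Finset.sum_neg_distrib,
    ← Finset.mul_sum, hfin, C.X_t h, sdeg]
  simp only [triv_apply, apply_one, deg_triv, map_one, mul_one, div_one, Int.cast_one, Int.cast_mul]
  have hd : (deg X : ℂ) ≠ 0 := Int.cast_ne_zero.2 (deg_pos X).ne'
  rcases C.sigma with e | e <;> rw [e] <;> push_cast <;> field_simp <;> ring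

theorem sum_F_K (h : Hyp t K s m) {k : K} (hk : k ≠ 1) :
    ∑ ψ : K →* ℂˣ, F K ψ (k : G) = 4 * (m : ℂ) := by
  simp only [F_K h, Finset.sum_sub_distrib, sum_dual h hk, sum_dual h (inv_ne_one.2 hk),
    Finset.sum_const, Finset.card_univ, card_dual h, nsmul_eq_mul]
  push_cast
  ring

theorem Config.eqn (h : Hyp t K s m) (C : Config K ρ X Y Z) :
    32 * (m : ℤ) ^ 3 * (sdeg K ρ X * (sdeg K ρ X + 1)) =
      (Nat.card G : ℤ) * (sdeg K ρ X - 1) ^ 2 := by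
  have ht1 : (⟨t, h.tK⟩ : K) ≠ 1 := fun e => ne_one_of_orderOf h.ht (congrArg Subtype.val e)
  have h1 := E_K h h.tK (ne_one_of_orderOf h.ht)
  have h2 := sum_F_K h ht1
  simp only at h2
  rw [C.E_formula h t, ← map_sum, h2, C.X_t h] at h1
  have ha : (sdeg K ρ X : ℂ) ≠ 0 := Int.cast_ne_zero.2 C.sdeg_ne
  have he : ((sdeg K ρ X + 1 : ℤ) : ℂ) ≠ 0 := Int.cast_ne_zero.2 (C.succ_ne h)
  have hσ : (c K ρ X : ℂ) * conj (c K ρ X : ℂ) = 1 := by
    rcases C.sigma with e | e <;> rw [e] <;> norm_num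
  rw [hσ] at h1
  simp only [map_mul, map_ofNat, map_natCast] at h1
  generalize sdeg K ρ X = a at *
  have : ((32 * (m : ℤ) ^ 3 * (a * (a + 1)) : ℤ) : ℂ) =
      (((Nat.card G : ℤ) * (a - 1) ^ 2 : ℤ) : ℂ) := by
    push_cast at h1 he ⊢
    field_simp at h1
    linear_combination -h1
  exact_mod_cast this

theorem Config.congr_one (h : Hyp t K s m) (C : Config K ρ X Y Z) :
    ∃ n : ℤ, sdeg K ρ X = 1 + 4 * (m : ℤ) * n := by
  obtain ⟨j, hj⟩ := value_subgroup h X (c K ρ X) fun g hg hg1 => by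
    by_cases hgK : g ∈ K
    · exact C.X_K h (k := ⟨g, hgK⟩) fun e => hg1 (congrArg Subtype.val e)
    · rw [value_invol h X (h.outside hg hgK).1, C.X_t h]
  rcases C.sigma with e | e <;> rw [sdeg, e] <;> rw [e] at hj
  · exact ⟨j - 1, by linarith⟩
  · exact ⟨-j - 1, by linarith⟩

theorem Config.deg_bound (h : Hyp t K s m) (C : Config K ρ X Y Z) :
    4 + 4 * sdeg K ρ X ^ 2 + (4 * (m : ℤ) - 3) * (sdeg K ρ X + 1) ^ 2 ≤ 4 * (Nat.card G : ℤ) := by
  classical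
  have h1 : ∑ χ : IrrCharacter G, deg χ ^ 2 = (Nat.card G : ℤ) := by
    rw [← sum_charDegree_sq]
    simp [deg]
  have hXt : X ∈ Finset.univ.erase (triv G) := Finset.mem_erase.2 ⟨C.T.na, Finset.mem_univ X⟩
  rw [← Finset.add_sum_erase Finset.univ _ (Finset.mem_univ (triv G)),
    ← Finset.add_sum_erase _ _ hXt, deg_triv] at h1
  set S := (Finset.univ.erase (triv G)).erase X with hS
  have hle : ∀ χ ∈ S, ∑ ψ : K →* ℂˣ, c K ψ χ * c K ψ χ ≤ 2 := by
    intro χ hχ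
    have n1 := Finset.ne_of_mem_erase (Finset.mem_of_mem_erase hχ)
    rcases C.cases h n1 (Finset.ne_of_mem_erase hχ) with hz | hY | ⟨ψ, hψ1, hψρ, P, hz⟩
    · simp [hz]
    · have := sum_supp_one h (fun φ a b => C.zero_YZ h hY a b) (R := ℤ) (fun φ => c K φ χ)
      simp only [Int.cast_eq] at this
      rw [this]
      rcases c_range h C.hρ n1 with e | e | e <;> rw [e] <;> norm_num
    · have := sum_supp h (fun e => (C.uniq ψ e).elim hψ1 hψρ) hz (R := ℤ) (fun φ => c K φ χ)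
      simp only [Int.cast_eq] at this
      rw [this, c_inv h]
      rcases c_range h hψ1 n1 with e | e | e <;> rw [e] <;> norm_num
  have h2 : ∑ χ ∈ S, ∑ ψ : K →* ℂˣ, c K ψ χ * c K ψ χ * (2 * deg χ ^ 2) ≤
      ∑ χ ∈ S, 4 * deg χ ^ 2 := by
    refine Finset.sum_le_sum fun χ hχ => ?_
    rw [← Finset.sum_mul]
    nlinarith [hle χ hχ, sq_nonneg (deg χ)]
  rw [Finset.sum_comm, ← Finset.mul_sum] at h2
  have h3 : ∀ ψ : K →* ℂˣ, ∑ χ ∈ S, c K ψ χ * c K ψ χ * (2 * deg χ ^ 2) =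
      2 * (sdeg K ρ X + 1) ^ 2 - (if ψ = ρ then (sdeg K ρ X + 1) ^ 2 else 0) -
        (if ψ = 1 then 2 * (sdeg K ρ X + 1) ^ 2 else 0) := by
    intro ψ
    by_cases e1 : ψ = 1
    · rw [e1, if_neg C.hρ.symm, if_pos rfl, Finset.sum_eq_zero fun χ _ => by rw [c_one h]; ring]
      ring
    have hall : ∑ χ ∈ S, c K ψ χ * c K ψ χ * (2 * deg χ ^ 2) =
        ∑ χ : IrrCharacter G, (c K ψ χ : ℤ) * (c K ψ χ * (2 * deg χ ^ 2)) -
          2 - c K ψ X * c K ψ X * (2 * deg X ^ 2) := by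
      rw [← Finset.add_sum_erase Finset.univ _ (Finset.mem_univ (triv G)),
        ← Finset.add_sum_erase _ _ hXt, ← hS, c_triv h e1, deg_triv]
      simp only [mul_assoc]
      ring
    rw [hall, if_neg e1, sub_zero]
    by_cases e2 : ψ = ρ
    · subst e2
      rw [if_pos rfl]
      have hT := C.T.sum h C.hρ (R := ℤ) (fun χ => c K ψ χ * (2 * deg χ ^ 2))
      simp only [Int.cast_eq] at hT
      rw [hT, c_triv h e1, deg_triv]
      obtain ⟨y1, y2⟩ := C.sum_half h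
      have z1 : (2 * (c K ψ Y * deg Y)) ^ 2 = (sdeg K ψ X + 1) ^ 2 := by rw [y1]; ring
      have z2 : (2 * (c K ψ Z * deg Z)) ^ 2 = (sdeg K ψ X + 1) ^ 2 := by rw [y2]; ring
      ring_nf at z1 z2 ⊢
      linarith
    · obtain ⟨-, Θ, P, -⟩ := C.pair_X h e1 e2
      have hT := P.sum h e1 (R := ℤ) (fun χ => c K ψ χ * (2 * deg χ ^ 2))
      simp only [Int.cast_eq] at hT
      rw [hT, c_triv h e1, deg_triv, if_neg e2]
      have hd := P.deg_eq h e1
      rw [C.common ψ e1] at hd ⊢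
      rw [sdeg]
      linear_combination (2 * (c K ψ Θ * deg Θ) - 2 * (c K ρ X * deg X + 1)) * hd
  rw [Finset.sum_congr rfl fun ψ _ => h3 ψ] at h2
  simp only [Finset.sum_sub_distrib, Finset.sum_ite_eq', Finset.mem_univ, if_true,
    Finset.sum_const, Finset.card_univ, card_dual h, nsmul_eq_mul] at h2
  push_cast at h2
  have hx : deg X ^ 2 = sdeg K ρ X ^ 2 := by
    rcases C.sigma with e | e <;> rw [sdeg, e] <;> ring
  linarith

theorem Config.main (h : Hyp t K s m) (C : Config K ρ X Y Z) :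
    (sdeg K ρ X = 1 + 4 * (m : ℤ) ∨ sdeg K ρ X = 1 - 4 * (m : ℤ)) ∧
      (Nat.card G : ℤ) = 2 * (m : ℤ) * (sdeg K ρ X * (sdeg K ρ X + 1)) := by
  obtain ⟨n, hn⟩ := C.congr_one h
  have hb := C.deg_bound h
  have heq := C.eqn h
  have ha0 := C.sdeg_ne
  have he0 := C.succ_ne h
  have hm : (0 : ℤ) < m := by exact_mod_cast h.mpos
  generalize sdeg K ρ X = a at *
  have hN : (0 : ℤ) < (Nat.card G : ℤ) := by exact_mod_cast Nat.card_pos
  generalize (Nat.card G : ℤ) = N at *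
  have hrel : N * n ^ 2 = 2 * (m : ℤ) * (a * (a + 1)) := by
    have : (16 * (m : ℤ) ^ 2) * (N * n ^ 2) = (16 * (m : ℤ) ^ 2) * (2 * (m : ℤ) * (a * (a + 1))) := by
      have e : a - 1 = 4 * (m : ℤ) * n := by rw [hn]; ring
      rw [e] at heq
      linear_combination -heq
    exact mul_left_cancel₀ (by positivity) this
  have hn0 : n ≠ 0 := by
    intro e
    rw [e] at hrel
    have : a * (a + 1) = 0 := by
      have h2 : 2 * (m : ℤ) * (a * (a + 1)) = 0 := by rw [← hrel]; ring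
      exact (mul_eq_zero.1 h2).resolve_left (by omega)
    rcases mul_eq_zero.1 this with h3 | h3
    · exact ha0 h3
    · exact he0 h3
  have hn1 : n = 1 ∨ n = -1 := by
    by_contra hc
    push Not at hc
    have hsq : 4 ≤ n ^ 2 := by
      rcases le_or_gt 2 n with h2 | h2
      · nlinarith
      · nlinarith [show n ≤ -2 by omega]
    have h4 : 4 * N ≤ 2 * (m : ℤ) * (a * (a + 1)) := by
      rw [← hrel]; nlinarith
    rcases le_or_gt 4 a with h5 | h5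
    · nlinarith [mul_nonneg (mul_nonneg hm.le (show (0 : ℤ) ≤ a by linarith)) (show (0 : ℤ) ≤ a - 4 by linarith)]
    · have h6 : a ≤ -7 := by
        rcases le_or_gt 2 n with h2 | h2
        · nlinarith
        · nlinarith [show n ≤ -2 by omega]
      nlinarith [mul_nonneg (mul_nonneg hm.le (show (0 : ℤ) ≤ -a by linarith)) (show (0 : ℤ) ≤ -a - 4 by linarith)]
  rcases hn1 with rfl | rfl
  · exact ⟨Or.inl (by linarith), by linarith⟩
  · exact ⟨Or.inr (by linarith), by linarith⟩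

end Cfsg.Agent.Lib.BSW
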