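import Cfsg.Agent.Lib.BSW.MinusLocal

/-!
Brauer–Suzuki–Wall configuration: the case in which the distinguished elements are not real; the
trivial intersection Sylow subgroup and its complement (helper3).
-/

set_option autoImplicit false

namespace Cfsg.Agent.Lib.BSW

open Cfsg

universe u

variable {G : Type u} [Group G] [Finite G] {t s : G} {K : Subgroup G} {m : ℕ} {P : G → Prop}

/-- An odd subgroup in which only the `p₀`-elements may be distinguished has a normal subgroup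
consisting of all `p₀`-elements. -/
theorem Minus.pclosed (M : Minus t K s m P) (L : Subgroup G) (hL : Odd (Nat.card L)) (p₀ : ℕ)
    (hne : ∀ r : ℕ, r.Prime → r ≠ p₀ → ∀ g ∈ L, g ≠ 1 → (∃ i, orderOf g = r ^ i) →
      ¬ (Rest K g ∧ P g)) :
    ∃ U : Subgroup L, U.Normal ∧ ∀ x : L, x ∈ U ↔ ∀ r : ℕ, r.Prime → r ∣ orderOf x → r = p₀ := by
  classical
  have hodd : ∀ x ∈ L, Odd (orderOf x) := fun x hx => by
    have := orderOf_dvd_natCard (⟨x, hx⟩ : L)
    rw [Subgroup.orderOf_mk] at this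
    exact Odd.of_dvd_nat hL this
  have hN : ∀ r : ℕ, r.Prime → r ≠ p₀ → ∃ U : Subgroup L, U.Normal ∧ ¬ r ∣ Nat.card U ∧
      ∀ x : L, ¬ r ∣ orderOf x → x ∈ U := by
    intro r hr hrp
    haveI : Fact r.Prime := ⟨hr⟩
    obtain ⟨R⟩ : Nonempty (Sylow r L) := inferInstance
    have hRC : Subgroup.normalizer ((R : Subgroup L) : Set L) ≤
        Subgroup.centralizer ((R : Subgroup L) : Set L) := by
      intro n hn
      refine Subgroup.mem_centralizer_iff.2 fun a ha => ?_
      by_cases hR : Nontrivial (R : Subgroup L)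
      · haveI := R.isPGroup'.center_nontrivial
        obtain ⟨⟨z, hz⟩, hz1⟩ := exists_ne (1 : Subgroup.center (R : Subgroup L))
        have hz1' : ((z : L) : G) ≠ 1 := fun e => hz1 (Subtype.ext (Subtype.ext (Subtype.ext e)))
        have hzc : ∀ b ∈ (R : Subgroup L), b * (z : L) = (z : L) * b := fun b hb =>
          congrArg Subtype.val (Subgroup.mem_center_iff.1 hz ⟨b, hb⟩)
        have hord : ∃ i, orderOf ((z : L) : G) = r ^ i := by
          obtain ⟨i, hi⟩ := IsPGroup.iff_orderOf.1 R.isPGroup' z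
          exact ⟨i, by rw [Subgroup.orderOf_coe, Subgroup.orderOf_coe, hi]⟩
        have hconj : n * (z : L) * n⁻¹ ∈ (R : Subgroup L) :=
          (Subgroup.mem_normalizer_iff.1 hn _).1 z.2
        obtain ⟨h1, h2⟩ := M.odd_fixes (g := ((z : L) : G)) (n := (n : G)) hz1'
          (hodd _ (z : L).2) (hne r hr hrp _ (z : L).2 hz1' hord) (hodd _ n.2)
          (Subgroup.mem_centralizer_singleton_iff.2 (congrArg Subtype.val (hzc _ hconj)))
        exact Subtype.ext (h2 _
          (Subgroup.mem_centralizer_singleton_iff.2 (congrArg Subtype.val (hzc a ha))) _ h1)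
      · rw [not_nontrivial_iff_subsingleton] at hR
        have : (⟨a, ha⟩ : (R : Subgroup L)) = 1 := Subsingleton.elim _ _
        rw [show a = 1 from congrArg Subtype.val this, one_mul, mul_one]
    refine ⟨(MonoidHom.transferSylow R hRC).ker, MonoidHom.normal_ker _,
      MonoidHom.not_dvd_card_ker_transferSylow R hRC, fun x hx => ?_⟩
    rw [MonoidHom.mem_ker]
    obtain ⟨i, hi⟩ := IsPGroup.iff_orderOf.1 R.isPGroup' (MonoidHom.transferSylow R hRC x)
    have h1 : orderOf (MonoidHom.transferSylow R hRC x) ∣ orderOf x := orderOf_map_dvd _ x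
    refine orderOf_eq_one_iff.1 ?_
    rw [hi] at h1 ⊢
    rcases Nat.eq_zero_or_pos i with rfl | hi0
    · rfl
    · exact absurd (dvd_trans (dvd_pow_self r hi0.ne') h1) hx
  choose U hU using hN
  refine ⟨⨅ (r : ℕ) (hr : r.Prime) (hrp : r ≠ p₀), U r hr hrp, ⟨fun x hx y => ?_⟩, fun x => ?_⟩
  · simp only [Subgroup.mem_iInf] at hx ⊢
    exact fun r hr hrp => (hU r hr hrp).1.conj_mem x (hx r hr hrp) y
  simp only [Subgroup.mem_iInf]
  refine ⟨fun hx r hr hrd => ?_, fun hx r hr hrp => (hU r hr hrp).2.2 x fun e => hrp (hx r hr e)⟩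
  by_contra hrp
  have := orderOf_dvd_natCard (⟨x, hx r hr hrp⟩ : U r hr hrp)
  rw [Subgroup.orderOf_mk] at this
  exact (hU r hr hrp).2.1 (hrd.trans this)

/-- The global conclusion of the case. -/
theorem Minus.main (M : Minus t K s m P) :
    ∃ Q D : Subgroup G, Nat.card Q = 4 * m - 1 ∧ Nat.card D = 2 * m - 1 ∧
      (∀ x ∈ Q, x ≠ 1 → Subgroup.centralizer ({x} : Set G) = Q) ∧
      (∀ a ∈ D, ∀ b ∈ D, a * b = b * a) ∧ Q ⊓ D = ⊥ ∧
      Subgroup.normalizer (Q : Set G) = Q ⊔ D ∧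
      ∀ X : Subgroup G, X ≤ D → X ≠ ⊥ →
        Subgroup.normalizer (X : Set G) = Subgroup.normalizer (D : Set G) ∧
        ∃ u : G, orderOf u = 2 ∧ u ∉ D ∧ (∀ d ∈ D, u * d * u⁻¹ = d⁻¹) ∧
          Subgroup.normalizer (D : Set G) = D ⊔ Subgroup.zpowers u := by
  classical
  have h := M.hyp
  have hm := h.mpos
  obtain ⟨p, j, hp, hpj, hord, hpel⟩ := M.exists_prime
  haveI : Fact p.Prime := ⟨hp⟩
  have hodd : Odd p := by
    refine hp.odd_of_ne_two fun e => ?_
    have h1 : Odd (4 * m - 1) := ⟨2 * m - 1, by omega⟩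
    rw [hpj, e, Nat.odd_pow_iff (fun hj => by rw [hj, pow_zero] at hpj; omega)] at h1
    exact absurd h1 (by decide)
  have hcoprime : ¬ p ∣ 2 * m * (4 * m - 2) := by
    intro hd
    have hpq : p ∣ 4 * m - 1 := by
      rw [hpj]; exact dvd_pow_self p (fun hj => by rw [hj, pow_zero] at hpj; omega)
    rcases (Nat.Prime.dvd_mul hp).1 hd with h1 | h1
    · have := Nat.dvd_sub (h1.mul_left 2) hpq
      rw [show 2 * (2 * m) - (4 * m - 1) = 1 by omega] at this
      exact hp.one_lt.ne' (Nat.dvd_one.1 this)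
    · have := Nat.dvd_sub hpq h1
      rw [show 4 * m - 1 - (4 * m - 2) = 1 by omega] at this
      exact hp.one_lt.ne' (Nat.dvd_one.1 this)
  have hPel : ∀ (S : Sylow p G), ∀ x ∈ (S : Subgroup G), x ≠ 1 → Rest K x ∧ P x := by
    intro S x hx hx1
    refine hpel x hx1 fun r hr hrd => ?_
    obtain ⟨i, hi⟩ := IsPGroup.iff_orderOf.1 S.isPGroup' ⟨x, hx⟩
    rw [Subgroup.orderOf_mk] at hi
    rw [hi] at hrd
    exact (Nat.prime_dvd_prime_iff_eq hr hp).1 (hr.dvd_of_dvd_pow hrd)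
  -- Sylow `p`-subgroups intersect trivially
  have hTI : ∀ S₁ S₂ : Sylow p G, S₁ ≠ S₂ → (S₁ : Subgroup G) ⊓ (S₂ : Subgroup G) = ⊥ := by
    by_contra hcon
    push Not at hcon
    obtain ⟨A₀, B₀, hAB₀, hne₀⟩ := hcon
    haveI := Fintype.ofFinite (Sylow p G)
    obtain ⟨⟨A, B⟩, hmem, hmax⟩ := (Finset.univ.filter fun q : Sylow p G × Sylow p G =>
      q.1 ≠ q.2).exists_max_image (fun q => Nat.card ((q.1 : Subgroup G) ⊓ (q.2 : Subgroup G) : Subgroup G))
      ⟨(A₀, B₀), by simpa using hAB₀⟩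
    have hAB : A ≠ B := (Finset.mem_filter.1 hmem).2
    set D := (A : Subgroup G) ⊓ (B : Subgroup G) with hD
    have hD1 : D ≠ ⊥ := by
      intro e
      have h1 := hmax (A₀, B₀) (by simpa using hAB₀)
      simp only [← hD, e, Subgroup.card_bot] at h1
      exact hne₀ (Subgroup.eq_bot_of_card_le _ h1)
    set L := Subgroup.normalizer (D : Set G) with hLdef
    have hLodd : Odd (Nat.card L) := by
      rw [← Nat.not_even_iff_odd, even_iff_two_dvd]
      intro h2
      haveI : Fact (Nat.Prime 2) := ⟨Nat.prime_two⟩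
      obtain ⟨z, hz⟩ := exists_prime_orderOf_dvd_card' 2 h2
      have hz' : orderOf (z : G) = 2 := by rw [Subgroup.orderOf_coe]; exact hz
      have hfree := inverts (D := D) (mul_self_of_orderOf hz')
        (fun d hd => (Subgroup.mem_normalizer_iff.1 z.2 d).1 hd)
        (fun d hd e => by
          by_contra hd1
          exact h.fixed_rest hz' (hPel A d hd.1 hd1).1 e)
      obtain ⟨d, hd, hd1⟩ := (Subgroup.bot_or_exists_ne_one D).resolve_left hD1
      exact M.not_real (hPel A d hd.1 hd1).1 (hPel A d hd.1 hd1).2 (hfree d hd)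
    obtain ⟨U, hUn, hU⟩ := M.pclosed L hLodd p fun r hr hrp g _ hg1 ⟨i, hi⟩ hgP => by
      have := hord g hgP.1 hgP.2
      rw [hi] at this
      exact hrp ((Nat.prime_dvd_prime_iff_eq hr hp).1
        (this ▸ dvd_pow_self r (fun e => by rw [e, pow_zero] at hi; exact hg1 (orderOf_eq_one_iff.1 hi))))
    have hUp : IsPGroup p (U.map L.subtype) := by
      refine IsPGroup.map ?_ L.subtype
      refine IsPGroup.iff_orderOf.2 fun x => ?_
      refine ⟨_, Nat.eq_prime_pow_of_unique_prime_dvd (orderOf_pos x).ne' fun {d} hd hdd => ?_⟩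
      exact (hU x).1 x.2 d hd (by rwa [Subgroup.orderOf_coe])
    obtain ⟨S, hS⟩ := hUp.exists_le_sylow
    have hsub : ∀ C : Sylow p G, (C : Subgroup G) ⊓ L ≤ (S : Subgroup G) := by
      intro C x hx
      refine hS ⟨⟨x, hx.2⟩, (hU _).2 fun r hr hrd => ?_, rfl⟩
      obtain ⟨i, hi⟩ := IsPGroup.iff_orderOf.1 C.isPGroup' ⟨x, hx.1⟩
      rw [Subgroup.orderOf_mk] at hi hrd
      rw [hi] at hrd
      exact (Nat.prime_dvd_prime_iff_eq hr hp).1 (hr.dvd_of_dvd_pow hrd)
    have hbig : ∀ C C' : Sylow p G, C ≠ C' → D = (C : Subgroup G) ⊓ (C' : Subgroup G) → C = S := by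
      intro C C' hne hDC
      by_contra hCS
      have hle : D ≤ (C : Subgroup G) := hDC ▸ inf_le_left
      haveI := C.isPGroup'.isNilpotent
      have hlt : D.subgroupOf (C : Subgroup G) < ⊤ := by
        rw [lt_top_iff_ne_top]
        intro e
        rw [Subgroup.subgroupOf_eq_top] at e
        have h1 : (C : Subgroup G) = D := le_antisymm e hle
        have h2 : (C : Subgroup G) ≤ (C' : Subgroup G) := h1.le.trans (hDC ▸ inf_le_right)
        exact hne (Sylow.ext (C.3 C'.isPGroup' h2).symm)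
      obtain ⟨x, hx, hxD⟩ := SetLike.exists_of_lt (normalizerCondition_of_isNilpotent _ hlt)
      have hxL : (x : G) ∈ L := by
        refine Subgroup.mem_normalizer_iff.2 fun a => ⟨fun ha => ?_, fun ha => ?_⟩
        · exact (Subgroup.mem_normalizer_iff.1 hx ⟨a, hle ha⟩).1 ha
        · have haC : a ∈ (C : Subgroup G) := by
            have := mul_mem (mul_mem (inv_mem x.2) (hle ha)) x.2
            simpa [mul_assoc] using this
          exact (Subgroup.mem_normalizer_iff.1 hx ⟨a, haC⟩).2 ha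
      have hlt2 : D < (C : Subgroup G) ⊓ (S : Subgroup G) := by
        refine lt_of_le_of_ne (le_inf hle fun a ha =>
          hsub C ⟨hle ha, Subgroup.le_normalizer ha⟩) fun e => hxD ?_
        rw [Subgroup.mem_subgroupOf, e]
        exact ⟨x.2, hsub C ⟨x.2, hxL⟩⟩
      have h1 := hmax (C, S) (by simpa using hCS)
      have h2 : Nat.card D < Nat.card ((C : Subgroup G) ⊓ (S : Subgroup G) : Subgroup G) :=
        lt_of_le_of_ne (Subgroup.card_le_of_le hlt2.le) fun e =>
          hlt2.ne (Subgroup.eq_of_le_of_card_ge hlt2.le e.ge)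
      exact absurd h1 (not_le.2 h2)
    exact hAB ((hbig A B hAB rfl).trans (hbig B A hAB.symm (inf_comm _ _)).symm)
  -- the centralisers are the Sylow subgroups
  obtain ⟨⟨g₀, hg₀, hP₀⟩⟩ : Nonempty {g : G | Rest K g ∧ P g} := by
    refine (Nat.card_pos_iff.1 ?_).1
    rw [M.count]
    have : 2 ≤ (4 * m - 1) ^ 2 :=
      le_trans (by norm_num) (Nat.pow_le_pow_left (show 2 ≤ 4 * m - 1 by omega) 2)
    omega
  have hsyl : ∀ g : G, Rest K g → P g →
      ∃ S : Sylow p G, (S : Subgroup G) = Subgroup.centralizer ({g} : Set G) := by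
    intro g hg hPg
    have hC := (M.classes hg hPg).1
    have hpg : IsPGroup p (Subgroup.centralizer ({g} : Set G)) := IsPGroup.of_card (hC.trans hpj)
    have hi : ¬ p ∣ (Subgroup.centralizer ({g} : Set G)).index := by
      have hK := (Subgroup.centralizer ({g} : Set G)).index_mul_card
      rw [hC, M.card] at hK
      rw [Nat.eq_of_mul_eq_mul_right (show 0 < 4 * m - 1 by omega)
        (hK.trans (show _ = 2 * m * (4 * m - 2) * (4 * m - 1) by ring))]
      exact hcoprime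
    exact ⟨hpg.toSylow hi, rfl⟩
  set Q := Subgroup.centralizer ({g₀} : Set G) with hQdef
  have hQc : Nat.card Q = 4 * m - 1 := (M.classes hg₀ hP₀).1
  obtain ⟨S₀, hS₀⟩ := hsyl g₀ hg₀ hP₀
  have hQ1 : ∀ x ∈ Q, x ≠ 1 →
      Rest K x ∧ P x ∧ Subgroup.centralizer ({x} : Set G) = Q := by
    intro x hx hx1
    obtain ⟨h1, h2⟩ := M.cent_pos hg₀ hP₀ hx hx1
    obtain ⟨S, hS⟩ := hsyl x h1 h2
    refine ⟨h1, h2, ?_⟩
    by_cases e : S = S₀
    · rw [← hS, e, hS₀]
    · have h3 : x ∈ (S : Subgroup G) ⊓ (S₀ : Subgroup G) :=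
        ⟨hS ▸ Subgroup.mem_centralizer_singleton_iff.2 rfl, hS₀ ▸ hx⟩
      rw [hTI S S₀ e, Subgroup.mem_bot] at h3
      exact absurd h3 hx1
  set N := Subgroup.normalizer (Q : Set G) with hNdef
  have hQN : Q ≤ N := Subgroup.le_normalizer
  have hcount := (ti_count Q {g : G | Rest K g ∧ P g}
    (fun a ha z => ⟨ha.1.conj z, (M.inv a z).2 ha.2⟩)
    (fun x hxQ hx1 => ⟨(hQ1 x hxQ hx1).1, (hQ1 x hxQ hx1).2.1⟩)
    (fun x hxQ hx1 z hz => mem_normalizer_of_cent_eq (hQ1 x hxQ hx1).2.2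
      (hQ1 _ hz fun e => hx1 (conj_eq_one_iff.1 e)).2.2)).2
    (fun a ha => by
      rcases (M.classes hg₀ hP₀).2 a ha.1 ha.2 with hc | hc <;> obtain ⟨y, hy⟩ := isConj_iff.1 hc
      · exact ⟨y, hy ▸ Subgroup.mem_centralizer_singleton_iff.2 rfl⟩
      · exact ⟨y, hy ▸ inv_mem (Subgroup.mem_centralizer_singleton_iff.2 rfl)⟩)
    (fun h1 => h1.1.1 rfl)
  rw [M.count, hQc] at hcount
  have hidx : N.index = 4 * m := by
    refine Nat.eq_of_mul_eq_mul_right (show 0 < 4 * m - 1 - 1 by omega) (hcount.trans ?_)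
    rw [Nat.sub_eq_iff_eq_add (Nat.one_le_pow _ _ (by omega))]
    obtain ⟨k, rfl⟩ : ∃ k, m = k + 1 := ⟨m - 1, by omega⟩
    rw [show 4 * (k + 1) - 1 - 1 = 4 * k + 2 by omega, show 4 * (k + 1) - 1 = 4 * k + 3 by omega]
    ring
  have hNc : Nat.card N = (4 * m - 1) * (2 * m - 1) := by
    have h1 := N.index_mul_card
    rw [hidx, M.card, show 4 * m - 2 = 2 * (2 * m - 1) by omega] at h1
    exact Nat.eq_of_mul_eq_mul_left (show 0 < 4 * m by omega) (h1.trans (by ring))
  have hcop : Nat.Coprime (4 * m - 1) (2 * m - 1) := Nat.coprime_of_dvd fun r hr h1 h2 => by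
    have := Nat.dvd_sub h1 (h2.mul_left 2)
    rw [show 4 * m - 1 - 2 * (2 * m - 1) = 1 by omega] at this
    exact hr.one_lt.ne' (Nat.dvd_one.1 this)
  -- a complement
  haveI : (Q.subgroupOf N).Normal := Subgroup.normal_subgroupOf_iff_le_normalizer hQN |>.2 le_rfl
  have hQNc : Nat.card (Q.subgroupOf N) = 4 * m - 1 :=
    (Nat.card_congr (Subgroup.subgroupOfEquivOfLe hQN).toEquiv).trans hQc
  have hQi : (Q.subgroupOf N).index = 2 * m - 1 := by
    have h1 := (Q.subgroupOf N).card_mul_index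
    rw [hQNc, hNc] at h1
    exact Nat.eq_of_mul_eq_mul_left (show 0 < 4 * m - 1 by omega) h1
  obtain ⟨W₀, hW₀⟩ := Subgroup.exists_right_complement'_of_coprime (N := Q.subgroupOf N)
    (by rw [hQNc, hQi]; exact hcop)
  set W := W₀.map N.subtype with hWdef
  have hWc : Nat.card W = 2 * m - 1 := by
    rw [Subgroup.card_map_of_injective N.subtype_injective]
    have h1 := hW₀.card_mul
    rw [hQNc, hNc] at h1
    exact Nat.eq_of_mul_eq_mul_left (show 0 < 4 * m - 1 by omega) h1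
  have hWN : W ≤ N := Subgroup.map_subtype_le W₀
  have hQW : Q ⊓ W = ⊥ :=
    Subgroup.inf_eq_bot_of_coprime (by rw [hQc, hWc]; exact hcop)
  have hsup : N = Q ⊔ W := by
    refine (Subgroup.eq_of_le_of_card_ge (sup_le hQN hWN) (Nat.le_of_dvd Nat.card_pos ?_)).symm
    rw [hNc]
    refine hcop.mul_dvd_of_dvd_of_dvd ?_ ?_
    · rw [← hQc]; exact Subgroup.card_dvd_of_le le_sup_left
    · rw [← hWc]; exact Subgroup.card_dvd_of_le le_sup_right
  have hWodd : Odd (Nat.card W) := hWc ▸ ⟨m - 1, by omega⟩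
  have hWel : ∀ z ∈ W, z ≠ 1 → Rest K z ∧ ¬ P z := by
    intro z hz hz1
    have hd : orderOf z ∣ 2 * m - 1 := by
      rw [← hWc, ← Subgroup.orderOf_mk z hz]; exact orderOf_dvd_natCard _
    refine ⟨h.rest_of_coprime hz1 (Nat.coprime_of_dvd fun r hr ha hb => ?_), fun hPz => ?_⟩
    · have := Nat.dvd_sub hb (ha.trans hd)
      rw [show 2 * m - (2 * m - 1) = 1 by omega] at this
      exact hr.one_lt.ne' (Nat.dvd_one.1 this)
    · have hr := h.rest_of_coprime hz1 (Nat.coprime_of_dvd fun r hr ha hb => by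
        have := Nat.dvd_sub hb (ha.trans hd)
        rw [show 2 * m - (2 * m - 1) = 1 by omega] at this
        exact hr.one_lt.ne' (Nat.dvd_one.1 this))
      rw [hord z hr hPz] at hd
      refine hcoprime (Dvd.dvd.mul_left ?_ _)
      rw [show 4 * m - 2 = 2 * (2 * m - 1) by omega]
      exact hd.mul_left 2
  have hcW : ∀ a ∈ W, ∀ z : G, z ≠ 1 → z ∈ W → Subgroup.centralizer ({z} : Set G) = W →
      ∀ b ∈ W, a * b = b * a := fun a ha z hz1 hz he b hb => by
    obtain ⟨u, hu⟩ := M.exists_invs (hWel z hz hz1).1 (hWel z hz hz1).2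
    exact h.cent_comm (hWel z hz hz1).1 hu (he.symm ▸ ha) (he.symm ▸ hb)
  by_cases hW1 : W = ⊥
  · refine ⟨Q, W, hQc, hWc, fun x hx hx1 => (hQ1 x hx hx1).2.2, ?_, hQW, hsup,
      fun X hX hX1 => absurd (le_bot_iff.1 (hW1 ▸ hX)) hX1⟩
    intro a ha b hb
    rw [hW1, Subgroup.mem_bot] at ha hb
    rw [ha, hb]
  -- the complement is the centraliser of one of its elements
  obtain ⟨r₀, hr₀, hr₀d⟩ := Nat.exists_prime_and_dvd
    (fun e => hW1 (Subgroup.card_eq_one.1 e) : Nat.card W ≠ 1)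
  haveI : Fact r₀.Prime := ⟨hr₀⟩
  obtain ⟨U, hUn, hU⟩ := M.pclosed W hWodd r₀
    fun r _ _ g hg hg1 _ hgP => (hWel g hg hg1).2 hgP.2
  obtain ⟨z₀, hz₀⟩ := exists_prime_orderOf_dvd_card' r₀ hr₀d
  have hz₀U : z₀ ∈ U := (hU z₀).2 fun r hr hrd =>
    (Nat.prime_dvd_prime_iff_eq hr hr₀).1 (hz₀ ▸ hrd)
  have hUp : IsPGroup r₀ U := IsPGroup.iff_orderOf.2 fun x =>
    ⟨_, Nat.eq_prime_pow_of_unique_prime_dvd (orderOf_pos x).ne' fun {d} hd hdd =>
      (hU x).1 x.2 d hd (by rwa [Subgroup.orderOf_coe])⟩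
  haveI : Nontrivial U := ⟨⟨z₀, hz₀U⟩, 1, fun e => by
    have : z₀ = 1 := congrArg Subtype.val e
    rw [this, orderOf_one] at hz₀
    exact hr₀.one_lt.ne hz₀⟩
  haveI := hUp.center_nontrivial
  obtain ⟨⟨z, hzc⟩, hz1⟩ := exists_ne (1 : Subgroup.center U)
  have hz1' : ((z : W) : G) ≠ 1 := fun e => hz1 (Subtype.ext (Subtype.ext (Subtype.ext e)))
  obtain ⟨hzr, hzP⟩ := hWel _ (z : W).2 hz1'
  have hWz : W = Subgroup.centralizer ({((z : W) : G)} : Set G) := by
    refine Subgroup.eq_of_le_of_card_ge (fun n hn => ?_) (by rw [hWc, M.card_cent_neg hzr hzP])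
    have hmem : (⟨n, hn⟩ : W) * (z : W) * (⟨n, hn⟩ : W)⁻¹ ∈ U := hUn.conj_mem _ z.2 _
    have hc := congrArg Subtype.val (Subgroup.mem_center_iff.1 hzc ⟨_, hmem⟩)
    refine (M.odd_fixes hz1' (Odd.of_dvd_nat hWodd ?_) (fun e => hzP e.2)
      (Odd.of_dvd_nat hWodd ?_) (Subgroup.mem_centralizer_singleton_iff.2 (congrArg Subtype.val hc))).1
    · rw [Subgroup.orderOf_coe]; exact orderOf_dvd_natCard _
    · rw [← Subgroup.orderOf_mk n hn]; exact orderOf_dvd_natCard _
  obtain ⟨u, hu⟩ := M.exists_invs hzr hzP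
  have huW : ∀ d ∈ W, u * d * u⁻¹ = d⁻¹ := fun d hd => h.invs_inverts hzr hu (hWz ▸ hd)
  have hcomm : ∀ a ∈ W, ∀ b ∈ W, a * b = b * a :=
    fun a ha => hcW a ha _ hz1' (z : W).2 hWz.symm
  have hu2 : orderOf u = 2 := hu.1
  have hunW : u ∉ W := fun hu' => by
    have := orderOf_dvd_natCard (⟨u, hu'⟩ : W)
    rw [Subgroup.orderOf_mk, hu2] at this
    exact Nat.not_even_iff_odd.2 hWodd (even_iff_two_dvd.2 this)
  have huN : u ∈ Subgroup.normalizer (W : Set G) := by
    refine Subgroup.mem_normalizer_iff.2 fun a => ⟨fun ha => huW a ha ▸ inv_mem ha, fun ha => ?_⟩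
    have e : a = u * (u * a * u⁻¹) * u⁻¹ := by
      rw [inv_eq_self_of_orderOf hu2]
      calc a = (u * u) * a * (u * u) := by rw [mul_self_of_orderOf hu2]; group
        _ = _ := by group
    rw [e, huW _ ha]
    exact inv_mem ha
  have hNW : Subgroup.normalizer (W : Set G) = W ⊔ Subgroup.zpowers u := by
    refine le_antisymm (fun n hn => ?_) (sup_le Subgroup.le_normalizer (Subgroup.zpowers_le.2 huN))
    by_cases hnW : n ∈ W
    · exact Subgroup.mem_sup_left hnW
    have hn2 : n * n = 1 := by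
      rcases M.norm_cent hzr hzP (hWz ▸ hn) with e | e
      · exact absurd (hWz.symm ▸ e) hnW
      · exact e
    have hn1 : n ≠ 1 := fun e => hnW (e ▸ W.one_mem)
    have hn2' := orderOf_eq_two hn1 hn2
    have hinv := inverts (D := W) hn2 (fun d hd => (Subgroup.mem_normalizer_iff.1 hn d).1 hd)
      (fun d hd e => by
        by_contra hd1
        exact h.fixed_rest hn2' (hWel d hd hd1).1 e)
    have hmem : u * n ∈ W := by
      rw [hWz]
      refine Subgroup.mem_centralizer_singleton_iff.2 ?_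
      have e1 := huW _ (z : W).2
      have e2 := hinv _ (z : W).2
      generalize ((z : W) : G) = w at e1 e2 ⊢
      calc u * n * w = u * (n * w * n⁻¹) * n := by group
        _ = (u * w * u⁻¹)⁻¹ * (u * n) := by rw [e2]; group
        _ = _ := by rw [e1, inv_inv]
    have e : n = u * (u * n) := by rw [← mul_assoc, mul_self_of_orderOf hu2, one_mul]
    rw [e]
    exact mul_mem (Subgroup.mem_sup_right (Subgroup.mem_zpowers u)) (Subgroup.mem_sup_left hmem)
  refine ⟨Q, W, hQc, hWc, fun x hx hx1 => (hQ1 x hx hx1).2.2, hcomm, hQW, hsup,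
    fun X hX hX1 => ⟨le_antisymm (fun n hn => ?_) ?_, u, hu2, hunW, huW, hNW⟩⟩
  · obtain ⟨x, hx, hx1⟩ := (Subgroup.bot_or_exists_ne_one X).resolve_left hX1
    have hcz : ∀ y ∈ W, y ≠ 1 → Subgroup.centralizer ({y} : Set G) = W := fun y hy hy1 =>
      (h.cent_eq hzr hu (hWz ▸ hy) hy1).2.2.trans hWz.symm
    exact mem_normalizer_of_cent_eq (hcz x (hX hx) hx1)
      (hcz _ (hX ((Subgroup.mem_normalizer_iff.1 hn x).1 hx)) fun e => hx1 (conj_eq_one_iff.1 e))
  · rw [hNW]
    refine sup_le (fun a ha => ?_) (Subgroup.zpowers_le.2 ?_)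
    · refine Subgroup.mem_normalizer_iff.2 fun x => ⟨fun hx => ?_, fun hx => ?_⟩
      · rwa [hcomm a ha x (hX hx), mul_inv_cancel_right]
      · have e : x = a⁻¹ * (a * x * a⁻¹) * a := by group
        rw [hcomm a⁻¹ (inv_mem ha) _ (hX hx), inv_mul_cancel_right] at e
        exact e ▸ hx
    · refine Subgroup.mem_normalizer_iff.2 fun x => ⟨fun hx => huW x (hX hx) ▸ inv_mem hx, fun hx => ?_⟩
      have e : x = u * (u * x * u⁻¹) * u⁻¹ := by
        rw [inv_eq_self_of_orderOf hu2]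
        calc x = (u * u) * x * (u * u) := by rw [mul_self_of_orderOf hu2]; group
          _ = _ := by group
      rw [e, huW _ (hX hx)]
      exact inv_mem hx

end Cfsg.Agent.Lib.BSW
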