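import Cfsg.Agent.Lib.BSW.Plus

/-!
Brauer–Suzuki–Wall configuration: the case in which the distinguished elements are not real;
centralisers and orders (helper3).
-/

set_option autoImplicit false

namespace Cfsg.Agent.Lib.BSW

open Cfsg

universe u

variable {G : Type u} [Group G]

theorem mem_cent_conj (z a x : G) : a ∈ Subgroup.centralizer ({x} : Set G) ↔
    z * a * z⁻¹ ∈ Subgroup.centralizer ({z * x * z⁻¹} : Set G) := by
  simp only [Subgroup.mem_centralizer_singleton_iff]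
  rw [show z * a * z⁻¹ * (z * x * z⁻¹) = z * (a * x) * z⁻¹ by group,
    show z * x * z⁻¹ * (z * a * z⁻¹) = z * (x * a) * z⁻¹ by group]
  exact ⟨fun e => by rw [e], fun e => mul_left_cancel (mul_right_cancel e)⟩

theorem mem_normalizer_of_cent_eq {Q : Subgroup G} {x z : G}
    (h1 : Subgroup.centralizer ({x} : Set G) = Q)
    (h2 : Subgroup.centralizer ({z * x * z⁻¹} : Set G) = Q) :
    z ∈ Subgroup.normalizer (Q : Set G) := by
  refine Subgroup.mem_normalizer_iff.2 fun a => ?_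
  have := mem_cent_conj z a x
  rwa [h1, h2] at this

variable [Finite G]

/-- An element of prime order is conjugate into a subgroup of index prime to that prime. -/
theorem conj_into {r : ℕ} (hr : r.Prime) {A : Subgroup G} (hA : ¬ r ∣ A.index) {x : G}
    (hx : orderOf x = r) : ∃ y : G, y * x * y⁻¹ ∈ A := by
  haveI : Fact r.Prime := ⟨hr⟩
  obtain ⟨Q⟩ : Nonempty (Sylow r A) := inferInstance
  have hp : IsPGroup r ((Q : Subgroup A).map A.subtype) := Q.isPGroup'.map A.subtype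
  have hi : ¬ r ∣ ((Q : Subgroup A).map A.subtype).index := by
    rw [Subgroup.index_map, Subgroup.ker_subtype, sup_bot_eq, Subgroup.range_subtype]
    intro h
    rcases (Nat.Prime.dvd_mul hr).1 h with h' | h'
    · exact Q.not_dvd_index h'
    · exact hA h'
  have hx' : IsPGroup r (Subgroup.zpowers x) :=
    IsPGroup.of_card (n := 1) (by rw [Nat.card_zpowers, hx, pow_one])
  obtain ⟨S, hS⟩ := hx'.exists_le_sylow
  obtain ⟨y, hy⟩ := MulAction.exists_smul_eq G S (hp.toSylow hi)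
  refine ⟨y, ?_⟩
  have h1 : y * x * y⁻¹ ∈ ((hp.toSylow hi : Sylow r G) : Subgroup G) := by
    rw [← hy]
    exact ⟨x, hS (Subgroup.mem_zpowers x), rfl⟩
  obtain ⟨a, -, ha⟩ := h1
  rw [← ha]
  exact a.2

variable {t s : G} {K : Subgroup G} {m : ℕ}

theorem Hyp.orderOf_dvd_covered (h : Hyp t K s m) {g : G} (hg : Covered K g) :
    orderOf g ∣ 2 * m := by
  obtain ⟨k, hk, -, hc⟩ := hg
  obtain ⟨y, hy⟩ := isConj_iff.1 hc
  rw [← orderOf_conj y g, hy, ← Subgroup.orderOf_mk k hk, ← h.card]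
  exact orderOf_dvd_natCard _

theorem Hyp.rest_of_coprime (h : Hyp t K s m) {g : G} (hg1 : g ≠ 1)
    (hc : Nat.Coprime (orderOf g) (2 * m)) : Rest K g :=
  ⟨hg1, fun hcov => hg1 (orderOf_eq_one_iff.1
    (Nat.eq_one_of_dvd_coprimes hc dvd_rfl (h.orderOf_dvd_covered hcov)))⟩

/-- The hypotheses of the case. -/
structure Minus (t : G) (K : Subgroup G) (s : G) (m : ℕ) (P : G → Prop) : Prop where
  hyp : Hyp t K s m
  card : Nat.card G = 2 * m * ((4 * m - 1) * (4 * m - 2))
  inv : ∀ g y : G, P (y * g * y⁻¹) ↔ P g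
  count : Nat.card {g : G | Rest K g ∧ P g} = (4 * m - 1) ^ 2 - 1
  pos : ∀ g : G, Rest K g → P g → Nat.card (Invs g) = 0
  neg : ∀ g : G, Rest K g → ¬ P g → Nat.card (Invs g) = 2 * m - 1
  some_neg : 2 ≤ m → ∃ g : G, Rest K g ∧ ¬ P g

variable {P : G → Prop}

theorem Minus.exists_invs (M : Minus t K s m P) {g : G} (hg : Rest K g) (hP : ¬ P g) :
    ∃ u, u ∈ Invs g := by
  have hm := M.hyp.mpos
  obtain ⟨⟨u, hu⟩⟩ : Nonempty (Invs g) := (Nat.card_pos_iff.1 (by rw [M.neg g hg hP]; omega)).1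
  exact ⟨u, hu⟩

theorem Minus.no_invs (M : Minus t K s m P) {g u : G} (hg : Rest K g) (hP : P g) :
    u ∉ Invs g := fun hu => by
  haveI : Nonempty (Invs g) := ⟨⟨u, hu⟩⟩
  exact (Nat.card_pos (α := Invs g)).ne' (M.pos g hg hP)

theorem Minus.card_cent_neg (M : Minus t K s m P) {g : G} (hg : Rest K g) (hP : ¬ P g) :
    Nat.card (Subgroup.centralizer ({g} : Set G)) = 2 * m - 1 := by
  obtain ⟨u, hu⟩ := M.exists_invs hg hP
  rw [← M.hyp.card_invs hg hu, M.neg g hg hP]

theorem Minus.norm_cent (M : Minus t K s m P) {g : G} (hg : Rest K g) (hP : ¬ P g) {n : G}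
    (hn : n ∈ Subgroup.normalizer ((Subgroup.centralizer ({g} : Set G) : Subgroup G) : Set G)) :
    n ∈ Subgroup.centralizer ({g} : Set G) ∨ n * n = 1 := by
  classical
  have h := M.hyp
  have hm := h.mpos
  obtain ⟨u, hu⟩ := M.exists_invs hg hP
  obtain ⟨y, ht'⟩ := h.exists_conj_invs hu
  have hg' : Rest K (y * g * y⁻¹) := hg.conj y
  have hP' : ¬ P (y * g * y⁻¹) := fun e => hP ((M.inv g y).1 e)
  have hn' : y * n * y⁻¹ ∈ Subgroup.normalizer
      ((Subgroup.centralizer ({y * g * y⁻¹} : Set G) : Subgroup G) : Set G) := by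
    refine Subgroup.mem_normalizer_iff.2 fun a => ?_
    obtain ⟨b, rfl⟩ : ∃ b, y * b * y⁻¹ = a := ⟨y⁻¹ * a * y, by group⟩
    rw [show y * n * y⁻¹ * (y * b * y⁻¹) * (y * n * y⁻¹)⁻¹ = y * (n * b * n⁻¹) * y⁻¹ by group,
      ← mem_cent_conj, ← mem_cent_conj]
    exact Subgroup.mem_normalizer_iff.1 hn b
  suffices key : y * n * y⁻¹ ∈ Subgroup.centralizer ({y * g * y⁻¹} : Set G) ∨
      (y * n * y⁻¹) * (y * n * y⁻¹) = 1 by
    rcases key with e | e
    · exact Or.inl ((mem_cent_conj y n g).2 e)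
    · refine Or.inr ?_
      rw [show y * n * y⁻¹ * (y * n * y⁻¹) = y * (n * n) * y⁻¹ by group, conj_eq_one_iff] at e
      exact e
  generalize y * g * y⁻¹ = g at hg' hP' ht' hn' ⊢
  generalize y * n * y⁻¹ = n at hn' ⊢
  set Q := Subgroup.centralizer ({g} : Set G) with hQ
  set W := Subgroup.normalizer (Q : Set G) ⊓ K with hW
  let T : Set G := (Q : Set G) \ {1}
  have hT : Nat.card T = 2 * m - 2 := by
    rw [Nat.card_coe_set_eq, Set.ncard_sdiff (Set.singleton_subset_iff.2 Q.one_mem) (Set.toFinite _),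
      Set.ncard_singleton, ← Nat.card_coe_set_eq]
    show Nat.card Q - 1 = 2 * m - 2
    rw [hQ, M.card_cent_neg hg' hP']
    omega
  letI : MulAction W T :=
    { smul := fun k x => ⟨k.1 * x.1 * k.1⁻¹, ((Subgroup.mem_normalizer_iff.1 k.2.1 x.1).1 x.2.1),
        fun e => x.2.2 (conj_eq_one_iff.1 (Set.mem_singleton_iff.1 e))⟩
      one_smul := fun x => Subtype.ext (show (1 : G) * x.1 * (1 : G)⁻¹ = x.1 by group)
      mul_smul := fun a b x => Subtype.ext
        (show a.1 * b.1 * x.1 * (a.1 * b.1)⁻¹ = a.1 * (b.1 * x.1 * b.1⁻¹) * a.1⁻¹ by group) }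
  have hfree : ∀ (k : W) (x : T), k • x = x → k = 1 := by
    intro k x e
    have e1 : k.1 * x.1 * k.1⁻¹ = x.1 := congrArg Subtype.val e
    by_contra hk1
    have hk1' : k.1 ≠ 1 := fun e' => hk1 (Subtype.ext e')
    rw [mul_inv_eq_iff_eq_mul] at e1
    exact h.rest_not_mem (h.rest_cent hg' x.2.1 x.2.2) (h.cent_le_H k.2.2 hk1' e1.symm)
  haveI := Fintype.ofFinite W
  haveI := Fintype.ofFinite T
  haveI := Fintype.ofFinite (MulAction.orbitRel.Quotient W T)
  haveI : ∀ a : W, Fintype (MulAction.fixedBy T a) := fun a => Fintype.ofFinite _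
  have hdvd : Nat.card W ∣ 2 * m - 2 := by
    rw [← hT]
    have e := MulAction.sum_card_fixedBy_eq_card_orbits_mul_card_group W T
    rw [Finset.sum_eq_single (1 : W) (fun a _ ha => Fintype.card_eq_zero_iff.2
      ⟨fun x => ha (hfree a x.1 x.2)⟩) (by simp)] at e
    have e1 : Fintype.card (MulAction.fixedBy T (1 : W)) = Nat.card T := by
      rw [← Nat.card_eq_fintype_card]
      exact Nat.card_congr (Equiv.subtypeUnivEquiv fun x => one_smul W x)
    rw [e1, ← Nat.card_eq_fintype_card (α := W)] at e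
    exact e ▸ dvd_mul_left _ _
  have hdvd2 : Nat.card W ∣ 2 * m := h.card ▸ Subgroup.card_dvd_of_le inf_le_right
  have hw2 : Nat.card W ∣ 2 := by
    have := Nat.dvd_sub hdvd2 hdvd
    rwa [show 2 * m - (2 * m - 2) = 2 by omega] at this
  have hkval : ∀ k ∈ W, k = 1 ∨ k = t := fun k hk => by
    refine h.sq_one hk.2 ?_
    obtain ⟨j, hj⟩ := hw2
    have h1 : (⟨k, hk⟩ : W) ^ 2 = 1 := by rw [hj, pow_mul, pow_card_eq_one', one_pow]
    rw [← pow_two]
    exact congrArg Subtype.val h1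
  obtain ⟨d, hd, hdk⟩ := h.norm_decomp hg' ht' hn'
  have hdn : d * n ∈ W := ⟨mul_mem (Subgroup.le_normalizer hd) hn', hdk⟩
  rcases hkval _ hdn with e | e
  · exact Or.inl (eq_inv_of_mul_eq_one_right e ▸ inv_mem hd)
  · refine Or.inr ?_
    have hn2 : n = d⁻¹ * t := by rw [← e, inv_mul_cancel_left]
    have h1 := h.invs_inverts hg' ht' (inv_mem hd)
    rw [inv_eq_self_of_orderOf h.ht, inv_inv] at h1
    rw [hn2, show d⁻¹ * t * (d⁻¹ * t) = d⁻¹ * (t * d⁻¹ * t) by group, h1, inv_mul_cancel]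

theorem Minus.cent_pos (M : Minus t K s m P) {g c : G} (hg : Rest K g) (hP : P g)
    (hc : c ∈ Subgroup.centralizer ({g} : Set G)) (hc1 : c ≠ 1) : Rest K c ∧ P c := by
  have hcr := M.hyp.rest_cent hg hc hc1
  refine ⟨hcr, ?_⟩
  by_contra hPc
  obtain ⟨u, hu⟩ := M.exists_invs hcr hPc
  have hgc : g ∈ Subgroup.centralizer ({c} : Set G) :=
    Subgroup.mem_centralizer_singleton_iff.2 (Subgroup.mem_centralizer_singleton_iff.1 hc).symm
  exact M.no_invs hg hP (M.hyp.cent_eq hcr hu hgc hg.1).2.1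

theorem Minus.not_real (M : Minus t K s m P) {g y : G} (hg : Rest K g) (hP : P g) :
    y * g * y⁻¹ ≠ g⁻¹ := by
  intro e
  have h2 : y * y ∈ Subgroup.centralizer ({g} : Set G) := by
    refine Subgroup.mem_centralizer_singleton_iff.2 ?_
    have e2 : y * y * g * (y * y)⁻¹ = g := by
      calc y * y * g * (y * y)⁻¹ = y * (y * g * y⁻¹) * y⁻¹ := by group
        _ = y * g⁻¹ * y⁻¹ := by rw [e]
        _ = (y * g * y⁻¹)⁻¹ := by group
        _ = g := by rw [e, inv_inv]
    exact mul_inv_eq_iff_eq_mul.1 e2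
  obtain ⟨j, hj⟩ := M.hyp.odd_cent hg
  have hzz : (y ^ (2 * j + 1)) * (y ^ (2 * j + 1)) = 1 := by
    have h3 : (⟨y * y, h2⟩ : Subgroup.centralizer ({g} : Set G)) ^ (2 * j + 1) = 1 := by
      rw [← hj]; exact pow_card_eq_one'
    have h4 := congrArg Subtype.val h3
    simp only [SubmonoidClass.coe_pow, OneMemClass.coe_one] at h4
    rw [← h4, ← pow_add, ← pow_two, ← pow_mul]
    congr 1
    omega
  have hcj : ∀ i : ℕ, (y * y) ^ i ∈ Subgroup.centralizer ({g} : Set G) := fun i => pow_mem h2 i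
  have hz : y ^ (2 * j + 1) * g * (y ^ (2 * j + 1))⁻¹ = g⁻¹ := by
    rw [show y ^ (2 * j + 1) = y * (y * y) ^ j by rw [pow_succ', pow_mul, pow_two]]
    calc y * (y * y) ^ j * g * (y * (y * y) ^ j)⁻¹
        = y * ((y * y) ^ j * g * ((y * y) ^ j)⁻¹) * y⁻¹ := by group
      _ = _ := by rw [Subgroup.mem_centralizer_singleton_iff.1 (hcj j), mul_inv_cancel_right, e]
  generalize y ^ (2 * j + 1) = z at hzz hz
  by_cases hz1 : z = 1
  · rw [hz1] at hz
    have hgg : g * g = 1 := by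
      have h5 : g = g⁻¹ := by simpa using hz
      nth_rewrite 2 [h5]
      exact mul_inv_cancel g
    exact M.hyp.not_rest_t (orderOf_eq_two hg.1 hgg) hg
  · exact M.no_invs hg hP ((M.hyp.mem_invs_iff hg).2 ⟨orderOf_eq_two hz1 hzz, hz⟩)

theorem Minus.cent_dvd (M : Minus t K s m P) {g : G} (hg : Rest K g) (hP : P g) :
    Nat.card (Subgroup.centralizer ({g} : Set G)) ∣ 4 * m - 1 := by
  have h := M.hyp
  have hm := h.mpos
  have hd : Nat.card (Subgroup.centralizer ({g} : Set G)) ∣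
      (4 * m - 1) * (2 * m * (4 * m - 2)) := by
    have := Subgroup.card_subgroup_dvd_card (Subgroup.centralizer ({g} : Set G))
    rw [M.card] at this
    exact this.trans (dvd_of_eq (by ring))
  refine Nat.Coprime.dvd_of_dvd_mul_right (Nat.coprime_of_dvd fun r hr h1 h2 => ?_) hd
  haveI : Fact r.Prime := ⟨hr⟩
  obtain ⟨x, hx⟩ := exists_prime_orderOf_dvd_card' r h1
  have hx' : orderOf (x : G) = r := by rw [Subgroup.orderOf_coe]; exact hx
  obtain ⟨hxr, hxP⟩ := M.cent_pos hg hP x.2 fun e => by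
    rw [e, orderOf_one] at hx'; exact hr.one_lt.ne hx'
  have hr2 : r ≠ 2 := fun e => h.not_rest_t (e ▸ hx') hxr
  have hri : ¬ r ∣ 4 * m - 1 ∨ ¬ r ∣ 2 * m := by
    by_contra hc
    push Not at hc
    have := Nat.dvd_sub (hc.2.mul_left 2) hc.1
    rw [show 2 * (2 * m) - (4 * m - 1) = 1 by omega] at this
    exact hr.one_lt.ne' (Nat.dvd_one.1 this)
  rcases (Nat.Prime.dvd_mul hr).1 h2 with h3 | h3
  · -- `r` divides the order of `K`
    have hi : ¬ r ∣ K.index := by
      intro hdi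
      have hK := K.index_mul_card
      rw [h.card, M.card] at hK
      have : K.index = (4 * m - 1) * (4 * m - 2) :=
        Nat.eq_of_mul_eq_mul_right (show 0 < 2 * m by omega) (by rw [hK]; ring)
      rw [this] at hdi
      rcases (Nat.Prime.dvd_mul hr).1 hdi with h4 | h4
      · exact hri.elim (fun e => e h4) (fun e => e h3)
      · have := Nat.dvd_sub (h3.mul_left 2) h4
        rw [show 2 * (2 * m) - (4 * m - 2) = 2 by omega] at this
        exact hr2 ((Nat.prime_dvd_prime_iff_eq hr Nat.prime_two).1 this)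
    obtain ⟨y, hy⟩ := conj_into hr hi hx'
    exact (hxr.conj y).2 ⟨_, hy, fun e => hxr.1 (conj_eq_one_iff.1 e), IsConj.refl _⟩
  · -- `r` divides `2m - 1`
    have h5 : r ∣ 2 * m - 1 := by
      rw [show 4 * m - 2 = 2 * (2 * m - 1) by omega] at h3
      exact ((Nat.Prime.dvd_mul hr).1 h3).resolve_left fun h4 =>
        hr2 ((Nat.prime_dvd_prime_iff_eq hr Nat.prime_two).1 h4)
    have hm2 : 2 ≤ m := by
      by_contra hc
      rw [show m = 1 by omega] at h5
      exact hr.one_lt.ne' (Nat.dvd_one.1 h5)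
    obtain ⟨a, ha, haP⟩ := M.some_neg hm2
    obtain ⟨u, hu⟩ := M.exists_invs ha haP
    have hA := M.card_cent_neg ha haP
    have hi : ¬ r ∣ (Subgroup.centralizer ({a} : Set G)).index := by
      intro hdi
      have hK := (Subgroup.centralizer ({a} : Set G)).index_mul_card
      rw [hA, M.card] at hK
      have : (Subgroup.centralizer ({a} : Set G)).index = 4 * m * (4 * m - 1) :=
        Nat.eq_of_mul_eq_mul_right (show 0 < 2 * m - 1 by omega)
          (by rw [hK, show 4 * m - 2 = 2 * (2 * m - 1) by omega]; ring)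
      rw [this] at hdi
      rcases (Nat.Prime.dvd_mul hr).1 hdi with h4 | h4
      · have := Nat.dvd_sub h4 (h5.mul_left 2)
        rw [show 4 * m - 2 * (2 * m - 1) = 2 by omega] at this
        exact hr2 ((Nat.prime_dvd_prime_iff_eq hr Nat.prime_two).1 this)
      · have := Nat.dvd_sub h4 (h5.mul_left 2)
        rw [show 4 * m - 1 - 2 * (2 * m - 1) = 1 by omega] at this
        exact hr.one_lt.ne' (Nat.dvd_one.1 this)
    obtain ⟨y, hy⟩ := conj_into hr hi hx'
    exact M.no_invs (hxr.conj y) ((M.inv _ _).2 hxP)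
      (h.cent_eq ha hu hy fun e => hxr.1 (conj_eq_one_iff.1 e)).2.1

/-- The centralisers of the distinguished elements have order `q = 4m - 1`, and these elements
form two classes, inverse to each other. -/
theorem Minus.classes (M : Minus t K s m P) {g : G} (hg : Rest K g) (hP : P g) :
    Nat.card (Subgroup.centralizer ({g} : Set G)) = 4 * m - 1 ∧
      ∀ x : G, Rest K x → P x → IsConj x g ∨ IsConj x g⁻¹ := by
  have h := M.hyp
  have hm := h.mpos
  have hgi : Rest K g⁻¹ ∧ P g⁻¹ :=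
    M.cent_pos hg hP (inv_mem (Subgroup.mem_centralizer_singleton_iff.2 rfl)) (inv_ne_one.2 hg.1)
  set S : Set G := {x | Rest K x ∧ P x}
  let A : Set G := {x | IsConj x g}
  let B : Set G := {x | IsConj x g⁻¹}
  have hsub : ∀ a : G, Rest K a → P a → ({x | IsConj x a} : Set G) ⊆ S := fun a ha hPa x hx => by
    obtain ⟨y, hy⟩ := isConj_iff.1 hx.symm
    exact hy ▸ ⟨ha.conj y, (M.inv a y).2 hPa⟩
  have hcls : ∀ a : G, Nat.card {x : G | IsConj x a} *
      Nat.card (Subgroup.centralizer ({a} : Set G)) = 2 * m * ((4 * m - 1) * (4 * m - 2)) := by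
    intro a
    rw [← M.card, ← (Subgroup.centralizer ({a} : Set G)).index_mul_card]
    congr 1
    have h1 : (Subgroup.centralizer ({a} : Set G)).index =
        Nat.card ↑(MulAction.orbit (ConjAct G) a) := by
      rw [Nat.card_coe_set_eq, ← MulAction.index_stabilizer (ConjAct G) a,
        ConjAct.stabilizer_eq_centralizer]
      rfl
    rw [h1]
    exact Nat.card_congr (Equiv.subtypeEquivRight fun x => by
      rw [ConjAct.mem_orbit_conjAct]; rfl)
  have hlow : ∀ a : G, Rest K a → P a → 2 * m * (4 * m - 2) ≤ Nat.card {x : G | IsConj x a} := by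
    intro a ha hPa
    have h1 := hcls a
    have h2 : Nat.card (Subgroup.centralizer ({a} : Set G)) ≤ 4 * m - 1 :=
      Nat.le_of_dvd (by omega) (M.cent_dvd ha hPa)
    have h3 := Nat.mul_le_mul_left (Nat.card {x : G | IsConj x a}) h2
    rw [h1, show 2 * m * ((4 * m - 1) * (4 * m - 2)) = 2 * m * (4 * m - 2) * (4 * m - 1) by ring]
      at h3
    exact Nat.le_of_mul_le_mul_right h3 (by omega)
  have hdisj : Disjoint A B := Set.disjoint_left.2 fun x (hx : IsConj x g) (hx' : IsConj x g⁻¹) => by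
    obtain ⟨y, hy⟩ := isConj_iff.1 (hx.symm.trans hx')
    exact M.not_real hg hP hy
  have hS : S.ncard = 2 * (2 * m * (4 * m - 2)) := by
    rw [← Nat.card_coe_set_eq, M.count, Nat.sub_eq_iff_eq_add (Nat.one_le_pow _ _ (by omega))]
    obtain ⟨k, rfl⟩ : ∃ k, m = k + 1 := ⟨m - 1, by omega⟩
    rw [show 4 * (k + 1) - 1 = 4 * k + 3 by omega, show 4 * (k + 1) - 2 = 4 * k + 2 by omega]
    ring
  have hAB : (A ∪ B).ncard = A.ncard + B.ncard :=
    Set.ncard_union_eq hdisj (Set.toFinite _) (Set.toFinite _)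
  have hABS : A ∪ B ⊆ S := Set.union_subset (hsub g hg hP) (hsub g⁻¹ hgi.1 hgi.2)
  have hle := Set.ncard_le_ncard hABS (Set.toFinite _)
  have hA : 2 * m * (4 * m - 2) ≤ A.ncard := Nat.card_coe_set_eq A ▸ hlow g hg hP
  have hB : 2 * m * (4 * m - 2) ≤ B.ncard := Nat.card_coe_set_eq B ▸ hlow g⁻¹ hgi.1 hgi.2
  rw [hAB, hS] at hle
  have hAe : A.ncard = 2 * m * (4 * m - 2) := by omega
  refine ⟨?_, fun x hx hPx => ?_⟩
  · have h1 := hcls g
    rw [show Nat.card {x : G | IsConj x g} = 2 * m * (4 * m - 2) from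
      (Nat.card_coe_set_eq A).trans hAe] at h1
    exact Nat.eq_of_mul_eq_mul_left (show 0 < 2 * m * (4 * m - 2) from
      Nat.mul_pos (by omega) (by omega)) (h1.trans (by ring))
  · have he : A ∪ B = S := Set.eq_of_subset_of_ncard_le hABS (by rw [hAB, hS]; omega) (Set.toFinite _)
    have hx' : x ∈ A ∪ B := he ▸ ⟨hx, hPx⟩
    exact hx'

/-- The distinguished elements are those of order a fixed prime `p`. -/
theorem Minus.exists_prime (M : Minus t K s m P) :
    ∃ p j : ℕ, p.Prime ∧ 4 * m - 1 = p ^ j ∧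
      (∀ g : G, Rest K g → P g → orderOf g = p) ∧
      ∀ g : G, g ≠ 1 → (∀ r : ℕ, r.Prime → r ∣ orderOf g → r = p) → Rest K g ∧ P g := by
  have h := M.hyp
  have hm := h.mpos
  obtain ⟨⟨g₀, hg₀, hP₀⟩⟩ : Nonempty {g : G | Rest K g ∧ P g} := by
    refine (Nat.card_pos_iff.1 ?_).1
    rw [M.count]
    have : 2 ≤ (4 * m - 1) ^ 2 := le_trans (by norm_num) (Nat.pow_le_pow_left (show 2 ≤ 4 * m - 1 by omega) 2)
    omega
  obtain ⟨hC, hcl⟩ := M.classes hg₀ hP₀
  have hord : ∀ x : G, Rest K x → P x → orderOf x = orderOf g₀ := fun x hx hPx => by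
    rcases hcl x hx hPx with hc | hc
    · obtain ⟨y, hy⟩ := isConj_iff.1 hc
      rw [← hy, orderOf_conj]
    · obtain ⟨y, hy⟩ := isConj_iff.1 hc
      rw [← orderOf_conj y x, hy, orderOf_inv]
  obtain ⟨p, hp, hpd⟩ := Nat.exists_prime_and_dvd (fun e => hg₀.1 (orderOf_eq_one_iff.1 e))
  have hxp : orderOf (g₀ ^ (orderOf g₀ / p)) = p := by
    rw [orderOf_pow_orderOf_div (orderOf_pos g₀).ne' hpd]
  obtain ⟨h1, h2⟩ := M.cent_pos hg₀ hP₀
    (pow_mem (Subgroup.mem_centralizer_singleton_iff.2 rfl) (orderOf g₀ / p))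
    (fun e => by rw [e, orderOf_one] at hxp; exact hp.one_lt.ne hxp)
  have hg₀p : orderOf g₀ = p := by rw [← hxp]; exact (hord _ h1 h2).symm
  have huniq : ∀ r : ℕ, r.Prime → r ∣ 4 * m - 1 → r = p := by
    intro r hr hrd
    haveI : Fact r.Prime := ⟨hr⟩
    obtain ⟨x, hx⟩ := exists_prime_orderOf_dvd_card' r (hC ▸ hrd :
      r ∣ Nat.card (Subgroup.centralizer ({g₀} : Set G)))
    have hx' : orderOf (x : G) = r := by rw [Subgroup.orderOf_coe]; exact hx
    obtain ⟨h1, h2⟩ := M.cent_pos hg₀ hP₀ x.2 fun e => by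
      rw [e, orderOf_one] at hx'; exact hr.one_lt.ne hx'
    rw [← hx', hord _ h1 h2, hg₀p]
  have hpq : p ∣ 4 * m - 1 := by
    rw [← hC, ← hg₀p]
    exact orderOf_dvd_natCard (⟨g₀, Subgroup.mem_centralizer_singleton_iff.2 rfl⟩ :
      Subgroup.centralizer ({g₀} : Set G)) |> fun e => by rwa [Subgroup.orderOf_mk] at e
  refine ⟨p, _, hp, Nat.eq_prime_pow_of_unique_prime_dvd (by omega)
    (fun {d} hd hdd => huniq d hd hdd), fun g hg hPg => (hord g hg hPg).trans hg₀p, ?_⟩
  intro g hg1 hgr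
  have hrest : Rest K g := h.rest_of_coprime hg1 (Nat.coprime_of_dvd fun r hr ha hb => by
    have hc := hgr r hr ha
    have := Nat.dvd_sub (hb.mul_left 2) (hc.symm ▸ hpq)
    rw [show 2 * (2 * m) - (4 * m - 1) = 1 by omega] at this
    exact hr.one_lt.ne' (Nat.dvd_one.1 this))
  refine ⟨hrest, ?_⟩
  by_contra hPg
  obtain ⟨r, hr, hrd⟩ := Nat.exists_prime_and_dvd (fun e => hg1 (orderOf_eq_one_iff.1 e))
  have hd : r ∣ 2 * m - 1 := by
    rw [← M.card_cent_neg hrest hPg]
    refine hrd.trans ?_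
    have := orderOf_dvd_natCard (⟨g, Subgroup.mem_centralizer_singleton_iff.2 rfl⟩ :
      Subgroup.centralizer ({g} : Set G))
    rwa [Subgroup.orderOf_mk] at this
  rw [hgr r hr hrd] at hd
  have := Nat.dvd_sub hpq (hd.mul_left 2)
  rw [show 4 * m - 1 - 2 * (2 * m - 1) = 1 by omega] at this
  exact hp.one_lt.ne' (Nat.dvd_one.1 this)

/-- An odd element sending an odd element outside the distinguished ones to a commuting element
centralises it. -/
theorem Minus.odd_fixes (M : Minus t K s m P) {g n : G} (hg1 : g ≠ 1) (hgo : Odd (orderOf g))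
    (hgP : ¬ (Rest K g ∧ P g)) (hno : Odd (orderOf n))
    (hc : n * g * n⁻¹ ∈ Subgroup.centralizer ({g} : Set G)) :
    n ∈ Subgroup.centralizer ({g} : Set G) ∧
      ∀ a ∈ Subgroup.centralizer ({g} : Set G), ∀ b ∈ Subgroup.centralizer ({g} : Set G),
        a * b = b * a := by
  have h := M.hyp
  by_cases hcov : Covered K g
  · obtain ⟨k, hk, hk1, hck⟩ := hcov
    obtain ⟨y, hy⟩ := isConj_iff.1 hck
    have hkt : k ≠ t := fun e => by
      rw [← orderOf_conj y g, hy, e, h.ht] at hgo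
      exact absurd hgo (by decide)
    have hCk : ∀ a : G, a ∈ Subgroup.centralizer ({g} : Set G) → y * a * y⁻¹ ∈ K := fun a ha => by
      have h1 := (mem_cent_conj y a g).1 ha
      rw [hy] at h1
      exact h.cent_le_K hk hk1 hkt (Subgroup.mem_centralizer_singleton_iff.1 h1)
    refine ⟨?_, fun a ha b hb => ?_⟩
    · refine (mem_cent_conj y n g).2 ?_
      rw [hy]
      refine Subgroup.mem_centralizer_singleton_iff.2 (h.comm _ ?_ k hk)
      have h1 : y * n * y⁻¹ * k * (y * n * y⁻¹)⁻¹ ∈ K := by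
        have h2 := hCk _ hc
        rw [← hy]
        convert h2 using 1
        group
      have hH := h.mem_H_of_conj_mem hk hk1 h1
      by_contra hnK
      have h2 := (h.outside hH hnK).1
      rw [orderOf_conj] at h2
      rw [h2] at hno
      exact absurd hno (by decide)
    · have h1 := h.comm _ (hCk a ha) _ (hCk b hb)
      rw [show y * a * y⁻¹ * (y * b * y⁻¹) = y * (a * b) * y⁻¹ by group,
        show y * b * y⁻¹ * (y * a * y⁻¹) = y * (b * a) * y⁻¹ by group] at h1
      exact mul_left_cancel (mul_right_cancel h1)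
  · have hr : Rest K g := ⟨hg1, hcov⟩
    have hnP : ¬ P g := fun e => hgP ⟨hr, e⟩
    obtain ⟨u, hu⟩ := M.exists_invs hr hnP
    refine ⟨?_, fun a ha b hb => h.cent_comm hr hu ha hb⟩
    obtain ⟨-, -, he⟩ := h.cent_eq hr hu hc fun e => hg1 (conj_eq_one_iff.1 e)
    rcases M.norm_cent hr hnP (mem_normalizer_of_cent_eq rfl he) with e | e
    · exact e
    · by_cases hn1 : n = 1
      · rw [hn1]; exact one_mem _
      · rw [orderOf_eq_two hn1 e] at hno
        exact absurd hno (by decide)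

end Cfsg.Agent.Lib.BSW
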