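import Cfsg.Agent.Lib.BSW.Chars
import Cfsg.Agent.Lib.CharGalois
import Cfsg.Agent.Lib.CharTools.ClassMult

/-!
Brauer–Suzuki–Wall configuration: the constituents of the induced generalised characters (helper3).
-/

set_option autoImplicit false

namespace Cfsg.Agent.Lib.BSW

open Cfsg Cfsg.Agent.Lib.Char
open scoped ComplexConjugate

universe u

variable {G : Type u} [Group G] [Fintype G] {t s : G} {K : Subgroup G} {m : ℕ}

/-- `a` and `b` are the nontrivial constituents of `F K ψ`. -/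
structure Pair (K : Subgroup G) (ψ : K →* ℂˣ) (a b : IrrCharacter G) : Prop where
  na : a ≠ triv G
  nb : b ≠ triv G
  ne : a ≠ b
  sa : c K ψ a = 1 ∨ c K ψ a = -1
  sb : c K ψ b = 1 ∨ c K ψ b = -1
  zero : ∀ χ, χ ≠ triv G → χ ≠ a → χ ≠ b → c K ψ χ = 0

/-- `a`, `b` and `d` are the nontrivial constituents of `F K ψ`. -/
structure Triple (K : Subgroup G) (ψ : K →* ℂˣ) (a b d : IrrCharacter G) : Prop where
  na : a ≠ triv G
  nb : b ≠ triv G
  nd : d ≠ triv G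
  ab : a ≠ b
  ad : a ≠ d
  bd : b ≠ d
  sa : c K ψ a = 1 ∨ c K ψ a = -1
  sb : c K ψ b = 1 ∨ c K ψ b = -1
  sd : c K ψ d = 1 ∨ c K ψ d = -1
  zero : ∀ χ, χ ≠ triv G → χ ≠ a → χ ≠ b → χ ≠ d → c K ψ χ = 0

variable {ψ φ : K →* ℂˣ} {a b d : IrrCharacter G}

theorem Pair.swap (P : Pair K ψ a b) : Pair K ψ b a :=
  ⟨P.nb, P.na, P.ne.symm, P.sb, P.sa, fun χ h1 h2 h3 => P.zero χ h1 h3 h2⟩

theorem Pair.with_mem (P : Pair K ψ a b) {χ : IrrCharacter G} (h1 : χ ≠ triv G)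
    (h2 : c K ψ χ ≠ 0) : ∃ e, Pair K ψ χ e := by
  by_cases ha : χ = a
  · exact ⟨b, ha ▸ P⟩
  by_cases hb : χ = b
  · exact ⟨a, hb ▸ P.swap⟩
  exact absurd (P.zero χ h1 ha hb) h2

theorem Pair.inv (h : Hyp t K s m) (P : Pair K ψ a b) : Pair K ψ⁻¹ a b :=
  ⟨P.na, P.nb, P.ne, by rw [c_inv h]; exact P.sa, by rw [c_inv h]; exact P.sb,
    fun χ h1 h2 h3 => by rw [c_inv h]; exact P.zero χ h1 h2 h3⟩

theorem Triple.rot (T : Triple K ψ a b d) : Triple K ψ b d a :=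
  ⟨T.nb, T.nd, T.na, T.bd, T.ab.symm, T.ad.symm, T.sb, T.sd, T.sa,
    fun χ h1 h2 h3 h4 => T.zero χ h1 h4 h2 h3⟩

theorem Triple.with_mem (T : Triple K ψ a b d) {χ : IrrCharacter G} (h1 : χ ≠ triv G)
    (h2 : c K ψ χ ≠ 0) : ∃ e f, Triple K ψ χ e f := by
  by_cases ha : χ = a
  · exact ⟨b, d, ha ▸ T⟩
  by_cases hb : χ = b
  · exact ⟨d, a, hb ▸ T.rot⟩
  by_cases hd : χ = d
  · exact ⟨a, b, hd ▸ T.rot.rot⟩
  exact absurd (T.zero χ h1 ha hb hd) h2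

variable [Fintype K]

theorem Pair.sum (P : Pair K ψ a b) (h : Hyp t K s m) (hψ : ψ ≠ 1) {R : Type*} [CommRing R]
    (f : IrrCharacter G → R) :
    ∑ χ : IrrCharacter G, (c K ψ χ : R) * f χ =
      f (triv G) + (c K ψ a : R) * f a + (c K ψ b : R) * f b := by
  classical
  rw [← Finset.sum_subset (Finset.subset_univ ({triv G, a, b} : Finset (IrrCharacter G)))
    fun χ _ hχ => ?_]
  · rw [Finset.sum_insert (by simp [P.na.symm, P.nb.symm]), Finset.sum_pair P.ne, c_triv h hψ]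
    push_cast
    ring
  · simp only [Finset.mem_insert, Finset.mem_singleton, not_or] at hχ
    rw [P.zero χ hχ.1 hχ.2.1 hχ.2.2]
    simp

theorem Triple.sum (T : Triple K ψ a b d) (h : Hyp t K s m) (hψ : ψ ≠ 1) {R : Type*} [CommRing R]
    (f : IrrCharacter G → R) :
    ∑ χ : IrrCharacter G, (c K ψ χ : R) * f χ =
      f (triv G) + (c K ψ a : R) * f a + (c K ψ b : R) * f b + (c K ψ d : R) * f d := by
  classical
  rw [← Finset.sum_subset (Finset.subset_univ ({triv G, a, b, d} : Finset (IrrCharacter G)))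
    fun χ _ hχ => ?_]
  · rw [Finset.sum_insert (by simp [T.na.symm, T.nb.symm, T.nd.symm]),
      Finset.sum_insert (by simp [T.ab, T.ad]), Finset.sum_pair T.bd, c_triv h hψ]
    push_cast
    ring
  · simp only [Finset.mem_insert, Finset.mem_singleton, not_or] at hχ
    rw [T.zero χ hχ.1 hχ.2.1 hχ.2.2.1 hχ.2.2.2]
    simp

theorem Pair.deg_eq (P : Pair K ψ a b) (h : Hyp t K s m) (hψ : ψ ≠ 1) :
    c K ψ a * deg a + c K ψ b * deg b = -1 := by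
  have := P.sum h hψ (R := ℤ) deg
  simp only [Int.cast_eq, sum_c_deg, deg_triv] at this
  linarith

theorem Triple.deg_eq (T : Triple K ψ a b d) (h : Hyp t K s m) (hψ : ψ ≠ 1) :
    c K ψ a * deg a + c K ψ b * deg b + c K ψ d * deg d = -1 := by
  have := T.sum h hψ (R := ℤ) deg
  simp only [Int.cast_eq, sum_c_deg, deg_triv] at this
  linarith

theorem sq_le (h : Hyp t K s m) (hψ : ψ ≠ 1) :
    ∑ χ : IrrCharacter G, c K ψ χ * c K ψ χ ≤ 4 := by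
  classical
  rw [inner_F h hψ hψ, if_pos rfl]
  split_ifs <;> norm_num

theorem sum_sq_erase (h : Hyp t K s m) [DecidableEq (IrrCharacter G)] [DecidableEq (K →* ℂˣ)]
    (hψ : ψ ≠ 1) :
    ∑ χ ∈ Finset.univ.erase (triv G), c K ψ χ * c K ψ χ = 2 + (if ψ = ψ⁻¹ then 1 else 0) := by
  have h1 := inner_F h hψ hψ
  rw [← Finset.add_sum_erase Finset.univ _ (Finset.mem_univ (triv G)), c_triv h hψ, if_pos rfl] at h1
  linarith

theorem c_range (h : Hyp t K s m) (hψ : ψ ≠ 1) {χ : IrrCharacter G} (hχ : χ ≠ triv G) :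
    c K ψ χ = 0 ∨ c K ψ χ = 1 ∨ c K ψ χ = -1 := by
  classical
  have h1 := sum_sq_erase h hψ
  have h2 := Finset.single_le_sum (f := fun χ : IrrCharacter G => c K ψ χ * c K ψ χ)
    (fun i _ => mul_self_nonneg _) (Finset.mem_erase.2 ⟨hχ, Finset.mem_univ χ⟩)
  simp only [h1] at h2
  have h3 : c K ψ χ * c K ψ χ ≤ 3 := by split_ifs at h2 <;> linarith
  have h4 : -1 ≤ c K ψ χ := by nlinarith
  have h5 : c K ψ χ ≤ 1 := by nlinarith
  omega

theorem card_supp (h : Hyp t K s m) [DecidableEq (IrrCharacter G)] [DecidableEq (K →* ℂˣ)]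
    (hψ : ψ ≠ 1) :
    (((Finset.univ.erase (triv G)).filter fun χ => c K ψ χ ≠ 0).card : ℤ) =
      2 + (if ψ = ψ⁻¹ then 1 else 0) := by
  rw [← sum_sq_erase h hψ, Finset.card_filter]
  push_cast
  refine Finset.sum_congr rfl fun χ hχ => ?_
  rcases c_range h hψ (Finset.ne_of_mem_erase hχ) with e | e | e <;> simp [e]

theorem exists_pair (h : Hyp t K s m) (hψ : ψ ≠ 1) (hi : ψ⁻¹ ≠ ψ) : ∃ a b, Pair K ψ a b := by
  classical
  have h1 := card_supp h hψ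
  rw [if_neg hi.symm, add_zero] at h1
  obtain ⟨a, b, hab, hS⟩ := Finset.card_eq_two.1 (by exact_mod_cast h1 :
    ((Finset.univ.erase (triv G)).filter fun χ => c K ψ χ ≠ 0).card = 2)
  have hm : ∀ χ, χ ∈ ({a, b} : Finset (IrrCharacter G)) ↔ χ ≠ triv G ∧ c K ψ χ ≠ 0 := fun χ => by
    rw [← hS]; simp
  have ha := (hm a).1 (by simp)
  have hb := (hm b).1 (by simp)
  refine ⟨a, b, ha.1, hb.1, hab, (c_range h hψ ha.1).resolve_left ha.2,
    (c_range h hψ hb.1).resolve_left hb.2, fun χ h1 h2 h3 => ?_⟩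
  by_contra h4
  have := (hm χ).2 ⟨h1, h4⟩
  simp [h2, h3] at this

theorem exists_triple (h : Hyp t K s m) (hψ : ψ ≠ 1) (hi : ψ⁻¹ = ψ) :
    ∃ a b d, Triple K ψ a b d := by
  classical
  have h1 := card_supp h hψ
  rw [if_pos hi.symm] at h1
  obtain ⟨a, b, d, hab, had, hbd, hS⟩ := Finset.card_eq_three.1 (by exact_mod_cast h1 :
    ((Finset.univ.erase (triv G)).filter fun χ => c K ψ χ ≠ 0).card = 3)
  have hm : ∀ χ, χ ∈ ({a, b, d} : Finset (IrrCharacter G)) ↔ χ ≠ triv G ∧ c K ψ χ ≠ 0 := fun χ => by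
    rw [← hS]; simp
  have ha := (hm a).1 (by simp)
  have hb := (hm b).1 (by simp)
  have hd := (hm d).1 (by simp)
  refine ⟨a, b, d, ha.1, hb.1, hd.1, hab, had, hbd, (c_range h hψ ha.1).resolve_left ha.2,
    (c_range h hψ hb.1).resolve_left hb.2, (c_range h hψ hd.1).resolve_left hd.2,
    fun χ h1 h2 h3 h4 => ?_⟩
  by_contra h5
  have := (hm χ).2 ⟨h1, h5⟩
  simp [h2, h3, h4] at this

/-- Two unrelated constituent sets share exactly one constituent, with the same sign. -/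
theorem Pair.overlap (P : Pair K ψ a b) (h : Hyp t K s m) (hψ : ψ ≠ 1) (hφ : φ ≠ 1) (h1 : φ ≠ ψ)
    (h2 : φ ≠ ψ⁻¹) :
    (c K φ a = c K ψ a ∧ c K φ b = 0) ∨ (c K φ a = 0 ∧ c K φ b = c K ψ b) := by
  classical
  have h3 := P.sum h hψ (R := ℤ) (fun χ => c K φ χ)
  have h4 := inner_F h hψ hφ
  rw [if_neg h1.symm, if_neg fun e => h2 (by rw [e]; exact (inv_inv φ).symm)] at h4
  simp only [Int.cast_eq, c_triv h hφ] at h3
  rw [h4] at h3
  rcases P.sa with e1 | e1 <;> rcases P.sb with e2 | e2 <;>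
    rcases c_range h hφ P.na with e3 | e3 | e3 <;> rcases c_range h hφ P.nb with e4 | e4 | e4 <;>
    simp_all

variable [Fintype (K →* ℂˣ)]

/-- The weighted sum `Σ c(ψ, χ) χ(t)² / χ(1)`. -/
noncomputable def A (t : G) (K : Subgroup G) (ψ : K →* ℂˣ) : ℂ :=
  ∑ χ : IrrCharacter G, (c K ψ χ : ℂ) * ((χ : G → ℂ) t ^ 2 / (χ : G → ℂ) 1)

theorem E_eq_A (h : Hyp t K s m) {k : K} (hk : k ≠ 1) :
    E t (k : G) = -∑ ψ : K →* ℂˣ, A t K ψ * (ψ k⁻¹ : ℂ) := by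
  have h1 : ∀ χ : IrrCharacter G,
      (χ : G → ℂ) t * (χ : G → ℂ) t * conj ((χ : G → ℂ) (k : G)) / (χ : G → ℂ) 1 =
        -∑ ψ : K →* ℂˣ, (c K ψ χ : ℂ) * ((χ : G → ℂ) t ^ 2 / (χ : G → ℂ) 1) * (ψ k⁻¹ : ℂ) := by
    intro χ
    rw [← char_inv (isCharacter_of_isIrr χ.2), ← InvMemClass.coe_inv,
      restr h (inv_ne_one.2 hk) χ, mul_neg, neg_div, Finset.mul_sum, Finset.sum_div]
    congr 1
    exact Finset.sum_congr rfl fun ψ _ => by ring
  rw [E, Finset.sum_congr rfl fun χ _ => h1 χ, Finset.sum_neg_distrib, Finset.sum_comm]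
  simp only [A, Finset.sum_mul]

theorem A_eq (h : Hyp t K s m) (hψ : ψ ≠ 1) (hφ : φ ≠ 1) : A t K ψ = A t K φ := by
  classical
  have hN : (Nat.card G : ℂ) ≠ 0 := card_ne_zero_complex G
  set C : ℂ := ((32 * m * m * m : ℕ) : ℂ) / (Nat.card G : ℂ)
  have hE : ∀ k : K, k ≠ 1 → ∑ θ : K →* ℂˣ, A t K θ * (θ k⁻¹ : ℂ) = -C := by
    intro k hk
    have e := E_K h k.2 (fun e => hk (Subtype.ext e))
    rw [E_eq_A h hk] at e
    simp only [C]
    rw [← e]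
    field_simp
  have key : ∀ θ : K →* ℂˣ, θ ≠ 1 →
      ((2 * m : ℕ) : ℂ) * A t K θ = ∑ θ' : K →* ℂˣ, A t K θ' + C := by
    intro θ hθ
    have e1 : ∑ k : K, (θ k : ℂ) * ∑ θ' : K →* ℂˣ, A t K θ' * (θ' k⁻¹ : ℂ) =
        ((2 * m : ℕ) : ℂ) * A t K θ := by
      simp only [Finset.mul_sum]
      rw [Finset.sum_comm]
      have e2 : ∀ θ' : K →* ℂˣ, ∑ k : K, (θ k : ℂ) * (A t K θ' * (θ' k⁻¹ : ℂ)) =
          if θ' = θ then ((2 * m : ℕ) : ℂ) * A t K θ' else 0 := by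
        intro θ'
        have e3 : ∀ k : K, (θ k : ℂ) * (A t K θ' * (θ' k⁻¹ : ℂ)) =
            A t K θ' * ((θ * θ'⁻¹) k : ℂ) := fun k => by
          rw [MonoidHom.mul_apply, MonoidHom.inv_apply, ← map_inv, Units.val_mul]; ring
        rw [Finset.sum_congr rfl fun k _ => e3 k, ← Finset.mul_sum, sum_apply h]
        have e4 : θ * θ'⁻¹ = 1 ↔ θ' = θ :=
          (mul_inv_eq_one (G := K →* ℂˣ) (a := θ) (b := θ')).trans eq_comm
        simp only [e4]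
        split_ifs <;> ring
      rw [Finset.sum_congr rfl fun θ' _ => e2 θ', Finset.sum_ite_eq', if_pos (Finset.mem_univ _)]
    rw [← e1, ← Finset.add_sum_erase Finset.univ _ (Finset.mem_univ (1 : K))]
    have e6 : ∀ k ∈ Finset.univ.erase (1 : K),
        (θ k : ℂ) * ∑ θ' : K →* ℂˣ, A t K θ' * (θ' k⁻¹ : ℂ) = (θ k : ℂ) * -C := fun k hk => by
      rw [hE k (Finset.ne_of_mem_erase hk)]
    rw [Finset.sum_congr rfl e6, ← Finset.sum_mul]
    have e5 : ∑ k ∈ Finset.univ.erase (1 : K), (θ k : ℂ) = -1 := by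
      have := sum_apply h θ
      rw [if_neg hθ, ← Finset.add_sum_erase Finset.univ _ (Finset.mem_univ (1 : K)), map_one,
        Units.val_one] at this
      linear_combination this
    rw [e5]
    simp
  have hne : ((2 * m : ℕ) : ℂ) ≠ 0 := Nat.cast_ne_zero.2 (by have := h.mpos; omega)
  exact mul_left_cancel₀ hne ((key ψ hψ).trans (key φ hφ).symm)

theorem restr_t (h : Hyp t K s m) (χ : IrrCharacter G) :
    (χ : G → ℂ) t = -∑ ψ : K →* ℂˣ, (c K ψ χ : ℂ) * (ψ ⟨t, h.tK⟩ : ℂ) :=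
  restr h (k := ⟨t, h.tK⟩) (fun e => ne_one_of_orderOf h.ht (congrArg Subtype.val e)) χ

omit [Fintype K] [Fintype (K →* ℂˣ)] in
theorem sign_t (h : Hyp t K s m) (ψ : K →* ℂˣ) :
    ((ψ ⟨t, h.tK⟩ : ℂ) = 1 ∨ (ψ ⟨t, h.tK⟩ : ℂ) = -1) ∧
      (ψ⁻¹ ⟨t, h.tK⟩ : ℂ) = (ψ ⟨t, h.tK⟩ : ℂ) := by
  have e : (⟨t, h.tK⟩ : K) * ⟨t, h.tK⟩ = 1 := Subtype.ext (mul_self_of_orderOf h.ht)
  refine ⟨mul_self_eq_one_iff.1 ?_, ?_⟩
  · rw [← Units.val_mul, ← map_mul, e, map_one, Units.val_one]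
  · rw [MonoidHom.inv_apply, ← map_inv, inv_eq_of_mul_eq_one_right e]

end Cfsg.Agent.Lib.BSW
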