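import Cfsg.Agent.Lib.BSW.Rest

/-!
Brauer–Suzuki–Wall configuration: the case in which the distinguished elements are inverted by
involutions (helper3).
-/

set_option autoImplicit false

namespace Cfsg.Agent.Lib.BSW

open Cfsg

universe u

variable {G : Type u} [Group G] [Finite G] {t s : G} {K : Subgroup G} {m : ℕ}

/-- Counting the conjugates of the non-identity elements of a trivial intersection subgroup. -/
theorem ti_count (Q : Subgroup G) (S : Set G) (hS : ∀ g ∈ S, ∀ y : G, y * g * y⁻¹ ∈ S)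
    (hQ : ∀ x ∈ Q, x ≠ 1 → x ∈ S)
    (hTI : ∀ x ∈ Q, x ≠ 1 → ∀ y : G, y * x * y⁻¹ ∈ Q → y ∈ Subgroup.normalizer (Q : Set G)) :
    (Subgroup.normalizer (Q : Set G)).index * (Nat.card Q - 1) ≤ Nat.card S ∧
      ((∀ g ∈ S, ∃ y : G, y * g * y⁻¹ ∈ Q) → (1 : G) ∉ S →
        (Subgroup.normalizer (Q : Set G)).index * (Nat.card Q - 1) = Nat.card S) := by
  set N := Subgroup.normalizer (Q : Set G) with hN
  let T : Set G := (Q : Set G) \ {1}
  have hT : Nat.card T = Nat.card Q - 1 := by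
    rw [Nat.card_coe_set_eq, Set.ncard_sdiff (Set.singleton_subset_iff.2 Q.one_mem) (Set.toFinite _),
      Set.ncard_singleton, ← Nat.card_coe_set_eq]
    rfl
  let f : (G ⧸ N) × T → S := fun p =>
    ⟨p.1.out * p.2.1 * p.1.out⁻¹, hS _ (hQ _ p.2.2.1 p.2.2.2) _⟩
  have hinj : Function.Injective f := by
    rintro ⟨a, x, hx⟩ ⟨b, z, hz⟩ e
    have e' : a.out * x * a.out⁻¹ = b.out * z * b.out⁻¹ := congrArg Subtype.val e
    have h1 : (b.out⁻¹ * a.out) * x * (b.out⁻¹ * a.out)⁻¹ = z := by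
      calc (b.out⁻¹ * a.out) * x * (b.out⁻¹ * a.out)⁻¹ =
          b.out⁻¹ * (a.out * x * a.out⁻¹) * b.out := by group
        _ = z := by rw [e']; group
    have h2 := hTI x hx.1 hx.2 _ (by rw [h1]; exact hz.1)
    have hab : b = a := by
      rw [← QuotientGroup.out_eq' a, ← QuotientGroup.out_eq' b]
      exact QuotientGroup.eq.2 h2
    subst hab
    have hxz : x = z := by simpa using e'
    subst hxz
    rfl
  have hc : Nat.card ((G ⧸ N) × T) = N.index * (Nat.card Q - 1) := by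
    rw [Nat.card_prod, hT]; rfl
  refine ⟨hc ▸ Nat.card_le_card_of_injective f hinj, fun hsur h1S =>
    hc ▸ Nat.card_eq_of_bijective f ⟨hinj, fun ⟨g, hg⟩ => ?_⟩⟩
  obtain ⟨y, hy⟩ := hsur g hg
  obtain ⟨n, hn⟩ := QuotientGroup.mk_out_eq_mul N y⁻¹
  have hx : (n : G)⁻¹ * (y * g * y⁻¹) * (n : G) ∈ T := by
    refine ⟨(Subgroup.mem_normalizer_iff.1 n.2 _).2 (by simpa [mul_assoc] using hy), fun e => ?_⟩
    have e' : g = 1 := by simpa [mul_assoc, mul_eq_one_iff_eq_inv] using (Set.mem_singleton_iff.1 e)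
    exact h1S (e' ▸ hg)
  refine ⟨(((y⁻¹ : G) : G ⧸ N), ⟨_, hx⟩), Subtype.ext ?_⟩
  show ((y⁻¹ : G) : G ⧸ N).out * _ * _⁻¹ = g
  rw [hn]
  group

/-- The normaliser of the centraliser of an element inverted by `t`. -/
theorem Hyp.card_normalizer (h : Hyp t K s m) {g : G} (hg : Rest K g) (ht' : t ∈ Invs g)
    {N : Subgroup G}
    (hN : N = Subgroup.normalizer ((Subgroup.centralizer ({g} : Set G) : Subgroup G) : Set G)) :
    Nat.card N = Nat.card (Subgroup.centralizer ({g} : Set G)) * Nat.card (N ⊓ K : Subgroup G) ∧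
      N = Subgroup.centralizer ({g} : Set G) ⊔ (N ⊓ K) := by
  set Q := Subgroup.centralizer ({g} : Set G) with hQ
  have hQN : Q ≤ N := hN ▸ Subgroup.le_normalizer
  have hdec : ∀ n ∈ N, ∃ d ∈ Q, d * n ∈ N ⊓ K := fun n hn => by
    obtain ⟨d, hd, hk⟩ := h.norm_decomp hg ht' (hN ▸ hn)
    exact ⟨d, hd, mul_mem (hQN hd) hn, hk⟩
  refine ⟨?_, le_antisymm (fun n hn => ?_) (sup_le hQN inf_le_left)⟩
  · rw [← Nat.card_prod]
    refine (Nat.card_eq_of_bijective (fun p : Q × (N ⊓ K : Subgroup G) =>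
      (⟨p.1.1 * p.2.1, mul_mem (hQN p.1.2) p.2.2.1⟩ : N)) ⟨?_, ?_⟩).symm
    · rintro ⟨a, k⟩ ⟨b, l⟩ e
      have e' : a.1 * k.1 = b.1 * l.1 := congrArg Subtype.val e
      have h1 : (b.1)⁻¹ * a.1 = l.1 * (k.1)⁻¹ := by
        calc (b.1)⁻¹ * a.1 = (b.1)⁻¹ * (a.1 * k.1) * (k.1)⁻¹ := by group
          _ = _ := by rw [e']; group
      have h2 : (b.1)⁻¹ * a.1 = 1 := by
        by_contra hne
        exact h.rest_not_mem (h.rest_cent hg (mul_mem (inv_mem b.2) a.2) hne)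
          (h.le (h1 ▸ mul_mem l.2.2 (inv_mem k.2.2)))
      rw [h2] at h1
      have ea : a = b := Subtype.ext (inv_mul_eq_one.1 h2).symm
      have ek : k = l := Subtype.ext (mul_inv_eq_one.1 h1.symm).symm
      rw [ea, ek]
    · rintro ⟨n, hn⟩
      obtain ⟨d, hd, hk⟩ := hdec n hn
      exact ⟨(⟨d⁻¹, inv_mem hd⟩, ⟨_, hk⟩), Subtype.ext (inv_mul_cancel_left d n)⟩
  · obtain ⟨d, hd, hk⟩ := hdec n hn
    rw [← inv_mul_cancel_left d n]
    exact mul_mem (Subgroup.mem_sup_left (inv_mem hd)) (Subgroup.mem_sup_right hk)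

theorem Hyp.plus (h : Hyp t K s m) (hG : Nat.card G = 2 * m * ((4 * m + 1) * (4 * m + 2)))
    (P : G → Prop) (hinv : ∀ g y : G, P (y * g * y⁻¹) ↔ P g)
    (hcard : Nat.card {g : G | Rest K g ∧ P g} = (4 * m + 1) ^ 2 - 1)
    (hpos : ∀ g : G, Rest K g → P g → Nat.card (Invs g) = 4 * m + 1)
    (hneg : ∀ g : G, Rest K g → ¬ P g → Nat.card (Invs g) = 2 * m + 1) :
    ∃ Q : Subgroup G, Nat.card Q = 4 * m + 1 ∧
      (∀ x ∈ Q, x ≠ 1 → Subgroup.centralizer ({x} : Set G) = Q) ∧ Q ⊓ K = ⊥ ∧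
      Subgroup.normalizer (Q : Set G) = Q ⊔ K := by
  have hm := h.mpos
  obtain ⟨⟨g₀, hg₀, hP₀⟩⟩ : Nonempty {g : G | Rest K g ∧ P g} := by
    refine (Nat.card_pos_iff.1 ?_).1
    rw [hcard]
    have : 2 ≤ (4 * m + 1) ^ 2 := by nlinarith
    omega
  obtain ⟨⟨u, hu⟩⟩ : Nonempty (Invs g₀) :=
    (Nat.card_pos_iff.1 (by rw [hpos g₀ hg₀ hP₀]; omega)).1
  obtain ⟨y, ht'⟩ := h.exists_conj_invs hu
  have hg : Rest K (y * g₀ * y⁻¹) := hg₀.conj y
  have hP : P (y * g₀ * y⁻¹) := (hinv _ _).2 hP₀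
  generalize y * g₀ * y⁻¹ = g at hg hP ht'
  set Q := Subgroup.centralizer ({g} : Set G) with hQdef
  have hQ : Nat.card Q = 4 * m + 1 := by rw [← h.card_invs hg ht', hpos g hg hP]
  have hx : ∀ x ∈ Q, x ≠ 1 →
      Rest K x ∧ P x ∧ Subgroup.centralizer ({x} : Set G) = Q := by
    intro x hx hx1
    obtain ⟨hxr, hux, hc⟩ := h.cent_eq hg ht' hx hx1
    refine ⟨hxr, ?_, hc⟩
    by_contra hPx
    have := hneg x hxr hPx
    rw [h.card_invs hxr hux, hc, hQ] at this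
    omega
  have hTI : ∀ x ∈ Q, x ≠ 1 → ∀ z : G, z * x * z⁻¹ ∈ Q → z ∈ Subgroup.normalizer (Q : Set G) := by
    intro x hxQ hx1 z hz
    have h1 := (hx _ hz (fun e => hx1 (conj_eq_one_iff.1 e))).2.2
    have h2 := (hx x hxQ hx1).2.2
    refine Subgroup.mem_normalizer_iff.2 fun a => ?_
    have key : ∀ a : G, a ∈ Subgroup.centralizer ({x} : Set G) ↔
        z * a * z⁻¹ ∈ Subgroup.centralizer ({z * x * z⁻¹} : Set G) := fun a => by
      simp only [Subgroup.mem_centralizer_singleton_iff]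
      rw [show z * a * z⁻¹ * (z * x * z⁻¹) = z * (a * x) * z⁻¹ by group,
        show z * x * z⁻¹ * (z * a * z⁻¹) = z * (x * a) * z⁻¹ by group]
      exact ⟨fun e => by rw [e], fun e => mul_left_cancel (mul_right_cancel e)⟩
    have := key a
    rwa [h1, h2] at this
  have hS : ∀ a ∈ {g : G | Rest K g ∧ P g}, ∀ z : G, z * a * z⁻¹ ∈ {g : G | Rest K g ∧ P g} :=
    fun a ha z => ⟨ha.1.conj z, (hinv a z).2 ha.2⟩
  have hcount := (ti_count Q _ hS (fun x hxQ hx1 => ⟨(hx x hxQ hx1).1, (hx x hxQ hx1).2.1⟩) hTI).1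
  rw [hcard, hQ] at hcount
  obtain ⟨hN1, hN2⟩ := h.card_normalizer hg ht' (N := Subgroup.normalizer (Q : Set G)) rfl
  have hle : Nat.card (Subgroup.normalizer (Q : Set G) ⊓ K : Subgroup G) ≤ 2 * m := by
    rw [← h.card]
    exact Nat.le_of_dvd Nat.card_pos (Subgroup.card_dvd_of_le inf_le_right)
  have hidx := (Subgroup.normalizer (Q : Set G)).index_mul_card
  rw [hN1, hQ, hG] at hidx
  have hi : (Subgroup.normalizer (Q : Set G)).index ≤ 4 * m + 2 := by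
    have e : (4 * m + 1) ^ 2 - 1 = (4 * m + 2) * (4 * m) := by
      rw [Nat.sub_eq_iff_eq_add (Nat.one_le_pow _ _ (by omega))]; ring
    rw [e, Nat.add_sub_cancel] at hcount
    exact Nat.le_of_mul_le_mul_right hcount (by omega)
  have hfull : Nat.card (Subgroup.normalizer (Q : Set G) ⊓ K : Subgroup G) = 2 * m := by
    refine le_antisymm hle ?_
    generalize Nat.card (Subgroup.normalizer (Q : Set G) ⊓ K : Subgroup G) = w at hidx ⊢
    generalize (Subgroup.normalizer (Q : Set G)).index = i at hidx hi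
    have h1 : i * ((4 * m + 1) * w) ≤ (4 * m + 2) * ((4 * m + 1) * w) := Nat.mul_le_mul_right _ hi
    rw [hidx] at h1
    have h2 : (2 * m) * ((4 * m + 1) * (4 * m + 2)) ≤ w * ((4 * m + 1) * (4 * m + 2)) :=
      h1.trans_eq (by ring)
    exact Nat.le_of_mul_le_mul_right h2 (by positivity)
  have heq : Subgroup.normalizer (Q : Set G) ⊓ K = K :=
    Subgroup.eq_of_le_of_card_ge inf_le_right (by rw [hfull, h.card])
  rw [heq] at hN2
  refine ⟨Q, hQ, fun x hxQ hx1 => (hx x hxQ hx1).2.2, ?_, hN2⟩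
  refine (Subgroup.eq_bot_iff_forall _).2 fun x hxm => ?_
  by_contra hx1
  exact h.rest_not_mem (hx x hxm.1 hx1).1 (h.le hxm.2)

end Cfsg.Agent.Lib.BSW
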