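import Cfsg.Agent.Lib.BSW.Basic

/-!
Brauer–Suzuki–Wall configuration: elements outside the conjugates of `K` inverted by an
involution (helper3).
-/

set_option autoImplicit false

namespace Cfsg.Agent.Lib.BSW

open Cfsg

universe u

variable {G : Type u} [Group G] [Finite G] {t s : G} {K : Subgroup G} {m : ℕ}

/-- A fixed point free involution inverts. -/
theorem inverts {D : Subgroup G} {u : G} (hu : u * u = 1)
    (hn : ∀ d ∈ D, u * d * u⁻¹ ∈ D) (hf : ∀ d ∈ D, u * d * u⁻¹ = d → d = 1) :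
    ∀ d ∈ D, u * d * u⁻¹ = d⁻¹ := by
  let φ : D → D := fun d => ⟨(d : G)⁻¹ * (u * d * u⁻¹), D.mul_mem (D.inv_mem d.2) (hn _ d.2)⟩
  have hinj : Function.Injective φ := by
    intro a b hab
    have h1 : (a : G)⁻¹ * (u * a * u⁻¹) = (b : G)⁻¹ * (u * b * u⁻¹) := congrArg Subtype.val hab
    have h2 : u * ((b : G) * (a : G)⁻¹) * u⁻¹ = (b : G) * (a : G)⁻¹ := by
      have e : u * (b : G) * u⁻¹ = (b : G) * ((a : G)⁻¹ * (u * a * u⁻¹)) := by
        rw [h1, mul_inv_cancel_left]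
      calc u * ((b : G) * (a : G)⁻¹) * u⁻¹ = (u * b * u⁻¹) * (u * a * u⁻¹)⁻¹ := by group
        _ = _ := by rw [e]; group
    exact Subtype.ext (mul_inv_eq_one.1 (hf _ (D.mul_mem b.2 (D.inv_mem a.2)) h2)).symm
  intro d hd
  obtain ⟨a, ha⟩ := (Finite.injective_iff_surjective.1 hinj) ⟨d, hd⟩
  have h1 : (a : G)⁻¹ * (u * a * u⁻¹) = d := congrArg Subtype.val ha
  have hu' : u⁻¹ = u := inv_eq_of_mul_eq_one_right hu
  rw [← h1]
  calc u * ((a : G)⁻¹ * (u * a * u⁻¹)) * u⁻¹ = (u * a * u⁻¹)⁻¹ * (u * u) * a * (u⁻¹ * u⁻¹) := by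
        group
    _ = _ := by rw [hu', hu]; group

theorem Hyp.fixed_rest (h : Hyp t K s m) {u w : G} (hu : orderOf u = 2) (hw : Rest K w) :
    u * w * u⁻¹ ≠ w := by
  intro e
  have h1 : u * w = w * u := by rwa [mul_inv_eq_iff_eq_mul] at e
  exact h.not_rest_t hu (h.rest_of_commute hw (ne_one_of_orderOf hu) h1)

theorem Hyp.rest_cent (h : Hyp t K s m) {g c : G} (hg : Rest K g)
    (hc : c ∈ Subgroup.centralizer ({g} : Set G)) (hc1 : c ≠ 1) : Rest K c :=
  h.rest_of_commute hg hc1 (Subgroup.mem_centralizer_singleton_iff.1 hc)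

theorem Hyp.rest_not_mem (h : Hyp t K s m) {g : G} (hg : Rest K g) :
    g ∉ Subgroup.centralizer ({t} : Set G) :=
  fun h' => hg.2 (h.covered_of_mem_H h' hg.1)

theorem Hyp.odd_cent (h : Hyp t K s m) {g : G} (hg : Rest K g) :
    Odd (Nat.card (Subgroup.centralizer ({g} : Set G))) := by
  rw [← Nat.not_even_iff_odd, even_iff_two_dvd]
  intro h2
  haveI : Fact (Nat.Prime 2) := ⟨Nat.prime_two⟩
  obtain ⟨x, hx⟩ := exists_prime_orderOf_dvd_card' 2 h2
  have hx' : orderOf (x : G) = 2 := by rw [Subgroup.orderOf_coe]; exact hx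
  exact h.not_rest_t hx' (h.rest_cent hg x.2 (ne_one_of_orderOf hx'))

theorem Hyp.mem_invs_iff (h : Hyp t K s m) {g u : G} (hg : Rest K g) :
    u ∈ Invs g ↔ orderOf u = 2 ∧ u * g * u⁻¹ = g⁻¹ := by
  refine ⟨fun ⟨hu, hug⟩ => ⟨hu, ?_⟩, fun ⟨hu, e⟩ => ⟨hu, orderOf_eq_two (fun e1 => ?_) ?_⟩⟩
  · rw [inv_eq_self_of_orderOf hu]
    exact eq_inv_of_mul_eq_one_left (by rw [← mul_self_of_orderOf hug]; group)
  · have : g = u := by rw [← inv_eq_of_mul_eq_one_right e1, inv_eq_self_of_orderOf hu]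
    exact h.not_rest_t hu (this ▸ hg)
  · rw [inv_eq_self_of_orderOf hu] at e
    calc u * g * (u * g) = (u * g * u) * g := by group
      _ = 1 := by rw [e, inv_mul_cancel]

theorem Hyp.invs_inverts (h : Hyp t K s m) {g u : G} (hg : Rest K g) (hu : u ∈ Invs g) {c : G}
    (hc : c ∈ Subgroup.centralizer ({g} : Set G)) : u * c * u⁻¹ = c⁻¹ := by
  obtain ⟨hu2, hug⟩ := (h.mem_invs_iff hg).1 hu
  refine inverts (mul_self_of_orderOf hu2) (fun d hd => ?_) (fun d hd e => ?_) c hc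
  · rw [Subgroup.mem_centralizer_singleton_iff] at hd ⊢
    have hd' : d * g⁻¹ = g⁻¹ * d := by
      calc d * g⁻¹ = g⁻¹ * (g * d) * g⁻¹ := by group
        _ = g⁻¹ * (d * g) * g⁻¹ := by rw [hd]
        _ = _ := by group
    calc u * d * u⁻¹ * g = u * (d * (u⁻¹ * g * u)) * u⁻¹ := by group
      _ = u * (d * g⁻¹) * u⁻¹ := by
          have : u⁻¹ * g * u = g⁻¹ := by
            have := hug; rw [inv_eq_self_of_orderOf hu2] at this ⊢; exact this
          rw [this]
      _ = u * (g⁻¹ * d) * u⁻¹ := by rw [hd']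
      _ = (u * g * u⁻¹)⁻¹ * (u * d * u⁻¹) := by group
      _ = g * (u * d * u⁻¹) := by rw [hug, inv_inv]
  · by_contra hd1
    exact h.fixed_rest hu2 (h.rest_cent hg hd hd1) e

theorem Hyp.cent_comm (h : Hyp t K s m) {g u : G} (hg : Rest K g) (hu : u ∈ Invs g) {a b : G}
    (ha : a ∈ Subgroup.centralizer ({g} : Set G)) (hb : b ∈ Subgroup.centralizer ({g} : Set G)) :
    a * b = b * a := by
  have h1 := h.invs_inverts hg hu (mul_mem ha hb)
  have h2 : (a * b)⁻¹ = a⁻¹ * b⁻¹ := by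
    rw [← h1, ← h.invs_inverts hg hu ha, ← h.invs_inverts hg hu hb]; group
  rw [mul_inv_rev] at h2
  have h3 := congrArg (fun z : G => z⁻¹) h2
  simp only [mul_inv_rev, inv_inv] at h3
  exact h3

theorem Hyp.card_invs (h : Hyp t K s m) {g u : G} (hg : Rest K g) (hu : u ∈ Invs g) :
    Nat.card (Invs g) = Nat.card (Subgroup.centralizer ({g} : Set G)) := by
  obtain ⟨hu2, hug⟩ := (h.mem_invs_iff hg).1 hu
  refine Nat.card_congr
    { toFun := fun v => ⟨u * v.1, Subgroup.mem_centralizer_singleton_iff.2 ?_⟩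
      invFun := fun c => ⟨u * c.1, (h.mem_invs_iff hg).2 ⟨orderOf_eq_two (fun e => ?_) ?_, ?_⟩⟩
      left_inv := fun v => Subtype.ext (by simp [← mul_assoc, mul_self_of_orderOf hu2])
      right_inv := fun c => Subtype.ext (by simp [← mul_assoc, mul_self_of_orderOf hu2]) }
  · obtain ⟨-, hvg⟩ := (h.mem_invs_iff hg).1 v.2
    calc u * v.1 * g = u * (v.1 * g * (v.1)⁻¹) * v.1 := by group
      _ = (u * g⁻¹ * u⁻¹) * (u * v.1) := by rw [hvg]; group
      _ = _ := by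
        rw [show u * g⁻¹ * u⁻¹ = (u * g * u⁻¹)⁻¹ by group, hug, inv_inv]
  · have hcu : (c : G) = u := by
      rw [← inv_eq_of_mul_eq_one_right e, inv_eq_self_of_orderOf hu2]
    have h1 := Subgroup.mem_centralizer_singleton_iff.1 (hcu ▸ c.2)
    exact h.fixed_rest hu2 hg (by rw [h1, mul_inv_cancel_right])
  · have h1 := h.invs_inverts hg hu c.2
    rw [inv_eq_self_of_orderOf hu2] at h1
    calc u * (c : G) * (u * c) = (u * c * u) * c := by group
      _ = 1 := by rw [h1, inv_mul_cancel]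
  · calc u * (c : G) * g * (u * c)⁻¹ = u * ((c : G) * g * (c : G)⁻¹) * u⁻¹ := by group
      _ = g⁻¹ := by
        rw [Subgroup.mem_centralizer_singleton_iff.1 c.2, mul_inv_cancel_right, hug]

theorem Hyp.cent_eq (h : Hyp t K s m) {g u : G} (hg : Rest K g) (hu : u ∈ Invs g) {c : G}
    (hc : c ∈ Subgroup.centralizer ({g} : Set G)) (hc1 : c ≠ 1) :
    Rest K c ∧ u ∈ Invs c ∧
      Subgroup.centralizer ({c} : Set G) = Subgroup.centralizer ({g} : Set G) := by
  have hcr := h.rest_cent hg hc hc1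
  have huc : u ∈ Invs c := (h.mem_invs_iff hcr).2 ⟨hu.1, h.invs_inverts hg hu hc⟩
  refine ⟨hcr, huc, le_antisymm (fun x hx => ?_) fun x hx => ?_⟩
  · refine Subgroup.mem_centralizer_singleton_iff.2 (h.cent_comm hcr huc hx ?_)
    exact Subgroup.mem_centralizer_singleton_iff.2 (Subgroup.mem_centralizer_singleton_iff.1 hc).symm
  · exact Subgroup.mem_centralizer_singleton_iff.2 (h.cent_comm hg hu hx hc)

omit [Finite G] in
theorem invs_conj {g u : G} (y : G) (hu : u ∈ Invs g) : y * u * y⁻¹ ∈ Invs (y * g * y⁻¹) := by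
  refine ⟨by rw [orderOf_conj]; exact hu.1, ?_⟩
  rw [show y * u * y⁻¹ * (y * g * y⁻¹) = y * (u * g) * y⁻¹ by group, orderOf_conj]
  exact hu.2

theorem Hyp.exists_conj_invs (h : Hyp t K s m) {g u : G} (hu : u ∈ Invs g) :
    ∃ y : G, t ∈ Invs (y * g * y⁻¹) := by
  obtain ⟨y, hy⟩ := isConj_iff.1 (h.conj u t hu.1 h.ht)
  exact ⟨y, hy ▸ invs_conj y hu⟩

theorem Hyp.norm_decomp (h : Hyp t K s m) {g : G} (hg : Rest K g) (ht' : t ∈ Invs g) {n : G}
    (hn : n ∈ Subgroup.normalizer ((Subgroup.centralizer ({g} : Set G) : Subgroup G) : Set G)) :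
    ∃ d ∈ Subgroup.centralizer ({g} : Set G), d * n ∈ K := by
  have hgc : g ∈ Subgroup.centralizer ({g} : Set G) := Subgroup.mem_centralizer_singleton_iff.2 rfl
  have h1 : n⁻¹ * g * n ∈ Subgroup.centralizer ({g} : Set G) :=
    (Subgroup.mem_normalizer_iff.1 hn _).2 (by simpa [mul_assoc] using hgc)
  have hinvs : n * t * n⁻¹ ∈ Invs g := by
    refine (h.mem_invs_iff hg).2 ⟨by rw [orderOf_conj]; exact h.ht, ?_⟩
    have h2 := h.invs_inverts hg ht' h1
    calc n * t * n⁻¹ * g * (n * t * n⁻¹)⁻¹ = n * (t * (n⁻¹ * g * n) * t⁻¹) * n⁻¹ := by group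
      _ = _ := by rw [h2]; group
  have hc0 : t * (n * t * n⁻¹) ∈ Subgroup.centralizer ({g} : Set G) := by
    refine Subgroup.mem_centralizer_singleton_iff.2 ?_
    obtain ⟨-, e2⟩ := (h.mem_invs_iff hg).1 hinvs
    obtain ⟨-, e1⟩ := (h.mem_invs_iff hg).1 ht'
    calc t * (n * t * n⁻¹) * g = t * (n * t * n⁻¹ * g * (n * t * n⁻¹)⁻¹) * (n * t * n⁻¹) := by
          group
      _ = t * g⁻¹ * t⁻¹ * (t * (n * t * n⁻¹)) := by rw [e2]; group
      _ = _ := by rw [show t * g⁻¹ * t⁻¹ = (t * g * t⁻¹)⁻¹ by group, e1, inv_inv]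
  obtain ⟨d₀, hd₀⟩ := (powCoprime (G := Subgroup.centralizer ({g} : Set G))
    (Nat.coprime_two_right.2 (h.odd_cent hg))).surjective ⟨_, hc0⟩
  have hd : (d₀ : G) ^ 2 = t * (n * t * n⁻¹) := congrArg Subtype.val hd₀
  have hti : t * (d₀ : G) * t⁻¹ = (d₀ : G)⁻¹ := h.invs_inverts hg ht' d₀.2
  rw [inv_eq_self_of_orderOf h.ht] at hti
  have hH : (d₀ : G) * n ∈ Subgroup.centralizer ({t} : Set G) := by
    refine Subgroup.mem_centralizer_singleton_iff.2 ?_
    have e : n * t = t * (d₀ : G) ^ 2 * n := by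
      rw [hd, ← mul_assoc, mul_self_of_orderOf h.ht]; group
    calc (d₀ : G) * n * t = (d₀ : G) * t * (d₀ : G) ^ 2 * n := by rw [mul_assoc, e]; group
      _ = (t * t) * ((d₀ : G) * t * (d₀ : G) ^ 2 * n) := by rw [mul_self_of_orderOf h.ht, one_mul]
      _ = t * ((t * (d₀ : G) * t) * (d₀ : G) ^ 2 * n) := by group
      _ = t * ((d₀ : G) * n) := by rw [hti, pow_two]; group
  refine ⟨d₀, d₀.2, ?_⟩
  by_contra hK
  obtain ⟨hv2, -⟩ := h.outside hH hK
  have hdn : (d₀ : G) * n ∈ Subgroup.normalizer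
      ((Subgroup.centralizer ({g} : Set G) : Subgroup G) : Set G) :=
    mul_mem (Subgroup.le_normalizer d₀.2) hn
  have hvinv : ((d₀ : G) * n) ∈ Invs g := by
    refine (h.mem_invs_iff hg).2 ⟨hv2, inverts (mul_self_of_orderOf hv2)
      (fun x hx => (Subgroup.mem_normalizer_iff.1 hdn x).1 hx) (fun x hx e => ?_) g hgc⟩
    by_contra hx1
    exact h.fixed_rest hv2 (h.rest_cent hg hx hx1) e
  have hne : t * ((d₀ : G) * n) ≠ 1 := fun e => hK (by
    rw [← inv_eq_of_mul_eq_one_right e, inv_eq_self_of_orderOf h.ht]; exact h.tK)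
  have hmem : t * ((d₀ : G) * n) ∈ Subgroup.centralizer ({g} : Set G) := by
    refine Subgroup.mem_centralizer_singleton_iff.2 ?_
    obtain ⟨-, e1⟩ := (h.mem_invs_iff hg).1 ht'
    obtain ⟨-, e2⟩ := (h.mem_invs_iff hg).1 hvinv
    generalize (d₀ : G) * n = v at *
    calc t * v * g = t * (v * g * v⁻¹) * v := by group
      _ = t * g⁻¹ * t⁻¹ * (t * v) := by rw [e2]; group
      _ = _ := by rw [show t * g⁻¹ * t⁻¹ = (t * g * t⁻¹)⁻¹ by group, e1, inv_inv]
  exact h.rest_not_mem (h.rest_cent hg hmem hne) (mul_mem (h.le h.tK) hH)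

theorem Hyp.t_mem_normalizer (h : Hyp t K s m) {g : G} (hg : Rest K g) (ht' : t ∈ Invs g) :
    t ∈ Subgroup.normalizer ((Subgroup.centralizer ({g} : Set G) : Subgroup G) : Set G) := by
  refine Subgroup.mem_normalizer_iff.2 fun x => ⟨fun hx => ?_, fun hx => ?_⟩
  · rw [h.invs_inverts hg ht' hx]; exact inv_mem hx
  · have := h.invs_inverts hg ht' hx
    have e : x = (t * x * t⁻¹)⁻¹ := by
      rw [← this, inv_eq_self_of_orderOf h.ht]
      calc x = (t * t) * x * (t * t) := by rw [mul_self_of_orderOf h.ht]; group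
        _ = _ := by group
    rw [e]; exact inv_mem hx

end Cfsg.Agent.Lib.BSW
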